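import Cfsg.Agent.B.Tr
import Cfsg.Agent.B.Cov4
import Cfsg.Agent.B.Orth

/-!
# Dade's theorem on isomorphic principal blocks.
-/

set_option autoImplicit false
set_option linter.unusedSectionVars false

namespace Cfsg.Agent.B

open MonoidAlgebra Subgroup Cfsg.Agent.H3 Cfsg.Agent.H2

theorem nil_nak {k A : Type*} [CommRing k] [Ring A] [Algebra k A] (s : Finset A) (hn : ∀ a ∈ s, IsNilpotent a)
    (hc : ∀ a ∈ s, ∀ b ∈ s, Commute a b) {V : Submodule k A} (hV : ∀ a ∈ s, ∀ v ∈ V, a * v ∈ V) :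
    ∀ W : Submodule k A, (∀ a ∈ s, ∀ v ∈ W, a * v ∈ W) →
      V ≤ W ⊔ ⨆ a ∈ s, V.map (LinearMap.mulLeft k a) → V ≤ W := by
  classical
  induction s using Finset.induction_on with
  | empty => intro W _ h; simpa using h
  | insert a s _ ih =>
    intro W hW h
    have h1 : V ≤ W ⊔ V.map (LinearMap.mulLeft k a) := by
      refine ih (fun b hb => hn b (by simp [hb])) (fun b hb c hc' => hc b (by simp [hb]) c (by simp [hc']))
        (fun b hb => hV b (by simp [hb])) _ (fun b hb v hv => ?_) ?_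
      · obtain ⟨w, hw, _, ⟨x, hx, rfl⟩, rfl⟩ := Submodule.mem_sup.1 hv
        rw [mul_add]
        refine add_mem (Submodule.mem_sup_left (hW b (by simp [hb]) w hw)) (Submodule.mem_sup_right
          ⟨b * x, hV b (by simp [hb]) x hx, ?_⟩)
        simp only [LinearMap.mulLeft_apply]
        rw [← mul_assoc, ← mul_assoc, (hc a (by simp) b (by simp [hb])).eq]
      · rwa [Finset.iSup_insert, ← sup_assoc] at h
    have h2 : ∀ n, ∀ v ∈ V, ∃ w ∈ W, ∃ x ∈ V, v = w + a ^ n * x := by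
      intro n
      induction n with
      | zero => exact fun v hv => ⟨0, zero_mem _, v, hv, by simp⟩
      | succ n ih =>
        intro v hv
        obtain ⟨w, hw, _, ⟨x, hx, rfl⟩, rfl⟩ := Submodule.mem_sup.1 (h1 hv)
        obtain ⟨w', hw', y, hy, rfl⟩ := ih x hx
        exact ⟨w + a * w', add_mem hw (hW a (by simp) _ hw'), y, hy, by
          simp only [LinearMap.mulLeft_apply, pow_succ']; noncomm_ring⟩
    obtain ⟨n, hn⟩ := hn a (by simp)
    intro v hv
    obtain ⟨w, hw, x, -, rfl⟩ := h2 n v hv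
    simpa [hn] using hw

theorem nil_nak' {k A : Type*} [Field k] [Ring A] [Algebra k A] [FiniteDimensional k A] {I V W : Submodule k A}
    (hn : ∀ a ∈ I, IsNilpotent a) (hc : ∀ a ∈ I, ∀ b ∈ I, Commute a b) (hV : ∀ a ∈ I, ∀ v ∈ V, a * v ∈ V)
    (hW : ∀ a ∈ I, ∀ v ∈ W, a * v ∈ W) (h : V ≤ W ⊔ I * V) : V ≤ W := by
  obtain ⟨s, hs⟩ : I.FG := IsNoetherian.noetherian I
  have h1 : ∀ a ∈ s, a ∈ I := fun a ha => hs ▸ Submodule.subset_span ha
  refine nil_nak s (fun a ha => hn a (h1 a ha)) (fun a ha b hb => hc a (h1 a ha) b (h1 b hb))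
    (fun a ha => hV a (h1 a ha)) W (fun a ha => hW a (h1 a ha)) (h.trans (sup_le_sup_left ?_ _))
  refine Submodule.mul_le.2 fun a ha v hv => ?_
  rw [← hs] at ha
  induction ha using Submodule.span_induction with
  | mem a ha => exact (le_iSup₂_of_le (f := fun a (_ : a ∈ s) => V.map (LinearMap.mulLeft k a)) a ha le_rfl) ⟨v, hv, rfl⟩
  | zero => simp
  | add a b _ _ h1 h2 => rw [add_mul]; exact add_mem h1 h2
  | smul c a _ h1 => rw [smul_mul_assoc]; exact Submodule.smul_mem _ _ h1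

variable {G : Type*} [Group G] [Finite G]

section hom
variable {k : Type*} [CommRing k] {N P : Subgroup G} [hN : N.Normal] {x y : G} {a b : MonoidAlgebra k G}

theorem cA_mem_SA (g : G) (h : a ∈ SA k N) : cA g a ∈ SA k N :=
  mem_SA.2 fun t ht => by
    rw [coeff_cA] at ht
    simpa [mul_assoc] using hN.conj_mem _ (mem_SA.1 h _ ht) g

/-- homogeneous elements -/
def Hg (N : Subgroup G) (x : G) (a : MonoidAlgebra k G) : Prop := a * of k G x⁻¹ ∈ SA k N

theorem Hg.mul (ha : Hg N x a) (hb : Hg N y b) : Hg N (x * y) (a * b) := by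
  have := mul_mem ha (cA_mem_SA x hb)
  rw [cA_eq] at this
  unfold Hg
  convert this using 1
  rw [mul_inv_rev, map_mul]
  simp only [mul_assoc]
  rw [← mul_assoc (of k G x⁻¹), of_inv_mul_of, one_mul]

theorem hg_one : Hg N 1 a ↔ a ∈ SA k N := by simp [Hg, ← one_def]

theorem hg_of (x : G) : Hg N x (of k G x) := by unfold Hg; rw [of_mul_of_inv]; exact one_mem _

theorem Hg.smul (c : k) (ha : Hg N x a) : Hg N x (c • a) := by
  unfold Hg; rw [smul_mul_assoc]; exact Subalgebra.smul_mem _ ha _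

theorem Hg.congr (ha : Hg N x a) (h : x * y⁻¹ ∈ N) : Hg N y a := by
  have := mul_mem ha (of_mem_SA (k := k) h)
  unfold Hg
  convert this using 1
  rw [mul_assoc, ← map_mul, inv_mul_cancel_left]

theorem push_SA (ha : a ∈ SA k N) : push (QuotientGroup.mk' N) a = aug a • 1 := by
  classical
  have := Fintype.ofFinite G
  conv_lhs => rw [eq_sum_of a]
  rw [map_sum, ev_apply, Finset.sum_smul]
  refine Finset.sum_congr rfl fun g _ => ?_
  by_cases h : a.coeff g = 0
  · simp [h]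
  · rw [map_smul, push_of, mul_one, QuotientGroup.mk'_apply, (QuotientGroup.eq_one_iff g).2 (mem_SA.1 ha g h), map_one]

theorem Hg.push (ha : Hg N x a) : push (QuotientGroup.mk' N) a = aug a • of k _ (x : G ⧸ N) := by
  have h : a = a * of k G x⁻¹ * of k G x := by rw [mul_assoc, of_inv_mul_of, mul_one]
  conv_lhs => rw [h]
  rw [map_mul, push_SA ha, push_of, aug_mul, ev_of, mul_one, smul_mul_assoc, one_mul]; rfl

theorem Hg.sum {ι : Type*} (s : Finset ι) {f : ι → MonoidAlgebra k G} (h : ∀ i ∈ s, Hg N x (f i)) :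
    Hg N x (∑ i ∈ s, f i) := by
  unfold Hg; rw [Finset.sum_mul]; exact sum_mem h

theorem hg_trunc (x : G) (a : MonoidAlgebra k G) : Hg N x (trunc {g : G | (g : G ⧸ N) = x} a) :=
  mem_SA.2 fun g hg => by
    rw [coeff_mul_of, inv_inv] at hg
    by_contra h
    refine hg (coeff_trunc_of_not_mem _ fun h1 => h ?_)
    simpa [QuotientGroup.eq_one_iff] using h1

theorem sum_trunc_coset [Fintype (G ⧸ N)] (a : MonoidAlgebra k G) :
    ∑ σ : G ⧸ N, trunc {g : G | (g : G ⧸ N) = σ} a = a := by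
  classical
  refine extA fun g => ?_
  simp only [coeff_sum_apply, coeff_trunc, Set.mem_setOf_eq]
  simp

theorem trunc_coset_mem (σ : G ⧸ N) (ha : a ∈ fix k N) : trunc {g : G | (g : G ⧸ N) = σ} a ∈ fix k N :=
  trunc_mem_fix (fun u hu g => by simp [(QuotientGroup.eq_one_iff u).2 hu]) ha

theorem trq_mem_fix {T : Subgroup G} (hP : P ≤ T) (h2 : a ∈ fix k P) : trq (of k G) P T a ∈ fix k T :=
  mem_fix_cA.2 fun _ ht => (cι_of _ _).symm.trans
    (cι_trq (fun u hu => (cι_of _ _).trans (cA_of_mem_fix h2 hu)) fun g _ hu => mul_mem_iff_of hP ht g hu)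

theorem Hg.trq (ha : Hg N x a) : Hg N x (trq (of k G) P N a) := by
  classical
  have := Fintype.ofFinite (G ⧸ P)
  rw [trq_eq]
  refine Hg.sum _ fun q _ => ?_
  split_ifs with h
  · rw [cι_apply]
    refine (((hg_of _).mul ha).mul (hg_of _)).congr ?_
    have := mul_mem h (hN.conj_mem _ (inv_mem h) x)
    simpa [mul_assoc] using this
  · unfold Hg; simp

theorem push_trq {X : Type*} [Group X] [Finite X] (f : G →* X) {T : Subgroup G} (hP : P ≤ T)
    (h : push f a ∈ cent k X) : push f (trq (of k G) P T a) = (P.relIndex T : k) • push f a := by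
  classical
  have := Fintype.ofFinite (G ⧸ P)
  rw [trq_eq, map_sum, ← card_filter_out hP, Nat.cast_smul_eq_nsmul, ← Finset.sum_const, Finset.sum_filter]
  refine Finset.sum_congr rfl fun q _ => ?_
  simp only [SetLike.mem_coe]
  split_ifs
  · rw [cι_of, push_cA, cA_of_cent h]
  · simp

theorem hg_mul_inv (ha : Hg N x⁻¹ a) (hb : Hg N x b) : a * b ∈ SA k N :=
  hg_one.1 (inv_mul_cancel x ▸ ha.mul hb)

theorem Hg.left (ha : a ∈ SA k N) (hb : Hg N x b) : Hg N x (a * b) := one_mul x ▸ (hg_one.2 ha).mul hb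

theorem aug_trq {T : Subgroup G} (hP : P ≤ T) : aug (trq (of k G) P T a) = (P.relIndex T : k) * aug a := by
  rw [← aug_push (1 : G →* Unit), push_trq _ hP (mem_cent.2 fun _ _ => rfl), map_smul, aug_push, smul_eq_mul]

end hom

theorem exists_hg_aug {k : Type*} [Field k] {N P : Subgroup G} [N.Normal] (hPN : P ≤ N) (hc : (P.relIndex N : k) ≠ 0)
    {x : G} (hx : x ∈ centralizer (P : Set G)) : ∃ u : MonoidAlgebra k G, Hg N x u ∧ u ∈ fix k N ∧ aug u = 1 := by
  have h1 : Hg N x (trq (of k G) P N (of k G x)) := (hg_of x).trq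
  have h2 : trq (of k G) P N (of k G x) ∈ fix k N := trq_mem_fix hPN (of_mem_fix hx)
  have h3 : aug (trq (of k G) P N (of k G x)) = P.relIndex N := by rw [aug_trq hPN, ev_of, mul_one]
  generalize trq (of k G) P N (of k G x) = u at h1 h2 h3
  exact ⟨(P.relIndex N : k)⁻¹ • u, h1.smul _, Subalgebra.smul_mem _ h2 _, by
    rw [map_smul, h3, smul_eq_mul, inv_mul_cancel₀ hc]⟩

variable {p : ℕ} [hp : Fact p.Prime] {M : Ideal AlgInt} [hM : PMod p M]
variable {N P : Subgroup G} [hN : N.Normal]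

theorem iB_principal_cent : iB M N (principalBlock M N) ∈ cent (F M) G :=
  mem_fix_cA.2 fun g _ => mem_stab.1 (isPBlock_principal.isBI.mem_stab_of_aug (aug_iB_principal N)
    (by rw [normalizer_eq_top]; trivial))

theorem aug_principal_eq : aug (eB M (principalBlock M G)) = 1 := by
  rw [← lam_oneIrr (eB_mem _), isPBlock_principal.closed.lam_eB_of_mem oneIrr_mem]

theorem lam_of_principal {χ : IrrCharacter G} (h : χ ∈ principalBlock M G) {a : MonoidAlgebra (F M) G}
    (ha : a ∈ cent (F M) G) : lam M (χ : G → ℂ) a = aug a := by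
  rw [isPBlock_principal.lam_eq h oneIrr_mem, lam_oneIrr ha]

theorem exists_mul_eq_principal {a : MonoidAlgebra (F M) G} (ha : a ∈ cent (F M) G) (h : aug a ≠ 0) :
    ∃ y ∈ cent (F M) G, a * y = eB M (principalBlock M G) :=
  isPBlock_principal.closed.exists_mul_eq_eB ha fun χ hχ => by rwa [lam_of_principal hχ ha]

theorem exists_mul_eq_principal' {H : Subgroup G} {a : MonoidAlgebra (F M) G} (ha : a ∈ ZA (F M) H) (h : aug a ≠ 0) :
    ∃ y ∈ ZA (F M) H, a * y = iB M H (principalBlock M H) := by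
  obtain ⟨y, hy, h1⟩ := exists_mul_eq_principal (M := M) (ZA.res ha)
    (by rwa [← aug_push H.subtype, incA_resA_of_SA (ZA.sa ha)])
  exact ⟨incA H y, incA_mem_ZA.2 hy, by rw [← incA_resA_of_SA (ZA.sa ha), ← map_mul, h1]⟩

theorem nil_of_principal {H : Subgroup G} {a : MonoidAlgebra (F M) G} (ha : a ∈ ZA (F M) H)
    (h : iB M H (principalBlock M H) * a = a) (h0 : aug a = 0) : IsNilpotent a := by
  have h1 : eB M (principalBlock M H) * resA H a = resA H a := by
    apply incA_injective H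
    rw [map_mul, incA_resA_of_SA (ZA.sa ha)]; exact h
  rw [← incA_resA_of_SA (ZA.sa ha)]
  refine (isNilpotent_of_lam (ZA.res ha) fun χ => ?_).map _
  by_cases hχ : χ ∈ principalBlock M H
  · rw [lam_of_principal hχ (ZA.res ha), ← aug_push H.subtype, incA_resA_of_SA (ZA.sa ha), h0]
  · rw [← h1, lam_mul χ.2 (eB_mem _) (ZA.res ha), isPBlock_principal.closed.lam_eB_of_not_mem hχ, zero_mul]

theorem principal_mul_iB : eB M (principalBlock M G) * iB M N (principalBlock M N) = eB M (principalBlock M G) := by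
  rw [(commute_of_cent (eB_mem _) _).eq]
  refine (isPBlock_principal.isBI_top).mul_eq (mem_ZA_top.2 iB_principal_cent) isPBlock_principal.closed.iB_idem
    fun h => ?_
  have := congrArg aug h
  rw [aug_mul, map_zero] at this
  exact mul_ne_zero (aug_iB_principal N) aug_principal this

theorem exists_unit_hg (hPN : P ≤ N) (hP : ¬ p ∣ P.relIndex N) {x : G} (hx : x ∈ centralizer (P : Set G)) :
    ∃ u v : MonoidAlgebra (F M) G, Hg N x u ∧ Hg N x⁻¹ v ∧ u ∈ fix (F M) N ∧ v ∈ fix (F M) N ∧ aug u = 1 ∧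
      v * u = iB M N (principalBlock M N) := by
  have hc : (P.relIndex N : F M) ≠ 0 := by rwa [Ne, natCast_F_eq_zero_iff]
  obtain ⟨u, h1, h2, h3⟩ := exists_hg_aug hPN hc hx
  obtain ⟨u', h1', h2', h3'⟩ := exists_hg_aug hPN hc (inv_mem hx)
  have h4 : u' * u ∈ ZA (F M) N := mem_ZA.2 ⟨hg_mul_inv h1' h1, mul_mem h2' h2⟩
  obtain ⟨y, hy, h5⟩ := exists_mul_eq_principal' h4 (by rw [aug_mul, h3, h3', one_mul]; exact one_ne_zero)
  exact ⟨u, y * u', h1, h1'.left (ZA.sa hy), h2, mul_mem (ZA.fx hy) h2', h3, by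
    rw [mul_assoc, ZA.comm hy h4, h5]⟩

variable (M N) in
/-- the radical of the centre of the principal block -/
def radP : Submodule (F M) (MonoidAlgebra (F M) G) where
  carrier := {a | a ∈ ZA (F M) N ∧ iB M N (principalBlock M N) * a = a ∧ aug a = 0}
  add_mem' := fun ⟨h1, h2, h3⟩ ⟨h4, h5, h6⟩ => ⟨add_mem h1 h4, by rw [mul_add, h2, h5], by rw [map_add, h3, h6, add_zero]⟩
  zero_mem' := ⟨zero_mem _, mul_zero _, map_zero _⟩
  smul_mem' := fun c _ ⟨h1, h2, h3⟩ => ⟨Subalgebra.smul_mem _ h1 _, by rw [mul_smul_comm, h2], by rw [map_smul, h3, smul_zero]⟩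

theorem exists_rep_cent (hs : N ⊔ centralizer (P : Set G) = ⊤) (σ : G ⧸ N) :
    ∃ x ∈ centralizer (P : Set G), (x : G ⧸ N) = σ := by
  obtain ⟨g, rfl⟩ := QuotientGroup.mk_surjective σ
  have : g ∈ ((N ⊔ centralizer (P : Set G) : Subgroup G) : Set G) := by rw [hs]; trivial
  rw [normal_mul] at this
  obtain ⟨n, hn, x, hx, rfl⟩ := this
  exact ⟨x, hx, by simp [(QuotientGroup.eq_one_iff n).2 hn]⟩

theorem mem_radP_mul (hPN : P ≤ N) (hP : ¬ p ∣ P.relIndex N) (hs : N ⊔ centralizer (P : Set G) = ⊤)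
    {y : MonoidAlgebra (F M) G} (hy : y ∈ fix (F M) N) (h0 : push (QuotientGroup.mk' N) y = 0) :
    iB M N (principalBlock M N) * y ∈ radP M N * (⊤ : Submodule (F M) (MonoidAlgebra (F M) G)) := by
  classical
  have := Fintype.ofFinite (G ⧸ N)
  have := Fintype.ofFinite G
  rw [← sum_trunc_coset (N := N) y, Finset.mul_sum]
  refine sum_mem fun σ _ => ?_
  obtain ⟨x, hx, rfl⟩ := exists_rep_cent hs σ
  obtain ⟨u, v, -, h2, -, h4, -, h6⟩ := exists_unit_hg (M := M) hPN hP hx
  set t := trunc {g : G | (g : G ⧸ N) = x} y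
  have ht : aug t = 0 := by
    have := congrArg (·.coeff (x : G ⧸ N)) h0
    simp only [coeff_push] at this
    rw [ev_apply]
    simp only [t, coeff_trunc, Set.mem_setOf_eq, mul_one]
    rw [← Finset.sum_filter]
    convert this.trans (show (0 : MonoidAlgebra (F M) (G ⧸ N)).coeff x = 0 by simp)
    rfl
  have hc := commute_of_cent (iB_principal_cent (M := M) (N := N))
  have : iB M N (principalBlock M N) * t = iB M N (principalBlock M N) * (t * v) * u := by
    rw [mul_assoc, mul_assoc, h6, ← (hc t).eq, ← mul_assoc, isPBlock_principal.closed.iB_idem]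
  rw [this]
  refine Submodule.mul_mem_mul ⟨mul_mem (iB_mem _ _) (mem_ZA.2 ⟨hg_one.1 ?_, mul_mem (trunc_coset_mem _ hy) h4⟩),
    by rw [← mul_assoc, isPBlock_principal.closed.iB_idem], by rw [aug_mul, aug_mul, ht, zero_mul, mul_zero]⟩ trivial
  simpa using (hg_trunc x y).mul h2

theorem dade_k (hPN : P ≤ N) (hP : ¬ p ∣ P.index) (hs : N ⊔ centralizer (P : Set G) = ⊤)
    (y : MonoidAlgebra (F M) G) :
    ∃ a ∈ SA (F M) N, eB M (principalBlock M G) * a = eB M (principalBlock M G) * y := by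
  classical
  have := Fintype.ofFinite (G ⧸ N)
  have := Fintype.ofFinite G
  have hP' : ¬ p ∣ P.relIndex N := fun h => hP (h.trans (relIndex_dvd_index_of_le hPN))
  set f := eB M (principalBlock M G) with hf
  have hfc := commute_of_cent (eB_mem (M := M) (principalBlock M G))
  have hec := commute_of_cent (iB_principal_cent (M := M) (N := N))
  have hfe := principal_mul_iB (M := M) (N := N)
  rw [← hf] at hfc hfe
  choose r hr1 hr2 using exists_rep_cent hs
  have hΩ : push (QuotientGroup.mk' N) (∑ σ, of (F M) G (r σ)) = ∑ σ, of (F M) (G ⧸ N) σ := by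
    rw [map_sum]; exact Finset.sum_congr rfl fun σ _ => by rw [push_of]; exact congrArg _ (hr2 σ)
  have hΩ2 : ∀ τ : G ⧸ N, of (F M) _ τ * ∑ σ, of (F M) (G ⧸ N) σ = ∑ σ, of (F M) (G ⧸ N) σ := fun τ => by
    rw [Finset.mul_sum]
    exact Fintype.sum_equiv (Equiv.mulLeft τ) _ _ fun σ => by simp
  have hΩ3 : ∑ σ, of (F M) (G ⧸ N) σ ∈ cent (F M) (G ⧸ N) := by
    have key : ∀ y : G ⧸ N, (∑ σ, of (F M) (G ⧸ N) σ).coeff y = 1 := fun y => by
      rw [coeff_sum_apply, Finset.sum_eq_single y] <;> simp +contextual [coeff_of, -of_apply]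
    exact mem_cent.2 fun u g => by rw [key, key]
  set j := trq (of (F M) G) P (⊤ : Subgroup G) (∑ σ, of (F M) G (r σ))
  have hj : j ∈ cent (F M) G := trq_mem_fix le_top (sum_mem fun σ _ => of_mem_fix (hr1 σ))
  have hj2 : push (QuotientGroup.mk' N) j = (P.index : F M) • ∑ σ, of (F M) (G ⧸ N) σ := by
    rw [push_trq _ le_top (hΩ ▸ hΩ3), hΩ, relIndex_top_right]
  obtain ⟨w, hw, hjw⟩ := exists_mul_eq_principal hj (by
    rw [← aug_push (QuotientGroup.mk' N), hj2, map_smul, map_sum]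
    simp only [ev_of, Finset.sum_const, Finset.card_univ, smul_eq_mul, nsmul_eq_mul, mul_one]
    rw [← Nat.cast_mul, Ne, natCast_F_eq_zero_iff, hp.out.dvd_mul, Fintype.card_eq_nat_card]
    rintro (h | h)
    · exact hP h
    · exact hP (h.trans (index_dvd_of_le hPN)))
  rw [← hf] at hjw
  let V := LinearMap.range (LinearMap.mulLeft (F M) f)
  let W := (Subalgebra.toSubmodule (SA (F M) N)).map (LinearMap.mulLeft (F M) f)
  have hVW : V ≤ W := by
    refine nil_nak' (I := radP M N) (fun a ha => nil_of_principal ha.1 ha.2.1 ha.2.2) (fun a ha b hb => ZA.comm ha.1 hb.1)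
      ?_ ?_ ?_
    · rintro a - _ ⟨v, rfl⟩
      exact ⟨a * v, by simp only [LinearMap.mulLeft_apply]; rw [← mul_assoc, ← mul_assoc, (hfc a).eq]⟩
    · rintro a ha _ ⟨v, hv, rfl⟩
      exact ⟨a * v, (SA (F M) N).mul_mem (ZA.sa ha.1) hv, by simp only [LinearMap.mulLeft_apply]; rw [← mul_assoc, ← mul_assoc, (hfc a).eq]⟩
    · rintro _ ⟨y, rfl⟩
      rw [eq_sum_of y, map_sum]
      refine sum_mem fun g _ => ?_
      rw [map_smul]
      refine Submodule.smul_mem _ _ ?_
      obtain ⟨u, v, h1, h2, h3, -, h5, h6⟩ := exists_unit_hg (M := M) hPN hP' (hr1 (g : G ⧸ N))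
      have ha : of (F M) G g * v ∈ SA (F M) N := hg_one.1 (((hg_of g).mul h2).congr (by
        rw [inv_one, mul_one, ← QuotientGroup.eq_one_iff, QuotientGroup.mk_mul, QuotientGroup.mk_inv, hr2, mul_inv_cancel]))
      have h7 := mem_radP_mul (M := M) hPN hP' hs (y := (u - 1) * j)
        (mul_mem (sub_mem h3 (one_mem _)) (cent_le_fix _ hj)) (by
          rw [map_mul, map_sub, h1.push, h5, hj2, one_smul, map_one, mul_smul_comm, sub_mul, hΩ2, one_mul, sub_self,
            smul_zero])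
      have h8 : ∀ z ∈ radP M N * (⊤ : Submodule (F M) (MonoidAlgebra (F M) G)),
          of (F M) G g * v * z * w * f ∈ radP M N * V := fun z hz => by
        induction hz using Submodule.mul_induction_on' with
        | mem_mul_mem a ha' b _ =>
          have : of (F M) G g * v * (a * b) * w * f = a * (f * (of (F M) G g * v * b * w)) := by
            rw [(hfc _).eq, ← mul_assoc _ a, ← (commute_of_fix_SA (ZA.fx ha'.1) ha).eq]; simp only [mul_assoc]
          rw [this]
          exact Submodule.mul_mem_mul ha' ⟨_, rfl⟩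
        | add a _ b _ h1 h2 => simp only [mul_add, add_mul]; exact add_mem h1 h2
      have h9 : LinearMap.mulLeft (F M) f (of (F M) G g) = f * (of (F M) G g * v) +
          of (F M) G g * v * (iB M N (principalBlock M N) * ((u - 1) * j)) * w * f := by
        have hff : f * f = f := isPBlock_principal.closed.eB_mul_self
        simp only [LinearMap.mulLeft_apply, mul_assoc]
        rw [← mul_assoc j, hjw, hff, ← (hfc _).eq, ← mul_assoc (iB _ _ _), ← (hfc _).eq, hfe, (hfc (u - 1)).eq, sub_mul,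
          one_mul, mul_sub, ← mul_assoc v, h6, ← (hfc _).eq, hfe, mul_sub, ← (hfc v).eq, ← (hfc _).eq,
          ← mul_assoc (of (F M) G g), ← (hfc _).eq, mul_assoc]
        abel
      rw [h9]
      exact add_mem (Submodule.mem_sup_left ⟨_, ha, rfl⟩) (Submodule.mem_sup_right (h8 _ h7))
  obtain ⟨a, ha, h⟩ := hVW ⟨y, rfl⟩
  exact ⟨a, ha, h⟩

theorem dade_C (hPN : P ≤ N) (hP : ¬ p ∣ P.index) (hs : N ⊔ centralizer (P : Set G) = ⊤) (g : G) :
    ∃ a ∈ SA ℂ N, fC (principalBlock M G) * a = fC (principalBlock M G) * of ℂ G g := by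
  let f := fO M (principalBlock M G)
  let V := LinearMap.range (LinearMap.mulLeft (O M) f)
  let W := (Subalgebra.toSubmodule (SA (O M) N)).map (LinearMap.mulLeft (O M) f)
  have hVW : V ≤ W := by
    refine Submodule.le_of_le_smul_of_le_jacobson_bot (I := IsLocalRing.maximalIdeal (O M))
      (Module.Finite.iff_fg.1 inferInstance) (IsLocalRing.jacobson_eq_maximalIdeal ⊥ bot_ne_top).ge ?_
    rintro _ ⟨y, rfl⟩
    obtain ⟨a, ha, h⟩ := dade_k (M := M) hPN hP hs (dn M y)
    obtain ⟨b, -, hb⟩ := exists_dn_eq (Q := ⊥) (a := a) (mem_fix_iff.2 fun u hu => by simp [mem_bot.1 hu, ← one_def])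
    have h1 : f * (y - trunc N b) ∈ _ := mem_smul_top_of_dn (by
      rw [map_mul, map_sub, mapA_trunc, hb, trunc_of_SA ha subset_rfl, mul_sub]; exact sub_eq_zero.2 h.symm)
    have h2 := Submodule.mem_map_of_mem (f := LinearMap.mulLeft (O M) f) h1
    rw [Submodule.map_smul'', Submodule.map_top, LinearMap.mulLeft_apply, ← mul_assoc,
      isPBlock_principal.closed.fO_mul_self] at h2
    have : LinearMap.mulLeft (O M) f y = f * trunc N b + f * (y - trunc N b) := by
      rw [LinearMap.mulLeft_apply, mul_sub, add_sub_cancel]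
    rw [this]
    exact add_mem (Submodule.mem_sup_left ⟨_, trunc_mem_SA N b, rfl⟩) (Submodule.mem_sup_right h2)
  obtain ⟨a, ha, h⟩ := hVW ⟨of (O M) G g, rfl⟩
  refine ⟨up M a, mem_SA.2 fun t ht => mem_SA.1 ha t fun h0 => ht (by rw [coeff_up, h0]; rfl), ?_⟩
  have := congrArg (up M) h
  simp only [LinearMap.mulLeft_apply, map_mul, f, isPBlock_principal.closed.up_fO, mapA_of] at this
  exact this

theorem ev_tr_mul [Fintype G] {χ : G → ℂ} (hχ : IsClassFunction G χ) (T : Subgroup G) [Fintype T] (a : MonoidAlgebra ℂ G) :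
    ev χ (∑ t : T, cA (t : G) a) = Nat.card T * ev χ a := by
  have : ∀ t : G, ev χ (cA t a) = ev χ a := fun t => by rw [cA_eq, ev_comm hχ, ← mul_assoc, of_inv_mul_of, one_mul]
  simp only [map_sum, this]
  simp

theorem sum_cA_mem {k : Type*} [CommRing k] (T : Subgroup G) [Fintype T] (a : MonoidAlgebra k G) :
    ∑ t : T, cA (t : G) a ∈ fix k T :=
  mem_fix_cA.2 fun u hu => by
    rw [map_sum]
    exact Fintype.sum_equiv (Equiv.mulLeft (⟨u, hu⟩ : T)) _ _ fun t => by rw [← cA_mul]; rfl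

theorem res_irr_of_span {B : Set (IrrCharacter G)} {N : Subgroup G}
    (h : ∀ g, ∃ a ∈ SA ℂ N, fC B * a = fC B * of ℂ G g) {χ : IrrCharacter G} (hχ : χ ∈ B) :
    IsIrrCharacter N fun n : N => (χ : G → ℂ) n := by
  classical
  have := Fintype.ofFinite G
  have := Fintype.ofFinite N
  have := Fintype.ofFinite (⊤ : Subgroup G)
  have hc := commute_of_cent (fC_mem B)
  have h1 : ∀ y ∈ fix ℂ N, fC B * y ∈ cent ℂ G := fun y hy => mem_fix_iff.2 fun g _ => by
    obtain ⟨a, ha, h⟩ := h g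
    rw [← mul_assoc, ← (hc _).eq, ← h, mul_assoc, ← (commute_of_fix_SA hy ha).eq, (hc y).eq, mul_assoc, ← h,
      ← mul_assoc, (hc y).eq, mul_assoc]
  have h0 : (χ : G → ℂ) 1 ≠ 0 := χ.2.apply_one_ne_zero
  have hG : (Nat.card G : ℂ) ≠ 0 := by simp
  have hN : (Nat.card N : ℂ) ≠ 0 := by simp
  have h2 : ∀ g : G, ∑ n : N, (χ : G → ℂ) (n * g * (n : G)⁻¹ * g⁻¹) = Nat.card N * (χ : G → ℂ) g / (χ : G → ℂ) 1 * (χ : G → ℂ) g⁻¹ := by
    intro g
    have h3 := ev_cent_mul χ.2 (h1 _ (sum_cA_mem N (of ℂ G g))) (of ℂ G g⁻¹)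
    rw [mul_assoc, ev_fC_mul, if_pos hχ, om_apply, ev_fC_mul, if_pos hχ, ev_tr_mul χ.2.isClassFunction, ev_of, ev_of,
      Finset.sum_mul, map_sum] at h3
    rw [← h3]
    exact Finset.sum_congr rfl fun n _ => by rw [cA_eq, ← map_mul, ← map_mul, ← map_mul, ev_of]
  have h4 : ∀ n : G, ∑ g : G, (χ : G → ℂ) (n * g * n⁻¹ * g⁻¹) = Nat.card G * (χ : G → ℂ) n⁻¹ / (χ : G → ℂ) 1 * (χ : G → ℂ) n := by
    intro n
    have h3 := ev_cent_mul χ.2 (sum_cA_mem ⊤ (of ℂ G n⁻¹)) (of ℂ G n)
    rw [om_apply, ev_tr_mul χ.2.isClassFunction, ev_of, ev_of, Finset.sum_mul, map_sum, card_top] at h3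
    rw [← h3]
    refine (Fintype.sum_equiv topEquiv.toEquiv _ _ fun g => ?_).symm
    rw [cA_eq, ← map_mul, ← map_mul, ← map_mul, ev_of, ← χ.2.isClassFunction _ n]
    congr 1
    simp [mul_assoc]
  have h5 := Finset.sum_comm (s := Finset.univ) (t := Finset.univ)
    (f := fun (g : G) (n : N) => (χ : G → ℂ) (n * g * (n : G)⁻¹ * g⁻¹))
  have h6 := sum_mul_inv_irr χ χ
  rw [if_pos rfl] at h6
  simp only [h2, h4] at h5
  simp only [mul_div_right_comm _ _ ((χ : G → ℂ) 1), mul_assoc, ← Finset.mul_sum, h6] at h5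
  refine (χ.2.isCharacter.res N).irr_of_inner_self ?_
  rw [classInner_eq_inv _ (χ.2.isCharacter.res N).isGen]
  simp only [mul_comm ((χ : G → ℂ) (_ : N)), coe_inv]
  field_simp at h5 ⊢
  exact h5.symm

theorem eq_of_res_of_span {B : Set (IrrCharacter G)} {N : Subgroup G}
    (h : ∀ g, ∃ a ∈ SA ℂ N, fC B * a = fC B * of ℂ G g) {χ ψ : IrrCharacter G} (hχ : χ ∈ B) (hψ : ψ ∈ B)
    (h1 : ∀ n : N, (χ : G → ℂ) n = (ψ : G → ℂ) n) : χ = ψ := by
  classical
  refine Subtype.ext (funext fun g => ?_)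
  obtain ⟨a, ha, h⟩ := h g
  have h2 := congrArg (ev (χ : G → ℂ)) h
  have h3 := congrArg (ev (ψ : G → ℂ)) h
  rw [ev_fC_mul, ev_fC_mul, if_pos ‹_›, if_pos ‹_›, ev_of, ← incA_resA_of_SA ha, ev_incA] at h2 h3
  rw [← h2, ← h3, funext h1]

end Cfsg.Agent.B
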