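import Cfsg.Agent.B.Star2

/-!
# Watanabe's theorem on blocks with abelian defect groups.
-/

set_option autoImplicit false
set_option linter.unusedSectionVars false

namespace Cfsg.Agent.B

open MonoidAlgebra Subgroup Cfsg.Agent.H3 Cfsg.Agent.H2

variable {p : ℕ} [hp : Fact p.Prime] {M : Ideal AlgInt} [hM : PMod p M]
variable {G : Type*} [Group G] [Finite G] {X : Type*} [Group X] [Finite X]

theorem NL.push {φ : X →* G} (hφ : Function.Injective φ) {H Q P : Subgroup X} {f e : MonoidAlgebra (F M) X}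
    (h : NL p H Q f P e) : NL p (H.map φ) (Q.map φ) (push φ f) (P.map φ) (push φ e) :=
  ⟨(bp_push_iff hφ).2 h.l, (bp_push_iff hφ).2 h.r, map_mono h.le, (map_mono h.nm).trans (le_normalizer_map φ),
    (push_mem_fix_iff hφ).2 h.fx, by rw [br_push hφ, ← map_mul, h.br]⟩

theorem PLe.push {φ : X →* G} (hφ : Function.Injective φ) {H Q P : Subgroup X} {f e : MonoidAlgebra (F M) X}
    (h : PLe p H Q f P e) : PLe p (H.map φ) (Q.map φ) (push φ f) (P.map φ) (push φ e) :=
  h.ind (C := fun Q f => PLe p (H.map φ) (Q.map φ) (B.push φ f) (P.map φ) (B.push φ e)) (PLe.refl _ _ _)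
    fun _ _ _ _ h1 _ h2 => (h1.push hφ).ple.trans h2

variable {H P Q R : Subgroup G} {b e f : MonoidAlgebra (F M) G} {B : Set (IrrCharacter G)} {u : G}

variable (p) in
/-- the rank of the block below a Brauer pair -/
noncomputable def lq (H P : Subgroup G) (e : MonoidAlgebra (F M) G) (Q : Subgroup G) : ℕ :=
  blockRank p {ξ : IrrCharacter (CH H Q) | ∃ b, IsPBlock M b ∧ PLe p H Q (iB M _ b) P e ∧ ξ ∈ b}

theorem BP.lq_eq (he : BP p H P e) {K : Subgroup G} (hK : K = CH H Q) {c : Set (IrrCharacter K)} (hc : IsPBlock M c)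
    (h : PLe p H Q (iB M K c) P e) : lq p H P e Q = blockRank p c := by
  subst hK
  exact congrArg (blockRank p) (Set.ext fun _ => ⟨fun ⟨_, h1, h2, h3⟩ => h1.closed.iB_inj hc.closed (h2.unique h he) ▸ h3,
    fun h1 => ⟨c, hc, h, h1⟩⟩)

theorem BP.lq_CH (he : BP p H P e) (hQ : Q ≤ P) (hR : R ≤ P) (hc : P ≤ centralizer (Q : Set G)) :
    lq p (CH H Q) P e R = lq p H P e (Q ⊔ R) := by
  have h1 : BP p (CH H Q) P e := he.congr (by rw [CH_CH, sup_eq_right.2 hQ]) (le_inf he.le hc)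
  obtain ⟨f, hf⟩ := h1.exists_ple hR
  obtain ⟨c, h2, rfl⟩ := (hf.bp h1).bi.exists_iB
  have h3 := hf.sup (he.pgrp.to_le hQ) (hQ.trans he.le)
  rw [sup_eq_right.2 hQ] at h3
  rw [h1.lq_eq rfl h2 hf, he.lq_eq (CH_CH H Q R) h2 h3]

theorem BP.lq_push {φ : X →* G} (hφ : Function.Injective φ) {H P Q : Subgroup X} {e : MonoidAlgebra (F M) X}
    (he : BP p H P e) (hQ : Q ≤ P) : lq p (H.map φ) (P.map φ) (push φ e) (Q.map φ) = lq p H P e Q := by
  obtain ⟨f, hf⟩ := he.exists_ple hQ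
  obtain ⟨c, h2, rfl⟩ := (hf.bp he).bi.exists_iB
  have h3 := hf.push hφ
  rw [show push φ (iB M _ c) = iB M _ (cmp ((CH H Q).equivMapOfInjective φ hφ) ⁻¹' c) by
    rw [iB, iB, ← push_eB_equiv, push_push, push_push]; rfl] at h3
  rw [he.lq_eq rfl h2 hf, ((bp_push_iff hφ).2 he).lq_eq (map_CH hφ H Q) (h2.preimage_cmp _) h3, blockRank_preimage_cmp]

theorem BP.lq_top (he : BP p ⊤ P e) (hu : u ∈ P) : lq p ⊤ P e (zpowers u) = blockRank p (sb p P e u) :=
  he.lq_eq (by rw [CH_top, centralizer_zpowers]) (he.isPBlock_sb hu) (he.ple_sb hu)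

open Classical in
theorem MP.sum_lin_top (h : MP p ⊤ (eB M B) P e) (hB : IsPBlock M B) (hab : P ≤ Subgroup.centralizer (P : Set G))
    [Fintype P] (l : P →* ℂˣ) (hl : ∀ t ∈ NS ⊤ P e, ∀ v w : P, t * v * t⁻¹ = w → l v = l w) :
    ∑ v : P, ((Subgroup.centralizer {(v : G)}).relIndex (NS ⊤ P e) : ℂ)⁻¹ * (l v * lq p ⊤ P e (zpowers (v : G))) =
      if l = 1 then (Nat.card B : ℂ) else 0 := by
  simp only [fun v : P => h.bp.lq_top v.2, fun v : P => (h.nF_of_abelian hab v.2).symm]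
  split_ifs with h1
  · rw [h.card_eq_sum hB]; simp [h1]
  have := Fintype.ofFinite G
  have hs : Stab p e fun u => (l u : ℂ) := fun u v g h2 h3 => by
    obtain ⟨t, h4, h5⟩ := (h.fcl_of_abelian hab u.2).subset ((h.bp.mem_fcl_iff u.2).2 ⟨g, h2, h3⟩)
    exact congrArg _ (hl t h4 u v h5)
  obtain ⟨_, h2⟩ := h.exists_action hB (zpowers l).subtype fun ⟨_, k, rfl⟩ u v g h2 h3 => by
    simpa using congrArg (· ^ k) (hs u v g h2 h3)
  simp only [fun v : P => (sum_ctr_self (pElt_of_mem h.bp.pgrp v.2) (h.bp.isPBlock_sb v.2).closed).symm,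
    Finset.mul_sum]
  rw [Finset.sum_comm]
  refine Finset.sum_eq_zero fun χ _ => ?_
  by_cases hχ : χ ∈ B
  · obtain ⟨h3, -, h4⟩ := h2 ⟨l, mem_zpowers l⟩ ⟨χ, hχ⟩
    refine (inner_star χ.2.isClassFunction).symm.trans (h3 ▸ IsIrrCharacter.inner_of_ne (Subtype.property _) χ.2
      fun h5 => h1 (MonoidHom.ext fun v => Units.ext ?_))
    have := h4 v χ
    rw [h5] at this
    exact (mul_eq_right₀ (IsInducedBlock.ctr_self_ne_zero (pElt_of_mem h.bp.pgrp v.2) (h.induced_sb hB v.2)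
      (h.defect_sb hB v.2 (mem_centralizer_comm.1 (hab v.2))) hχ)).1 this.symm
  · exact Finset.sum_eq_zero fun v _ => by
      rw [(h.induced_sb hB v.2).ctr_eq_zero (pElt_of_mem h.bp.pgrp v.2) hχ, mul_zero, mul_zero]

open Classical in
theorem MP.sum_lin {c : Set (IrrCharacter H)} (h : MP p H (iB M H c) P e) (hc : IsPBlock M c)
    (hab : P ≤ Subgroup.centralizer (P : Set G)) [Fintype P] (l : P →* ℂˣ)
    (hl : ∀ t ∈ NS H P e, ∀ v w : P, t * v * t⁻¹ = w → l v = l w) :
    ∑ v : P, ((Subgroup.centralizer {(v : G)}).relIndex (NS H P e) : ℂ)⁻¹ * (l v * lq p H P e (zpowers (v : G))) =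
      if l = 1 then (Nat.card c : ℂ) else 0 := by
  have h0 : (⊤ : Subgroup H).map H.subtype = H := by rw [← MonoidHom.range_eq_map, range_subtype]
  obtain ⟨P', e', rfl, rfl, h1⟩ := BP.exists_push H.subtype_injective (h0.symm ▸ h.bp)
  have h2 : MP p ⊤ (eB M c) P' e' := ⟨hc.isBI_top, h1, (isDG_push_iff H.subtype_injective).1 (h0.symm ▸ h.dg),
    push_injective H.subtype_injective (by rw [map_mul, ← br_push H.subtype_injective, h.br])⟩
  have := Fintype.ofFinite P'
  let σ := P'.equivMapOfInjective _ H.subtype_injective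
  have h3 := map_NS H.subtype_injective ⊤ P' e'
  rw [h0] at h3
  have h4 := h2.sum_lin_top hc (fun x hx y hy => Subtype.ext (hab (mem_map_of_mem _ hx) _ (mem_map_of_mem _ hy)))
    (l.comp σ.toMonoidHom) fun t ht v w h4 => hl t (h3 ▸ mem_map_of_mem _ ht) _ _ (congrArg Subtype.val h4)
  rw [← Equiv.sum_comp σ.toEquiv]
  convert h4 using 2 with v
  · have := h1.lq_push H.subtype_injective (zpowers_le.2 v.2)
    rw [h0, MonoidHom.map_zpowers] at this
    rw [← this, ← h3, ← relIndex_comap]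
    congr 4
    ext x; simp [mem_subgroupOf, mem_centralizer_singleton_iff, Subtype.ext_iff, σ]
  · exact ⟨fun h => by simp [h], fun h => MonoidHom.ext fun x => by
      simpa using DFunLike.congr_fun h (σ.symm x)⟩

theorem MP.exists_norm (h : MP p H b P e) (hab : P ≤ Subgroup.centralizer (P : Set G)) : ∃ N : P →* P,
    (∀ t ∈ NS H P e, ∀ v w : P, t * v * t⁻¹ = w → N v = N w) ∧
      ∀ v : P, NS H P e ≤ Subgroup.centralizer {(v : G)} → N v = 1 → v = 1 := by
  letI : CommGroup P := { (inferInstance : Group P) with mul_comm a b := Subtype.ext (hab b.2 a a.2) }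
  let ρ := P.normalizerMonoidHom.comp (inclusion (NS_le_normalizer H P e))
  have := Fintype.ofFinite ρ.range
  refine ⟨∏ α : ρ.range, (α : MulAut P).toMonoidHom, fun t ht v w h1 => ?_, fun v h1 h2 => ?_⟩
  · simp only [MonoidHom.finsetProd_apply]
    refine (Fintype.prod_equiv (Equiv.mulRight ⟨ρ ⟨t, ht⟩, _, rfl⟩) _ _ fun α => ?_).symm
    rw [show w = ρ ⟨t, ht⟩ v from Subtype.ext h1.symm]; rfl
  rw [MonoidHom.finsetProd_apply, Finset.prod_congr rfl (g := fun _ => v) fun ⟨_, t, rfl⟩ _ =>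
    Subtype.ext (mul_inv_eq_iff_eq_mul.2 (mem_centralizer_singleton_iff.1 (h1 t.2))), Finset.prod_const] at h2
  refine Subtype.ext ((pElt_of_mem h.bp.pgrp v.2).eq_one fun h3 => ?_)
  obtain ⟨⟨_, t, rfl⟩, h4⟩ := exists_prime_orderOf_dvd_card (G := ρ.range) p
    (h3.trans (by simpa using orderOf_dvd_of_pow_eq_one h2))
  have h5 : ρ t = 1 := MulEquiv.ext fun x => Subtype.ext (mul_inv_eq_iff_eq_mul.2
    (h.mem_centralizer_of_pow hab t.2 (k := 1) (fun y hy => ?_) x x.2).symm)
  · rw [show (⟨ρ t, t, rfl⟩ : ρ.range) = 1 from Subtype.ext h5, orderOf_one] at h4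
    exact hp.out.ne_one h4.symm
  · have := congrArg (fun α : ρ.range => ((α : MulAut P) ⟨y, hy⟩ : G)) (orderOf_dvd_iff_pow_eq_one.1 h4.dvd)
    simp only [SubgroupClass.coe_pow, ← map_pow] at this
    rw [pow_one]
    exact (mul_inv_eq_iff_eq_mul.1 this).symm

theorem MP.lq_eq_of_fixed (h : MP p H b P e) (hab : P ≤ Subgroup.centralizer (P : Set G)) (hu : u ∈ P)
    (hf : NS H P e ≤ Subgroup.centralizer {u}) : lq p H P e (zpowers u) = lq p H P e ⊥ := by
  induction H using WellFoundedLT.induction generalizing b with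
  | ind H ih =>
  classical
  have hc : ∀ w ∈ P, P ≤ Subgroup.centralizer (zpowers w : Set G) := fun w hw =>
    hab.trans (centralizer_anti (zpowers_le.2 hw))
  have h1 : ∀ w ∈ P, ¬ NS H P e ≤ Subgroup.centralizer {w} →
      lq p H P e (zpowers w) = lq p H P e (zpowers w ⊔ zpowers u) := fun w hw h1 => by
    obtain ⟨f, h2⟩ := h.bp.exists_ple (zpowers_le.2 hw)
    have := ih _ (lt_of_le_of_ne inf_le_left fun h3 => h1 ((NS_le _ _ _).trans (by
      rw [← h3, ← centralizer_zpowers]; exact inf_le_right))) (h.centralizer h2 (hc w hw))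
      (le_trans (inf_le_inf_right _ (inf_le_inf_right _ inf_le_left)) hf)
    rwa [h.bp.lq_CH (zpowers_le.2 hw) (zpowers_le.2 hu) (hc w hw), h.bp.lq_CH (zpowers_le.2 hw) bot_le (hc w hw),
      sup_bot_eq, eq_comm] at this
  obtain ⟨N, h2, h3⟩ := h.exists_norm hab
  obtain ⟨c, h4, rfl⟩ := h.bi.exists_iB
  letI : CommGroup P := { (inferInstance : Group P) with mul_comm a b := Subtype.ext (hab b.2 a a.2) }
  have := Fintype.ofFinite P
  have := Fintype.ofFinite (P →* ℂˣ)
  let g : P → ℂ := fun v => ((Subgroup.centralizer {(v : G)}).relIndex (NS H P e) : ℂ)⁻¹ * lq p H P e (zpowers (v : G))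
  have h5 : ∀ a : P, ∑ l : P →* ℂˣ, (l a : ℂ) = if a = 1 then (Fintype.card (P →* ℂˣ) : ℂ) else 0 := fun a => by
    split_ifs with h5
    · simp [h5]
    obtain ⟨l, h6⟩ := CommGroup.exists_apply_ne_one_of_hasEnoughRootsOfUnity P ℂ h5
    exact sum_hom_units_eq_zero ((Units.coeHom ℂ).comp (MonoidHom.eval a)) fun h7 =>
      h6 (Units.ext (DFunLike.congr_fun h7 l))
  have h6 : ∀ a : P, (Fintype.card (P →* ℂˣ) : ℂ) * ∑ v, (if N v = 1 then g (a * v) else 0) =
      ∑ l : P →* ℂˣ, if l.comp N = 1 then (Nat.card c : ℂ) else 0 := fun a => by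
    calc _ = ∑ v, ∑ l : P →* ℂˣ, l (N (a⁻¹ * v)) * g v := by
          rw [Finset.mul_sum, ← Equiv.sum_comp (Equiv.mulLeft a⁻¹)]
          simp only [← Finset.sum_mul, h5, Equiv.coe_mulLeft, mul_inv_cancel_left]
          exact Finset.sum_congr rfl fun v _ => by split_ifs <;> simp
      _ = _ := by
          rw [Finset.sum_comm]
          refine Finset.sum_congr rfl fun l _ => ?_
          have := h.sum_lin h4 hab (l.comp N) fun t ht v w h6 => congrArg l (h2 t ht v w h6)
          rw [Finset.sum_congr rfl (g := fun v : P => l (N a⁻¹) * (((Subgroup.centralizer {(v : G)}).relIndex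
            (NS H P e) : ℂ)⁻¹ * (l.comp N v * lq p H P e (zpowers (v : G))))) fun v _ => by
              simp only [map_mul, Units.val_mul, g, MonoidHom.comp_apply]; ring, ← Finset.mul_sum, this]
          split_ifs with h7
          · rw [show l (N a⁻¹) = 1 from DFunLike.congr_fun h7 _]; simp
          · simp
  have h7 := mul_left_cancel₀ (Nat.cast_ne_zero.2 Fintype.card_ne_zero) ((h6 ⟨u, hu⟩).trans (h6 1).symm)
  rw [← Finset.add_sum_erase _ _ (Finset.mem_univ 1), ← Finset.add_sum_erase _ _ (Finset.mem_univ 1),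
    Finset.sum_congr rfl fun v hv => if_ctx_congr Iff.rfl (fun h7 => ?_) fun _ => rfl, add_left_inj] at h7
  · simpa [g, relIndex_eq_one.2 hf, centralizer_one_eq] using h7
  have h8 : ¬ NS H P e ≤ Subgroup.centralizer {(v : G)} := fun h8 => (Finset.mem_erase.1 hv).1 (h3 v h8 h7)
  have h9 : Subgroup.centralizer {u * v} ⊓ NS H P e = Subgroup.centralizer {(v : G)} ⊓ NS H P e := by
    ext t
    simp only [mem_inf, mem_centralizer_singleton_iff]
    exact and_congr_left fun ht => by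
      rw [← mul_assoc, mem_centralizer_singleton_iff.1 (hf ht), mul_assoc, mul_assoc, mul_right_inj]
  simp only [g, one_mul, coe_mul]
  rw [← inf_relIndex_right, h9, inf_relIndex_right, h1 _ v.2 h8, h1 _ (mul_mem hu v.2) fun h10 => h8 (by
    rw [← inf_eq_right, ← h9, inf_eq_right.2 h10])]
  congr 3
  refine le_antisymm (sup_le (zpowers_le.2 (mul_mem (mem_sup_right (mem_zpowers u)) (mem_sup_left (mem_zpowers _))))
    le_sup_right) (sup_le (zpowers_le.2 ?_) le_sup_right)
  exact (mul_mem_cancel_left (mem_sup_right (mem_zpowers u))).1 (mem_sup_left (mem_zpowers _))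

end Cfsg.Agent.B
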