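import Cfsg.Agent.B.Perf
import Cfsg.Agent.B.Wat
import Cfsg.Agent.H3.TI

/-!
# Local systems for blocks with abelian defect group and freely acting inertial quotient.
-/

set_option autoImplicit false
set_option linter.unusedSectionVars false

namespace Cfsg.Agent.B

open MonoidAlgebra Subgroup Cfsg.Agent.H3 Cfsg.Agent.H2
open scoped ComplexConjugate

theorem exists_lin_of_int {A : Type*} [Group A] [Fintype A] [IsMulCommutative A] (Q : Subgroup A) {g : A → ℂ}
    (h1 : ∀ u ∉ Q, g u * conj (g u) = 1) (h2 : ∀ l ν : Lin A, (∀ u ∈ Q, l u = 1) →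
      ∃ n : ℤ, ∑ u, (l u - 1) * g u * conj (ν u) = Nat.card A * n) :
    ∃ (ν : Lin A) (δ : ℂ), (δ = 1 ∨ δ = -1) ∧ ∀ u ∉ Q, g u = δ * ν u := by
  classical
  let K : Subgroup (Lin A) :=
    { carrier := {l | ∀ u ∈ Q, l u = 1}, one_mem' := fun _ _ => rfl,
      mul_mem' := fun ha hb u hu => by simp [ha u hu, hb u hu], inv_mem' := fun ha u hu => by simp [ha u hu] }
  have := Fintype.ofFinite K
  obtain ⟨δ, hδ, μ, h3, h4, h5⟩ := exists_exceptional (1 : K) (fun l u => (l.1 u - 1) * g u) (by ext; simp)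
    (fun l => (isClassFunction_of_comm _).isGen_of_inner fun χ hχ => by
      obtain ⟨ν, rfl⟩ := Lin.exists_of_irr hχ
      obtain ⟨n, hn⟩ := h2 l ν l.2
      exact ⟨n, mul_left_cancel₀ card_ne_zero (by rw [card_mul_classInner, hn])⟩) (fun l => by simp)
    fun l l' hl hl' => by
      have : classInner (fun u => (l.1 u - 1) * g u) (fun u => (l'.1 u - 1) * g u) =
          classInner (⇑l.1 - ⇑(1 : Lin A)) (⇑l'.1 - ⇑(1 : Lin A)) := by
        simp only [classInner_def]
        refine congrArg _ (Finset.sum_congr rfl fun u _ => ?_)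
        by_cases hu : u ∈ Q
        · simp [l.2 u hu]
        · simp only [map_mul, Pi.sub_apply, Lin.one_apply]
          linear_combination (l.1 u - 1) * conj (l'.1 u - 1) * h1 u hu
      simp only [this, classInner_sub_left, classInner_sub_right, Lin.inner_eq]
      have h3 : l.1 ≠ 1 := fun h => hl (Subtype.ext h)
      have h4 : 1 ≠ l'.1 := fun h => hl' (Subtype.ext h.symm)
      by_cases h : l = l' <;> simp [h, h3, h4, h4.symm, Subtype.ext_iff] <;> norm_num
  choose ν hν using fun l => Lin.exists_of_irr (h3 l)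
  have h6 : ∀ l u, (l.1 u - 1) * g u = δ * (ν l u - ν 1 u) := fun l u => by simpa [hν] using congrFun (h5 l) u
  have h7 : δ ≠ 0 := by rcases hδ with rfl | rfl <;> simp
  let τ : K → K := fun l => ⟨ν l * (ν 1)⁻¹, fun u hu => by
    have := h6 l u
    rw [l.2 u hu, sub_self, zero_mul, eq_comm, mul_eq_zero, sub_eq_zero] at this
    simp [this.resolve_left h7]⟩
  have h8 : τ.Bijective := Finite.injective_iff_bijective.1 fun l l' h => h4 (by
    rw [hν, hν, mul_right_cancel (congrArg Subtype.val h)])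
  refine ⟨ν 1, δ, hδ, fun u hu => ?_⟩
  have h9 : ∑ l : K, l.1 u = 0 := by
    have : Q.Normal := ⟨fun n hn g => by rwa [mul_comm' g, mul_inv_cancel_right]⟩
    have : IsMulCommutative (A ⧸ Q) := ⟨⟨fun a b => by
      induction a using QuotientGroup.induction_on; induction b using QuotientGroup.induction_on
      rw [← QuotientGroup.mk_mul, mul_comm', QuotientGroup.mk_mul]⟩⟩
    obtain ⟨i, hi⟩ := exists_lin_ne_one (A := A ⧸ Q) (a := u) (by simpa using hu)
    have h9 := Fintype.sum_equiv (Equiv.mulLeft (⟨i.comp (QuotientGroup.mk' Q), fun v hv => by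
      simp [(QuotientGroup.eq_one_iff v).2 hv]⟩ : K)) (fun l => i u * l.1 u) (fun l => l.1 u) fun _ => rfl
    rw [← Finset.mul_sum] at h9
    exact (mul_left_eq_self₀.1 h9).resolve_left hi
  have h10 : ∑ l, ν l u = 0 := by
    rw [← zero_mul (ν 1 u), ← h9, ← h8.sum_comp (fun l => l.1 u), Finset.sum_mul]
    simp [τ]
  have h11 := Finset.sum_congr (s₁ := Finset.univ) rfl fun l _ => h6 l u
  simp only [← Finset.sum_mul, ← Finset.mul_sum, Finset.sum_sub_distrib, h9, h10, Finset.sum_const, nsmul_eq_mul] at h11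
  refine mul_left_cancel₀ (a := ((Finset.univ : Finset K).card : ℂ)) (by simp) ?_
  linear_combination -h11

open Finset in
theorem card_ge_of_small {ι κ : Type*} [Fintype ι] [DecidableEq ι] [Nonempty ι] (s : Finset κ) (a : ι → κ → ℤ) {ε : ℕ}
    (h1 : ∀ i j, ∑ x ∈ s, a i x * a j x = (if i = j then 1 else 0) + ε) (h2 : ∀ x ∈ s, ∃ i, a i x ≠ 0)
    (h3 : Fintype.card ι < #s) (h4 : ε ≤ 3) : ε + Fintype.card ι ≤ #s ∨ 2 ≤ Fintype.card ι ∧ Fintype.card ι ≤ ε + 1 := by
  classical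
  have h5 : ∀ i, ∀ x ∈ s, a i x = 0 ∨ a i x * a i x = 1 := fun i x hx => by
    by_contra! h
    have h5 := h1 i i
    rw [← add_sum_erase _ _ hx, if_pos rfl] at h5
    have h6 : 4 ≤ a i x * a i x := by
      rcases lt_trichotomy (a i x) 0 with h6 | h6 | h6
      · have : a i x ≠ -1 := fun h7 => h.2 (by rw [h7]; rfl)
        nlinarith [show a i x ≤ -2 by omega]
      · exact absurd h6 h.1
      · have : a i x ≠ 1 := fun h7 => h.2 (by rw [h7]; rfl)
        nlinarith [show 2 ≤ a i x by omega]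
    have h7 := sum_nonneg fun y (_ : y ∈ s.erase x) => mul_self_nonneg (a i y)
    have h8 := (sum_eq_zero_iff_of_nonneg fun y (_ : y ∈ s.erase x) => mul_self_nonneg (a i y)).1 (by omega)
    have h9 : ∀ j, i = j := fun j => by_contra fun h9 => by
      have := h1 i j
      rw [← add_sum_erase _ _ hx, if_neg h9, sum_eq_zero fun y hy => by rw [mul_self_eq_zero.1 (h8 y hy), zero_mul]] at this
      rcases mul_self_eq_mul_self_iff.1 (show a i x * a i x = 2 * 2 by omega) with h | h <;> rw [h] at this <;> omega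
    have : s ⊆ {x} := fun y hy => by_contra fun h10 => by
      obtain ⟨j, hj⟩ := h2 y hy
      exact hj (h9 j ▸ mul_self_eq_zero.1 (h8 y (mem_erase.2 ⟨by simpa using h10, hy⟩)))
    have := card_le_card this
    have := Fintype.card_pos (α := ι)
    rw [card_singleton] at *
    omega
  let S i := s.filter (a i · ≠ 0)
  have h6 : ∀ i, #(S i) = ε + 1 := fun i => by
    have := h1 i i
    rw [← sum_filter_of_ne (p := (a i · ≠ 0)) fun x _ h => left_ne_zero_of_mul h, sum_congr rfl fun x hx =>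
      (h5 i x (mem_filter.1 hx).1).resolve_left (mem_filter.1 hx).2] at this
    rw [sum_const, nsmul_eq_mul, mul_one, if_pos rfl, add_comm] at this
    exact_mod_cast this
  have h7 : ∀ i j, i ≠ j → #(S i ∩ S j) = ε := fun i j h => by
    have h7 := h1 i j
    rw [if_neg h, zero_add, ← sum_filter_of_ne (p := fun x => a i x ≠ 0 ∧ a j x ≠ 0) fun x _ h => mul_ne_zero_iff.1 h,
      filter_and] at h7
    have h8 : ∀ x ∈ S i ∩ S j, a i x * a j x = 1 ∨ a i x * a j x = -1 := fun x hx => by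
      simp only [S, mem_inter, mem_filter] at hx
      refine mul_self_eq_one_iff.1 ?_
      rw [mul_mul_mul_comm, (h5 i x hx.1.1).resolve_left hx.1.2, (h5 j x hx.1.1).resolve_left hx.2.2, mul_one]
    have h9 := sum_le_card_nsmul (S i ∩ S j) (fun x => a i x * a j x) 1 fun x hx => by rcases h8 x hx with h | h <;> simp [h]
    have h10 := card_le_card (inter_subset_left (s₁ := S i) (s₂ := S j))
    have h11 := sum_int_mod (S i ∩ S j) 2 fun x => a i x * a j x
    rw [sum_congr (f := fun x => a i x * a j x % 2) rfl (g := fun _ => 1) fun x hx => by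
      rcases h8 x hx with h | h <;> simp [h], show ∑ x ∈ S i ∩ S j, _ = _ from h7] at h11
    rw [show ∑ x ∈ S i ∩ S j, _ = _ from h7] at h9
    simp only [sum_const, nsmul_eq_mul, mul_one, h6] at h9 h10 h11
    omega
  have h8 : ∀ i j x, x ∈ S i → x ∉ S j → (S i).erase x ⊆ S j := fun i j x hi hj => by
    rw [← eq_of_subset_of_card_le (s := S i ∩ S j) (fun y hy => mem_erase.2 ⟨by rintro rfl; exact hj (mem_inter.1 hy).2,
      (mem_inter.1 hy).1⟩) (by rw [card_erase_of_mem hi, h6, h7 i j (by rintro rfl; exact hj hi)]; rfl)]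
    exact inter_subset_right
  rcases subsingleton_or_nontrivial ι with hι | hι
  · obtain ⟨i⟩ := ‹Nonempty ι›
    rw [Fintype.card_eq_one_iff.2 ⟨i, fun j => Subsingleton.elim _ _⟩, ← h6 i]
    exact .inl (card_filter_le _ _)
  by_cases h9 : ∃ i j l x, i ≠ j ∧ x ∈ S i ∧ x ∈ S j ∧ x ∉ S l
  · obtain ⟨i, j, l, x, h9, hi, hj, hl⟩ := h9
    have h10 : s ⊆ S i ∪ S j := fun z hz => by_contra fun h10 => by
      rw [mem_union, not_or] at h10
      obtain ⟨r, hr, h11⟩ : ∃ r, z ∈ S r ∧ x ∉ (S r).erase z := by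
        by_cases h11 : z ∈ S l
        · exact ⟨l, h11, fun h => hl (mem_of_mem_erase h)⟩
        · obtain ⟨r, hr⟩ := h2 z hz
          exact ⟨r, mem_filter.2 ⟨hz, hr⟩, fun h => hl (h8 r l z (mem_filter.2 ⟨hz, hr⟩) h11 h)⟩
      have := card_le_card (show insert x ((S r).erase z) ⊆ S i ∩ S j from insert_subset (mem_inter.2 ⟨hi, hj⟩)
        (subset_inter (h8 r i z hr h10.1) (h8 r j z hr h10.2)))
      rw [card_insert_of_notMem h11, card_erase_of_mem hr, h6, h7 i j h9] at this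
      omega
    have h11 := card_le_card h10
    have h12 := card_union_add_card_inter (S i) (S j)
    rw [h6, h6, h7 i j h9] at h12
    exact .inr ⟨Fintype.one_lt_card, by omega⟩
  push Not at h9
  have h10 : ∀ i, ∃ y ∈ S i, ∀ j, y ∈ S j → i = j := fun i => by
    obtain ⟨j, hj⟩ := exists_ne i
    obtain ⟨y, h10, h11⟩ := exists_mem_notMem_of_card_lt_card (show #(S i ∩ S j) < #(S i) by rw [h6, h7 i j hj.symm]; omega)
    exact ⟨y, h10, fun l hl => by_contra fun h => h11 (mem_inter.2 ⟨h10, h9 i l j y h h10 hl⟩)⟩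
  choose y h10 h11 using h10
  obtain ⟨i, j, h⟩ := exists_pair_ne ι
  rw [← h7 i j h, ← card_univ, ← card_image_of_injective _ fun i j (h : y i = y j) => h11 i j (h ▸ h10 j),
    ← card_union_of_disjoint (disjoint_left.2 fun x hx h12 => by
      obtain ⟨l, -, rfl⟩ := mem_image.1 h12
      exact h ((h11 l i (mem_inter.1 hx).1).symm.trans (h11 l j (mem_inter.1 hx).2)))]
  exact .inl (card_le_card (union_subset (inter_subset_left.trans (filter_subset _ _))
    (image_subset_iff.2 fun l _ => (mem_filter.1 (h10 l)).1)))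

variable {p : ℕ} [hp : Fact p.Prime] {M : Ideal AlgInt} [hM : PMod p M]
variable {G : Type*} [Group G] [Finite G] {X : Type*} [Group X] [Finite X]

theorem exists_kappa {b : Set (IrrCharacter G)} (hb : b.Nonempty) :
    ∃ n : ℕ, 0 < n ∧ Nat.card G * blockCoeff b 1 = n := by
  classical
  obtain ⟨ξ, hξ⟩ := hb
  refine ⟨∑ χ : IrrCharacter G, if χ ∈ b then charDegree χ.1 ^ 2 else 0, Finset.sum_pos' (by simp)
    ⟨ξ, by simp, by simp [hξ, ξ.2.charDegree_pos]⟩, ?_⟩
  rw [blockCoeff_eq, mul_inv_cancel_left₀ card_ne_zero]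
  simp [IsIrrCharacter.cast_charDegree (Subtype.property _), sq]

theorem inner_of_rank [Fintype G] {b : Set (IrrCharacter G)} (hb : IsPBlock M b) (h : blockRank p b = 1) (α β : G → ℂ) :
    Nat.card G * blockCoeff b 1 * classInner (reg p (blockPart b α)) (reg p (blockPart b β)) =
      blockPart b α 1 * conj (blockPart b β 1) := by
  have h1 : blockPart b (regChar G) 1 = Nat.card G * blockCoeff b 1 := by
    rw [blockPart_apply _ isCharacter_regChar.isClassFunction, map_one, mul_one, ev_apply, Finset.sum_eq_single 1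
      (fun g _ hg => by rw [regChar_of_ne hg, mul_zero]) (by simp), regChar_one, coeff_fC, mul_comm]
  have h2 : reg p (blockPart b (regChar G)) = blockPart b (regChar G) := by
    rw [← hb.closed.blockPart_reg_eq]
    refine congrArg _ (funext fun g => ?_)
    by_cases hg : p ∣ orderOf g
    · rw [reg_of_dvd _ hg, regChar_of_ne (by rintro rfl; simpa [hp.out.ne_one] using hg)]
    · exact reg_of_not_dvd _ hg
  obtain ⟨n, h3, h4⟩ := exists_kappa hb.nonempty
  have h5 : ∀ α, ∃ c : ℂ, reg p (blockPart b α) = c • blockPart b (regChar G) := fun α => by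
    obtain ⟨c, hc⟩ := (finrank_eq_one_iff_of_nonzero' (⟨_, Closed.mem_span_reg (p := p) (B := b) (regChar G)⟩ :
      Submodule.span ℂ _) (fun h0 => h3.ne' (by
        have : reg p (blockPart b (regChar G)) 1 = 0 := congrFun (congrArg Subtype.val h0) 1
        rw [reg_one', h1, h4] at this
        exact_mod_cast this))).1 ((blockRank_eq_finrank b).symm.trans h) ⟨_, Closed.mem_span_reg α⟩
    exact ⟨c, by simpa [h2] using (congrArg Subtype.val hc).symm⟩
  obtain ⟨c, hc⟩ := h5 α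
  obtain ⟨d, hd⟩ := h5 β
  rw [← reg_one' (p := p) (blockPart b α), ← reg_one' (p := p) (blockPart b β), hc, hd, classInner_smul_left,
    classInner_smul_right, ← classInner_blockPart_left _ (isClassFunction_blockPart _ _) isCharacter_regChar.isClassFunction,
    blockPart_blockPart, Set.inter_self, classInner_regChar_right]
  simp only [Pi.smul_apply, h1, h4, smul_eq_mul, map_mul, map_natCast]
  ring

variable (p) in
/-- the block below a Brauer pair -/
def bq (P : Subgroup G) (e : MonoidAlgebra (F M) G) (S : Subgroup G) : Set (IrrCharacter (centralizer (S : Set G))) :=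
  {ξ | ∃ b, IsPBlock M b ∧ PLe p ⊤ S (iB M _ b) P e ∧ ξ ∈ b}

variable (p) in
/-- normalized generalized decomposition numbers -/
noncomputable def dd (P : Subgroup G) (e : MonoidAlgebra (F M) G) (S : Subgroup G) (u : G) (φ : G → ℂ) : ℂ :=
  ev φ (iC _ (bq p P e S) * of ℂ G u) *
    √(Nat.card P / (Nat.card (centralizer (S : Set G)) * (iC _ (bq p P e S)).coeff 1).re)

variable {P Q R S : Subgroup G} {e : MonoidAlgebra (F M) G} {B : Set (IrrCharacter G)} {t u : G} {φ ψ : G → ℂ}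

theorem BP.bq_eq (he : BP p ⊤ P e) {b : Set (IrrCharacter (centralizer (S : Set G)))} (hb : IsPBlock M b)
    (h : PLe p ⊤ S (iB M _ b) P e) : bq p P e S = b :=
  Set.ext fun _ => ⟨fun ⟨_, h1, h2, h3⟩ => h1.closed.iB_inj hb.closed (h2.unique h he) ▸ h3, fun h1 => ⟨b, hb, h, h1⟩⟩

theorem BP.bq_spec (he : BP p ⊤ P e) (hS : S ≤ P) :
    IsPBlock M (bq p P e S) ∧ PLe p ⊤ S (iB M _ (bq p P e S)) P e := by
  obtain ⟨f, hf⟩ := he.exists_ple hS
  obtain ⟨c, h2, rfl⟩ := (hf.bp he).exists_iB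
  rw [he.bq_eq h2 hf]
  exact ⟨h2, hf⟩

theorem BP.bq_cj (he : BP p ⊤ P e) (hS : S ≤ P) (ht : t ∈ NS ⊤ P e) :
    bq p P e (cj t S) = cmp (cjE t (cj_centralizer t S)) ⁻¹' bq p P e S :=
  he.bq_eq ((he.bq_spec hS).1.preimage_cmp _) (cA_iB (M := M) t (cj_centralizer t S) _ ▸
    (he.bq_spec hS).2.conj_of_stab (le_normalizer (mem_top t)) ht.1.2 ht.2)

theorem BP.dd_cj (he : BP p ⊤ P e) (hS : S ≤ P) (ht : t ∈ NS ⊤ P e) :
    dd p P e (cj t S) (t * u * t⁻¹) φ = dd p P e S u fun g => φ (t * g * t⁻¹) := by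
  rw [dd, dd, he.bq_cj hS ht, ← cA_iC, ← cA_of, ← map_mul, cA, ev_push, ← cA, coeff_cA,
    ← Nat.card_congr (cjE t (cj_centralizer t S)).toEquiv]
  simp

theorem dd_mul {q : G} {ω : ℂ} (h : ∀ g, φ (g * q) = ω * φ g) : dd p P e S (u * q) φ = ω * dd p P e S u φ := by
  have := Fintype.ofFinite G
  rw [dd, dd, ev_mul_of, ev_mul_of, ← mul_assoc, Finset.mul_sum]
  simp only [← mul_assoc _ u, h, mul_left_comm]

variable (p) in
/-- a realization of the centralizer of `R` -/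
structure LC (P : Subgroup G) (e : MonoidAlgebra (F M) G) (R : Subgroup G) (f : X →* G) (b : Set (IrrCharacter X))
    (P' : Subgroup X) (e' : MonoidAlgebra (F M) X) : Prop where
  inj : Function.Injective f
  rng : f.range = centralizer (R : Set G)
  blk : IsPBlock M b
  mp : MP p ⊤ (eB M b) P' e'
  map : P'.map f = P
  psh : push f e' = e

variable (p) in
/-- abelian defect group with freely acting inertial quotient -/
structure FA (B : Set (IrrCharacter G)) (P : Subgroup G) (e : MonoidAlgebra (F M) G) : Prop where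
  mp : MP p ⊤ (eB M B) P e
  blk : IsPBlock M B
  ab : P ≤ centralizer (P : Set G)
  free : ∀ g ∈ NS ⊤ P e, ∀ x ∈ P, x ≠ 1 → g * x * g⁻¹ = x → g ∈ centralizer (P : Set G)

namespace FA

variable (h : FA p B P e)
include h

theorem lc_top : LC p P e ⊥ (MonoidHom.id G) B P e :=
  ⟨fun _ _ h => h, by ext; simp [mem_centralizer_iff], h.blk, h.mp, map_id _, push_id _⟩

theorem exists_lc (hR : R ≤ P) : ∃ e', LC p P e R (centralizer (R : Set G)).subtype (bq p P e R) (P.subgroupOf _) e' := by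
  obtain ⟨h1, h2⟩ := h.mp.bp.bq_spec hR
  have h3 : P ≤ centralizer (R : Set G) := h.ab.trans (centralizer_le hR)
  have h4 := map_subgroupOf_eq_of_le h3
  have h0 : (⊤ : Subgroup (centralizer (R : Set G))).map (Subgroup.subtype _) = centralizer (R : Set G) := by
    rw [← MonoidHom.range_eq_map, range_subtype]
  have h5 : BP p (centralizer (R : Set G)) P e := h.mp.bp.congr (by
    rw [CH_top]; exact (inf_eq_right.2 (centralizer_le hR)).symm) h3
  obtain ⟨P', e', h6, rfl, h7⟩ := BP.exists_push (Subgroup.subtype_injective _) (h0.symm ▸ h5)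
  obtain rfl : P' = P.subgroupOf _ := Subgroup.map_injective (Subgroup.subtype_injective _) (h6.trans h4.symm)
  have h8 := (h2.nl h.mp.bp (h3.trans (centralizer_le_normalizer _))).br
  refine ⟨e', Subgroup.subtype_injective _, range_subtype _, h1, h7.mp_of_max h1.isBI_top (push_injective
    (Subgroup.subtype_injective _) (by rw [map_mul, ← br_push (Subgroup.subtype_injective _), h4, h8])) fun T g hT => ?_, h4, rfl⟩
  have h9 := (hT.ple.push (Subgroup.subtype_injective _)).congr (K := ⊤) (by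
    rw [h0, h4, CH_top]; exact inf_eq_right.2 (centralizer_le hR)) le_top
  rw [h4] at h9
  exact Subgroup.map_injective (Subgroup.subtype_injective _) ((h.mp.eq_of_ple h9).trans h4.symm)

variable {f : X →* G} {b : Set (IrrCharacter X)} {P' : Subgroup X} {e' : MonoidAlgebra (F M) X} {v : X}

theorem ab' (h' : LC p P e R f b P' e') : P' ≤ centralizer (P' : Set X) := fun x hx y hy =>
  h'.inj (by simpa using h.ab (h'.map.le ⟨x, hx, rfl⟩) _ (h'.map.le ⟨y, hy, rfl⟩))

theorem free' (h' : LC p P e R f b P' e') (hR : R ≤ P) (hv : v ∈ P') (h1 : R ⊔ zpowers (f v) ≠ ⊥) :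
    NS ⊤ P' e' ⊓ centralizer {v} ≤ centralizer (P' : Set X) := fun g hg y hy => by
  have h2 := (map_NS h'.inj ⊤ P' e').le ⟨g, hg.1, rfl⟩
  rw [h'.map, h'.psh] at h2
  obtain ⟨x, hx, h3, h4⟩ : ∃ x ∈ P, x ≠ 1 ∧ f g * x * (f g)⁻¹ = x := by
    by_cases h3 : R = ⊥
    · exact ⟨f v, h'.map.le ⟨v, hv, rfl⟩, fun h4 => h1 (by simp [h3, h4]), by
        rw [← map_mul, mem_centralizer_singleton_iff.1 hg.2, map_mul, mul_inv_cancel_right]⟩
    · obtain ⟨⟨x, hx⟩, h4⟩ := ne_bot_iff_exists_ne_one.1 h3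
      exact ⟨x, hR hx, by simpa using h4, by rw [← h'.rng.le ⟨g, rfl⟩ x hx, mul_inv_cancel_right]⟩
  exact h'.inj (by simpa using h.free _ ⟨⟨trivial, h2.1.2⟩, h2.2⟩ x hx h3 h4 _ (h'.map.le ⟨y, hy, rfl⟩))

theorem ctr_eq (h' : LC p P e R f b P' e') (hR : R ≤ P) (hv : v ∈ P') (h1 : R ⊔ zpowers (f v) ≠ ⊥)
    (hφ : IsClassFunction X fun x => φ (f x)) (hψ : IsClassFunction X fun x => ψ (f x)) :
    Nat.card P * ctr p v (sb p P' e' v) (fun x => φ (f x)) (fun x => ψ (f x)) =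
      dd p P e (R ⊔ zpowers (f v)) (f v) φ * conj (dd p P e (R ⊔ zpowers (f v)) (f v) ψ) := by
  have := Fintype.ofFinite (centralizer ({v} : Set X))
  obtain ⟨h2, h3⟩ := h'.mp.bp.sb_spec hv
  obtain ⟨h4, h5⟩ := h.mp.bp.bq_spec (sup_le hR (zpowers_le.2 (h'.map.le ⟨v, hv, rfl⟩)))
  have h6 := h3.push h'.inj
  rw [← MonoidHom.range_eq_map, h'.rng, ← CH_top, MonoidHom.map_zpowers, h'.map, h'.psh] at h6
  replace h6 := h6.sup (h.mp.bp.pgrp.to_le hR) le_top
  rw [sup_eq_right.2 hR, iB, push_push] at h6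
  have h7 : Function.Injective (f.comp (centralizer ({v} : Set X)).subtype) := h'.inj.comp (Subgroup.subtype_injective _)
  have h8 : (f.comp (centralizer ({v} : Set X)).subtype).range = centralizer (R ⊔ zpowers (f v) : Subgroup G) := by
    rw [MonoidHom.range_comp, range_subtype, ← centralizer_zpowers, map_centralizer_eq h'.inj, h'.rng, ← CH_top (_ ⊔ _),
      ← CH_CH, CH_top, MonoidHom.map_zpowers]
  have h9 := h2.closed.push_fC_eq h7 h4.closed h8.ge (h8.le.trans le_normalizer) (h6.unique h5 h.mp.bp)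
  have h10 : ∀ φ : G → ℂ, IsClassFunction X (fun x => φ (f x)) → blockPart (sb p P' e' v) (sh v fun x => φ (f x)) 1 =
      ev φ (iC _ (bq p P e (R ⊔ zpowers (f v))) * of ℂ G (f v)) := fun φ hφ => by
    rw [blockPart_sh _ hφ, ← ev_push, map_mul, push_push, h9, push_of, OneMemClass.coe_one, mul_one]
  obtain ⟨n, h11, h12⟩ := exists_kappa h2.nonempty
  have h13 := inner_of_rank h2 (h'.mp.rank_sb (h.ab' h') hv (h.free' h' hR hv h1)) (sh v fun x => φ (f x)) (sh v fun x => ψ (f x))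
  rw [← ctr_eq_self h2.closed hφ hψ, h10 _ hφ, h10 _ hψ, h12] at h13
  have h14 : Nat.card (centralizer (R ⊔ zpowers (f v) : Subgroup G) : Subgroup G) *
      (iC _ (bq p P e (R ⊔ zpowers (f v)))).coeff 1 = n := by
    rw [← h9, ← h8, ← Nat.card_congr (MonoidHom.ofInjective h7).toEquiv, ← h12, ← coeff_fC,
      ← coeff_push_of_injective h7 _ 1, MonoidHom.map_one]
  rw [dd, dd, h14, map_mul (starRingEnd ℂ), mul_mul_mul_comm, ← h13, Complex.conj_ofReal, ← Complex.ofReal_mul,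
    Real.mul_self_sqrt (div_nonneg (Nat.cast_nonneg _) (by simp))]
  have : (n : ℂ) ≠ 0 := by exact_mod_cast h11.ne'
  simp only [Complex.natCast_re, Complex.ofReal_div, Complex.ofReal_natCast]
  field_simp

theorem nil' (h' : LC p P e R f b P' e') (hR : R ≤ P) (h1 : R ≠ ⊥) : Nil p ⊤ (eB M b) :=
  (h'.mp.nil_iff_of_abelian (h.ab' h')).2 fun x hx => h.free' h' hR (one_mem _) (by simpa) ⟨hx, by
    simp [mem_centralizer_singleton_iff]⟩

theorem nF' (h' : LC p P e R f b P' e') (hR : R ≤ P) (h1 : R ≠ ⊥) (hv : v ∈ P') : nF p P' e' v = 1 := by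
  rw [h'.mp.nF_of_nil (h.nil' h' hR h1) hv, relIndex_eq_one.2 (mem_centralizer_comm.1 (h.ab' h' hv))]

theorem dd_nil (hR : R ≤ P) (h1 : R ≠ ⊥) {ξ : IrrCharacter (centralizer (R : Set G))} (hξ : ξ ∈ bq p P e R) :
    (∀ u ∈ P, dd p P e (R ⊔ zpowers u) u (extendByZero _ ξ.1) * conj (dd p P e (R ⊔ zpowers u) u (extendByZero _ ξ.1)) = 1) ∧
    ∀ ν : Lin P, ∃ ξ' ∈ bq p P e R, ∀ u : P, dd p P e (R ⊔ zpowers (u : G)) u (extendByZero _ ξ'.1) =
      ν u * dd p P e (R ⊔ zpowers (u : G)) u (extendByZero _ ξ.1) := by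
  obtain ⟨e', h'⟩ := h.exists_lc hR
  have h2 : P ≤ centralizer (R : Set G) := h.ab.trans (centralizer_le hR)
  have h3 : ∀ (v : P.subgroupOf (centralizer (R : Set G))) (ξ ξ' : IrrCharacter (centralizer (R : Set G))),
      Nat.card P * ctr p v.1 (sb p _ e' v.1) ξ ξ' = dd p P e (R ⊔ zpowers (v.1 : G)) v.1 (extendByZero _ ξ.1) *
        conj (dd p P e (R ⊔ zpowers (v.1 : G)) v.1 (extendByZero _ ξ'.1)) := fun v ξ ξ' => by
    simpa [extendByZero_coe] using h.ctr_eq h' hR v.2 (φ := extendByZero _ ξ.1) (ψ := extendByZero _ ξ'.1) (by simp [h1])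
      (by simpa [extendByZero_coe] using ξ.2.isClassFunction) (by simpa [extendByZero_coe] using ξ'.2.isClassFunction)
  obtain ⟨ξ₀, h4, h5⟩ := exists_height_zero p h'.blk.nonempty
  obtain ⟨Φ, h6⟩ := h'.mp.exists_nil_equiv h'.blk (h.nil' h' hR h1) h4 h5
  have h7 := fun v : P.subgroupOf (centralizer (R : Set G)) => (h3 v ξ₀ ξ₀).symm.trans (show _ = 1 by
    have := h'.mp.ctr_self_of_nil h'.blk (h.nil' h' hR h1) h4 h5 v.2
    rw [h.nF' h' hR h1 v.2, Nat.cast_one, inv_one, one_mul, L.card_subgroupOf h2] at this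
    rw [this, mul_inv_cancel₀ card_ne_zero])
  have h8 : ∀ ζ (v : P.subgroupOf (centralizer (R : Set G))), dd p P e (R ⊔ zpowers (v.1 : G)) v.1 (extendByZero _ (Φ ζ).1.1) =
      ζ.1 v * dd p P e (R ⊔ zpowers (v.1 : G)) v.1 (extendByZero _ ξ₀.1) := fun ζ v => by
    refine mul_right_cancel₀ (right_ne_zero_of_mul_eq_one (h7 v)) ?_
    rw [← h3, mul_assoc, ← h3, h6, (h'.mp.star_spec h'.blk ζ.2.isGen (Stab.of_nil h'.mp (h.nil' h' hR h1)
      ζ.2.isClassFunction) ξ₀.2.isGen (blockPart_of_mem h4)).2.2, mul_left_comm]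
  have : IsMulCommutative (P.subgroupOf (centralizer (R : Set G))) := le_centralizer_iff_isMulCommutative.1 (h.ab' h')
  obtain ⟨ζ, rfl⟩ : ∃ ζ, (Φ ζ).1 = ξ := ⟨Φ.symm ⟨ξ, hξ⟩, by simp⟩
  obtain ⟨l, hl⟩ := Lin.exists_of_irr ζ.2
  refine ⟨fun u hu => ?_, fun ν => ⟨_, (Φ ⟨_, (ν.comp (subgroupOfEquivOfLe h2).toMonoidHom * l).irr⟩).2, fun u => ?_⟩⟩
  · have h9 := h8 ζ ⟨⟨u, h2 hu⟩, hu⟩
    have h10 := h7 ⟨⟨u, h2 hu⟩, hu⟩
    simp only at h9 h10
    rw [h9, map_mul, mul_mul_mul_comm, h10, hl, Lin.conj_apply, mul_inv_cancel₀ (l.apply_ne_zero _), mul_one]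
  · exact (h8 _ ⟨⟨u, h2 u.2⟩, u.2⟩).trans (by rw [h8 ζ ⟨⟨u, h2 u.2⟩, u.2⟩, hl, ← mul_assoc]; rfl)

theorem dd_one (hR : R ≤ P) (h1 : R ≠ ⊥) {ξ : IrrCharacter (centralizer (R : Set G))} (hξ : ξ ∈ bq p P e R) :
    dd p P e R 1 (extendByZero _ ξ.1) = 1 := by
  classical
  have h2 := (h.dd_nil hR h1 hξ).1 1 (one_mem _)
  rw [zpowers_one_eq_bot, sup_bot_eq] at h2
  obtain ⟨r, h3, h4⟩ : ∃ r : ℝ, 0 ≤ r ∧ dd p P e R 1 (extendByZero _ ξ.1) = r := by
    rw [dd, map_one, mul_one, ev_incA, ← mul_one (fC _), funext (extendByZero_coe _), ev_fC_mul, if_pos hξ, ev_one,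
      ← ξ.2.cast_charDegree]
    exact ⟨_, mul_nonneg (Nat.cast_nonneg _) (Real.sqrt_nonneg _), (Complex.ofReal_mul _ _).symm⟩
  rw [h4, Complex.conj_ofReal] at h2
  rw [h4, (mul_self_eq_one_iff.1 (by exact_mod_cast h2 : r * r = 1)).resolve_right (by linarith), Complex.ofReal_one]

theorem exists_int [Fintype P] {s : Subgroup G → ℤ} (hQ : Q ≤ P) (ih : ∀ R, Q < R → R ≤ P → s R * s R = 1 ∧
      ∃ ξ ∈ bq p P e R, ∀ u ∈ P, dd p P e (R ⊔ zpowers u) u (extendByZero _ ξ.1) = s R * s (R ⊔ zpowers u))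
    (hφ : IsGeneralizedCharacter (centralizer (Q : Set G)) fun x => φ x) {l : Lin P} (hl : ∀ u : P, u.1 ∈ Q → l u = 1) :
    ∃ n : ℤ, ∑ u : P, (l u - 1) * s (Q ⊔ zpowers (u : G)) * conj (dd p P e (Q ⊔ zpowers (u : G)) u φ) = Nat.card P * n := by
  classical
  let c (S : Subgroup G) (u : P) := (l u - 1) * s (S ⊔ zpowers (u : G)) * conj (dd p P e (S ⊔ zpowers (u : G)) u φ)
  have h1 : ∀ R, Q < R → R ≤ P → ∃ n : ℤ, ∑ u, c R u = Nat.card P * n := fun R h1 hR => by
    obtain ⟨h2, ξ, hξ, h3⟩ := ih R h1 hR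
    obtain ⟨e', h'⟩ := h.exists_lc hR
    have h4 : P ≤ centralizer (R : Set G) := h.ab.trans (centralizer_le hR)
    have := Fintype.ofFinite (centralizer (R : Set G))
    have := Fintype.ofFinite (P.subgroupOf (centralizer (R : Set G)))
    have h5 := hφ.comp (inclusion (centralizer_le h1.le : centralizer (R : Set G) ≤ _))
    have h6 := (l.comp (subgroupOfEquivOfLe h4).toMonoidHom).isGen.sub (1 : Lin _).isGen
    obtain ⟨n, hn⟩ := (h'.mp.star_spec h'.blk h6 (Stab.of_nil h'.mp (h.nil' h' hR h1.ne_bot) h6.isClassFunction)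
      ξ.2.isGen (blockPart_of_mem hξ)).1.exists_int_inner h5
    refine ⟨s R * n, ?_⟩
    rw [Int.cast_mul, ← hn, inner_star h5.isClassFunction, Finset.mul_sum, Finset.mul_sum]
    refine (Fintype.sum_equiv (subgroupOfEquivOfLe h4).toEquiv _ _ fun v => ?_).symm
    have h7 := h.ctr_eq h' hR v.2 (φ := extendByZero _ ξ.1) (ψ := φ) (by simp [h1.ne_bot])
      (by simpa [extendByZero_coe] using ξ.2.isClassFunction) h5.isClassFunction
    simp only [coe_subtype, extendByZero_coe, h3 (v.1 : G) v.2] at h7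
    rw [h.nF' h' hR h1.ne_bot v.2]
    have h8 : (s R : ℂ) * s R = 1 := by exact_mod_cast h2
    show _ * (_ * (_ * ((l (subgroupOfEquivOfLe h4 v) - 1) * ctr p v.1 (sb p _ e' v.1) (fun x => ξ.1 x) fun x => φ x))) =
      (l (subgroupOfEquivOfLe h4 v) - 1) * s (R ⊔ zpowers (v.1 : G)) * conj (dd p P e (R ⊔ zpowers (v.1 : G)) v.1 φ)
    rw [Nat.cast_one, inv_one]
    linear_combination (l (subgroupOfEquivOfLe h4 v) - 1) * (s R * h7 + s (R ⊔ zpowers (v.1 : G)) *
      conj (dd p P e (R ⊔ zpowers (v.1 : G)) v.1 φ) * h8)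
  choose! n hn using h1
  let U := Finset.univ.filter fun u : P => u.1 ∉ Q
  let R (T : Finset P) := Q ⊔ T.sup fun u => zpowers (u : G)
  have h2 : ∑ T ∈ U.powerset, (-1) ^ T.card * ∑ u, c (R T) u = 0 := by
    simp only [Finset.mul_sum]
    rw [Finset.sum_comm]
    refine Finset.sum_eq_zero fun u _ => ?_
    by_cases hu : u.1 ∈ Q
    · simp [c, hl u hu]
    rw [← Finset.insert_erase (show u ∈ U by simpa [U]), Finset.sum_powerset_insert (Finset.notMem_erase _ _),
      ← Finset.sum_add_distrib]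
    refine Finset.sum_eq_zero fun T hT => ?_
    have : R (insert u T) ⊔ zpowers (u : G) = R T ⊔ zpowers (u : G) := by
      simp only [R, Finset.sup_insert]; ac_nf
    rw [Finset.card_insert_of_notMem fun h => Finset.notMem_erase _ _ (Finset.mem_powerset.1 hT h)]
    simp only [c, this]
    ring
  rw [← Finset.add_sum_erase _ _ (Finset.empty_mem_powerset _), Finset.sum_congr (s₁ := U.powerset.erase ∅) rfl fun T hT => by
    obtain ⟨u, hu⟩ := Finset.nonempty_iff_ne_empty.2 (Finset.ne_of_mem_erase hT)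
    rw [hn (R T) (le_sup_left.lt_of_ne fun h => (Finset.mem_filter.1 (Finset.mem_powerset.1 (Finset.mem_of_mem_erase hT) hu)).2
      (h.ge (mem_sup_right (Finset.le_sup (f := fun u : P => zpowers (u : G)) hu (mem_zpowers _)))))
      (sup_le hQ (Finset.sup_le fun u _ => zpowers_le.2 u.2))]] at h2
  refine ⟨-∑ T ∈ U.powerset.erase ∅, (-1) ^ T.card * n (R T), ?_⟩
  simp only [R, Finset.sup_empty, sup_bot_eq, Finset.card_empty, pow_zero, one_mul, mul_left_comm _ (Nat.card P : ℂ),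
    ← Finset.mul_sum] at h2
  push_cast
  linear_combination h2

end FA

open Classical in
variable (p) in
/-- the signs of the local system -/
noncomputable def sg (P : Subgroup G) (e : MonoidAlgebra (F M) G) : Subgroup G → ℤ :=
  wellFounded_gt.fix fun Q ih => if ∃ ξ ∈ bq p P e Q, ∀ u ∈ P, (hu : u ∉ Q) → dd p P e (Q ⊔ zpowers u) u (extendByZero _ ξ.1) =
    ih (Q ⊔ zpowers u) (le_sup_left.lt_of_ne fun h => hu (h.ge (mem_sup_right (mem_zpowers u)))) then 1 else -1

open Classical in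
theorem sg_eq : sg p P e Q = if ∃ ξ ∈ bq p P e Q, ∀ u ∈ P, u ∉ Q → dd p P e (Q ⊔ zpowers u) u (extendByZero _ ξ.1) =
    sg p P e (Q ⊔ zpowers u) then 1 else -1 := by
  rw [sg, WellFounded.fix_eq]

theorem sg_sq : sg p P e Q * sg p P e Q = 1 := by rw [sg_eq]; split_ifs <;> rfl

theorem BP.sg_cj (he : BP p ⊤ P e) (ht : t ∈ NS ⊤ P e) (hQ : Q ≤ P) : sg p P e (cj t Q) = sg p P e Q := by
  classical
  induction Q using subgroup_ind_down with
  | h Q ih =>
  have h1 : ∀ u ∈ P, u ∉ Q → ∀ ξ : IrrCharacter (centralizer (cj t Q : Set G)),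
      dd p P e (cj t Q ⊔ zpowers (t * u * t⁻¹)) (t * u * t⁻¹) (extendByZero _ ξ.1) = sg p P e (cj t Q ⊔ zpowers (t * u * t⁻¹)) ↔
      dd p P e (Q ⊔ zpowers u) u (extendByZero _ (cmp (cjE t (cj_centralizer t Q)) ξ).1) = sg p P e (Q ⊔ zpowers u) :=
    fun u hu h1 ξ => by
    have h2 := sup_le hQ (zpowers_le.2 hu)
    rw [← cj_zpowers, ← cj_sup, he.dd_cj h2 ht, ih _ (le_sup_left.lt_of_ne fun h => h1 (h.ge (mem_sup_right (mem_zpowers u)))) h2]
    refine Eq.congr_left (congrArg _ (funext fun g => ?_))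
    by_cases hg : g ∈ centralizer (Q : Set G)
    · rw [extendByZero_of_mem _ hg, extendByZero_of_mem _ (cj_centralizer t Q ▸ conj_mem_cj t hg)]; rfl
    · rw [extendByZero_of_not_mem _ hg, extendByZero_of_not_mem _ (by rwa [← cj_centralizer, conj_mem_cj_iff])]
  rw [sg_eq, sg_eq (Q := Q), he.bq_cj hQ ht]
  refine if_congr ((cmp (cjE t (cj_centralizer t Q))).exists_congr fun ξ => and_congr_right' ⟨fun h u hu h2 =>
    (h1 u hu h2 ξ).1 (h _ ((mem_normalizer_iff.1 ht.1.2 u).1 hu) (by rwa [conj_mem_cj_iff])), fun h u hu h2 => ?_⟩) rfl rfl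
  obtain ⟨u, rfl⟩ : ∃ v, t * v * t⁻¹ = u := ⟨t⁻¹ * u * t, by group⟩
  rw [← mem_normalizer_iff.1 ht.1.2] at hu
  rw [conj_mem_cj_iff] at h2
  exact (h1 u hu h2 ξ).2 (h u hu h2)

theorem FA.good (h : FA p B P e) (hQ : Q ≤ P) (h1 : Q ≠ ⊥) : ∃ ξ ∈ bq p P e Q, ∀ u ∈ P,
    dd p P e (Q ⊔ zpowers u) u (extendByZero _ ξ.1) = sg p P e Q * sg p P e (Q ⊔ zpowers u) := by
  induction Q using subgroup_ind_down with
  | h Q ih =>
  have := Fintype.ofFinite P
  have : IsMulCommutative P := le_centralizer_iff_isMulCommutative.1 h.ab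
  have h2 : ∀ ξ : IrrCharacter (Subgroup.centralizer (Q : Set G)), ∀ q ∈ Q, ∃ ω : ℂ, ∀ S u,
      dd p P e S (u * q) (extendByZero _ ξ.1) = ω * dd p P e S u (extendByZero _ ξ.1) := fun ξ q hq => by
    have h2 : q ∈ Subgroup.centralizer (Q : Set G) := Subgroup.centralizer_le hQ (h.ab (hQ hq))
    obtain ⟨ω, -, h3⟩ := exists_root_central (z := ⟨q, h2⟩) (Subgroup.mem_center_iff.2 fun g => Subtype.ext (g.2 q hq).symm) ξ
    refine ⟨ω, fun S u => dd_mul fun g => ?_⟩
    by_cases hg : g ∈ Subgroup.centralizer (Q : Set G)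
    · rw [extendByZero_of_mem _ hg, extendByZero_of_mem _ (mul_mem hg h2), ← h3]
      exact congrArg _ (Subtype.ext (hg q hq).symm)
    · rw [extendByZero_of_not_mem _ hg, extendByZero_of_not_mem _ (by rwa [mul_mem_cancel_right h2]), mul_zero]
  have h3 : (sg p P e Q : ℂ) * sg p P e Q = 1 := by exact_mod_cast sg_sq
  obtain ⟨ξ, hξ⟩ := (h.mp.bp.bq_spec hQ).1.nonempty
  rcases hQ.eq_or_lt with rfl | h4
  · have h4 : ∀ u ∈ Q, ∀ q ∈ Q, dd p Q e Q (u * q) (extendByZero _ ξ.1) =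
        dd p Q e Q u (extendByZero _ ξ.1) * dd p Q e Q q (extendByZero _ ξ.1) := fun u hu q hq => by
      obtain ⟨ω, h4⟩ := h2 ξ q hq
      rw [h4, ← one_mul q, h4, h.dd_one hQ h1 hξ, mul_one, mul_comm]
    obtain ⟨ξ', h5, h6⟩ := (h.dd_nil hQ h1 hξ).2 (Lin.mk (MonoidHom.toHomUnits
      { toFun u := dd p Q e Q u (extendByZero _ ξ.1), map_one' := h.dd_one hQ h1 hξ, map_mul' u q := h4 u u.2 q q.2 }))⁻¹
    refine ⟨ξ', h5, fun u hu => ?_⟩
    have h7 := h6 ⟨u, hu⟩
    have h8 := (h.dd_nil hQ h1 hξ).1 u hu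
    rw [sup_eq_left.2 (zpowers_le.2 hu)] at h7 h8 ⊢
    rw [h7, h3, Lin.inv_apply, Lin.mk_apply, MonoidHom.coe_toHomUnits]
    exact inv_mul_cancel₀ (left_ne_zero_of_mul_eq_one h8)
  obtain ⟨ξ, hξ, h5⟩ : ∃ ξ ∈ bq p P e Q, ∀ u ∈ P, u ∉ Q →
      dd p P e (Q ⊔ zpowers u) u (extendByZero _ ξ.1) = sg p P e Q * sg p P e (Q ⊔ zpowers u) := by
    obtain ⟨h5, h6⟩ := h.dd_nil hQ h1 hξ
    have h7 : ∀ u : P, (sg p P e (Q ⊔ zpowers (u : G)) : ℂ) * sg p P e (Q ⊔ zpowers (u : G)) = 1 := fun u => by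
      exact_mod_cast sg_sq
    obtain ⟨ν, δ, hδ, h8⟩ := exists_lin_of_int (Q.subgroupOf P) (g := fun u => sg p P e (Q ⊔ zpowers (u : G)) *
      conj (dd p P e (Q ⊔ zpowers (u : G)) u (extendByZero _ ξ.1))) (fun u _ => by
        simp only [map_mul, map_intCast, Complex.conj_conj]
        linear_combination (sg p P e (Q ⊔ zpowers (u : G)) : ℂ) * sg p P e (Q ⊔ zpowers (u : G)) * h5 u u.2 + h7 u)
      fun l ν hl => by
        obtain ⟨ξ', -, h8⟩ := h6 ν
        obtain ⟨n, hn⟩ := h.exists_int hQ (fun R h9 hR => ⟨sg_sq, ih R h9 hR h9.ne_bot⟩) (φ := extendByZero _ ξ'.1)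
          (by simpa [extendByZero_coe] using ξ'.2.isGen) hl
        exact ⟨n, hn ▸ Finset.sum_congr rfl fun u _ => by rw [h8, map_mul]; ring⟩
    obtain ⟨ξ', h9, h10⟩ := h6 ν
    have h11 : ∀ u ∈ P, u ∉ Q → dd p P e (Q ⊔ zpowers u) u (extendByZero _ ξ'.1) = δ * sg p P e (Q ⊔ zpowers u) :=
      fun u hu h11 => by
      have h12 : δ * δ = 1 := by rcases hδ with rfl | rfl <;> simp
      have h13 := h8 ⟨u, hu⟩ h11
      have h14 := h5 u hu
      rw [h10 ⟨u, hu⟩]
      simp only at h13 ⊢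
      linear_combination -δ * dd p P e (Q ⊔ zpowers u) u (extendByZero _ ξ.1) * h13 + δ * sg p P e (Q ⊔ zpowers u) * h14 -
        ν ⟨u, hu⟩ * dd p P e (Q ⊔ zpowers u) u (extendByZero _ ξ.1) * h12
    rw [sg_eq (Q := Q)]
    split_ifs with h12
    · simpa using h12
    · rcases hδ with rfl | rfl
      · exact absurd ⟨ξ', h9, by simpa using h11⟩ h12
      · exact ⟨ξ', h9, by simpa using h11⟩
  refine ⟨ξ, hξ, fun q hq => (em (q ∈ Q)).elim (fun h6 => ?_) (h5 q hq)⟩
  obtain ⟨ω, h7⟩ := h2 ξ q h6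
  obtain ⟨u, hu, h8⟩ := SetLike.exists_of_lt h4
  have h9 : Q ⊔ zpowers (u * q) = Q ⊔ zpowers u := le_antisymm
    (sup_le le_sup_left (zpowers_le.2 (mul_mem (mem_sup_right (mem_zpowers u)) (mem_sup_left h6))))
    (sup_le le_sup_left (zpowers_le.2 ((mul_mem_cancel_right (mem_sup_left h6)).1 (mem_sup_right (mem_zpowers _)))))
  have h10 := h5 _ (mul_mem hu hq) (by rwa [mul_mem_cancel_right h6])
  rw [h9, h7, ← h5 u hu h8, mul_left_eq_self₀] at h10
  rw [sup_eq_left.2 (zpowers_le.2 h6), h3, ← one_mul q, h7, h.dd_one hQ h1 hξ, mul_one]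
  exact h10.resolve_right (left_ne_zero_of_mul_eq_one ((h.dd_nil hQ h1 hξ).1 u hu))

variable (p) in
/-- the signed generalized decomposition numbers -/
noncomputable def gs (P : Subgroup G) (e : MonoidAlgebra (F M) G) (u : G) (φ : G → ℂ) : ℂ :=
  sg p P e (⊥ ⊔ zpowers u) * dd p P e (⊥ ⊔ zpowers u) u φ

namespace FA

variable (h : FA p B P e) {v : G} {χ : IrrCharacter G}
include h

theorem gs_cj (hu : u ∈ P) (ht : t ∈ NS ⊤ P e) (hφ : IsClassFunction G φ) : gs p P e (t * u * t⁻¹) φ = gs p P e u φ := by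
  simp only [gs, bot_sup_eq, ← cj_zpowers, h.mp.bp.sg_cj ht (zpowers_le.2 hu), h.mp.bp.dd_cj (zpowers_le.2 hu) ht,
    hφ.conj_apply]

theorem gs_ctr (hu : u ∈ P) (h1 : u ≠ 1) (hφ : IsClassFunction G φ) (hψ : IsClassFunction G ψ) :
    Nat.card P * ctr p u (sb p P e u) φ ψ = gs p P e u φ * conj (gs p P e u ψ) := by
  have h2 : (sg p P e (⊥ ⊔ zpowers u) : ℂ) * sg p P e (⊥ ⊔ zpowers u) = 1 := by exact_mod_cast sg_sq
  rw [gs, gs, map_mul, map_intCast, mul_mul_mul_comm, h2, one_mul]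
  have h3 := h.ctr_eq (φ := φ) (ψ := ψ) h.lc_top bot_le hu (by simpa) hφ hψ
  simp only [MonoidHom.id_apply] at h3
  exact h3

theorem gs_ne (hu : u ∈ P) (h1 : u ≠ 1) : gs p P e u χ ≠ 0 ↔ χ ∈ B := by
  have h2 := h.gs_ctr hu h1 χ.2.isClassFunction χ.2.isClassFunction
  have h3 := pElt_of_mem h.mp.bp.pgrp hu
  have h4 := h.mp.induced_sb h.blk hu
  refine ⟨fun h5 => by_contra fun h6 => h5 ?_, fun h5 => left_ne_zero_of_mul (h2 ▸ mul_ne_zero card_ne_zero
    (h4.ctr_self_ne_zero h3 (h.mp.defect_sb h.blk hu (mem_centralizer_comm.1 (h.ab hu))) h5))⟩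
  simpa [h4.ctr_eq_zero h3 h6] using h2

theorem sum_gs (hu : u ∈ P) (h1 : u ≠ 1) (hv : v ∈ P) (h2 : v ≠ 1) [Decidable (∃ t ∈ NS ⊤ P e, t * u * t⁻¹ = v)] :
    ∑ χ : IrrCharacter G, conj (gs p P e u χ) * gs p P e v χ =
      if ∃ t ∈ NS ⊤ P e, t * u * t⁻¹ = v then (Nat.card P : ℂ) else 0 := by
  obtain ⟨χ₀, h0⟩ := h.blk.nonempty
  have h3 : ∀ v ∈ P, v ≠ 1 → gs p P e u χ₀ * (∑ χ : IrrCharacter G, conj (gs p P e u χ) * gs p P e v χ) * conj (gs p P e v χ₀) =
      Nat.card P * (Nat.card P * ∑ χ : IrrCharacter G, ctr p u (sb p P e u) χ₀ χ * ctr p v (sb p P e v) χ χ₀) := fun v hv h2 => by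
    simp only [Finset.mul_sum, Finset.sum_mul]
    exact Finset.sum_congr rfl fun χ _ => by
      linear_combination -gs p P e v χ * conj (gs p P e v χ₀) * h.gs_ctr hu h1 χ₀.2.isClassFunction χ.2.isClassFunction -
        Nat.card P * ctr p u (sb p P e u) χ₀ χ * h.gs_ctr hv h2 χ.2.isClassFunction χ₀.2.isClassFunction
  have h4 := pElt_of_mem h.mp.bp.pgrp hu
  have h5 := h.mp.bp.isPBlock_sb hu
  have h6 := h.mp.bp.isPBlock_sb hv
  have h7 := (h.gs_ne hu h1).2 h0
  split_ifs with h8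
  · obtain ⟨t, ht, rfl⟩ := h8
    simp only [fun χ : IrrCharacter G => h.gs_cj hu ht χ.2.isClassFunction]
    have h8 := h3 u hu h1
    rw [sum_ctr_mul h4 h5.closed, Set.inter_self, h.gs_ctr hu h1 χ₀.2.isClassFunction χ₀.2.isClassFunction] at h8
    exact mul_left_cancel₀ (mul_ne_zero h7 ((map_ne_zero (starRingEnd ℂ)).2 h7)) (by linear_combination h8)
  have h9 := h3 v hv h2
  rw [show ∑ χ : IrrCharacter G, ctr p u (sb p P e u) χ₀ χ * ctr p v (sb p P e v) χ χ₀ = 0 from ?_] at h9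
  · simpa [h7, (h.gs_ne hv h2).2 h0] using h9
  by_cases h10 : IsConj u v
  · obtain ⟨g, rfl⟩ := isConj_iff.1 h10
    obtain ⟨c, hc, h11⟩ := IsBI.exists_iB (H := centralizer {u}) (a := cA g⁻¹ (iB M _ (sb p P e (g * u * g⁻¹)))) (by
      have := h6.isBI.conjA g⁻¹
      rwa [show cj g⁻¹ _ = centralizer {u} by rw [← cj_centralizer_singleton, cj_inv_cj]] at this)
    have h12 : cA g (iB M _ c) = iB M _ (sb p P e (g * u * g⁻¹)) := by rw [← h11, cA_cA_inv]
    simp only [fun χ : IrrCharacter G => (ctr_conj rfl hc.closed h6.closed h12 χ.2.isClassFunction χ₀.2.isClassFunction).symm]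
    have := Fintype.ofFinite (centralizer ({u} : Set G))
    rw [sum_ctr_mul h4 hc.closed, Set.eq_empty_of_forall_notMem (s := c ∩ _) fun ξ hξ => h8 ?_, ctr_def, blockPart_empty,
      reg_zero, classInner_zero_left]
    obtain rfl := IsPBlock.eq_of_mem hc h5 hξ.1 hξ.2
    exact (h.mp.fcl_of_abelian h.ab hu).subset ⟨g, rfl, h12 ▸ h.mp.bp.ple_sb hv⟩
  · exact sum_ctr_mul_of_not h4 (pElt_of_mem h.mp.bp.pgrp hv) h10 h6.closed _

theorem rank_le (h1 : P ≠ ⊥) {n : ℕ} (hn : (centralizer (P : Set G)).relIndex (NS ⊤ P e) = n) :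
    blockRank p B ≤ n ∧ (n ≤ 3 → blockRank p B = n) := by
  classical
  have := Fintype.ofFinite P
  have : IsMulCommutative P := le_centralizer_iff_isMulCommutative.1 h.ab
  obtain ⟨E, hE, h2⟩ := exists_autE (MulEquiv.refl P) (NS_le_normalizer ⊤ P e)
  have := Fintype.ofFinite E
  simp only [MulEquiv.refl_apply] at hE
  obtain rfl := h2.trans hn
  have h3 : ∀ σ : E, ∀ u ≠ 1, σ.1 u = u → σ = 1 := fun σ u hu h3 => by
    obtain ⟨t, ht, h4⟩ := (hE _).1 σ.2
    have h5 := h.free t ht _ u.2 (by simpa using hu) (by rw [← h4, h3])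
    exact Subtype.ext (MulEquiv.ext fun v => Subtype.ext (by rw [h4, ← h5 _ v.2, mul_inv_cancel_right]; rfl))
  have h4 : ∀ (σ : E) (u : P) (χ : IrrCharacter G), gs p P e (σ.1 u) χ = gs p P e u χ := fun σ u χ => by
    obtain ⟨t, ht, h4⟩ := (hE _).1 σ.2
    rw [h4, h.gs_cj u.2 ht χ.2.isClassFunction]
  let Θ := {f // ∃ ψ ≠ 1, th E ψ = f}
  have : Finite Θ := Finite.of_surjective (fun ψ : {ψ : Lin P // ψ ≠ 1} => (⟨_, ψ.1, ψ.2, rfl⟩ : Θ))
    fun ⟨_, ψ, h, rfl⟩ => ⟨⟨ψ, h⟩, rfl⟩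
  have := Fintype.ofFinite Θ
  have h5 : ∀ (f : Θ) (χ : IrrCharacter G), ∃ m : ℤ,
      ∑ u, (f.1 u - Nat.card E) * conj (gs p P e u χ) = Nat.card E * Nat.card P * m := by
    rintro ⟨_, ψ, -, rfl⟩ χ
    obtain ⟨m, hm⟩ := h.exists_int bot_le (fun R h5 hR => ⟨sg_sq, h.good hR h5.ne'⟩) (χ.2.isGen.res _) (l := ψ)
      fun u hu => by rw [show u = 1 from Subtype.ext (mem_bot.1 hu), map_one]
    refine ⟨m, ?_⟩
    rw [mul_assoc, ← hm, Nat.card_eq_fintype_card, ← nsmul_eq_mul, ← Finset.card_univ, ← Finset.sum_const]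
    simp only [th_apply, Finset.card_eq_sum_ones Finset.univ, Nat.cast_sum, ← Finset.sum_sub_distrib, Finset.sum_mul]
    rw [Finset.sum_comm]
    exact Finset.sum_congr rfl fun σ _ => Fintype.sum_equiv σ.1.toEquiv _ _ fun u => by
      rw [← h4 σ u, gs, map_mul, map_intCast, Nat.cast_one, mul_assoc]; rfl
  choose a h5 using h5
  have h6 : ∀ f : Θ, f.1 1 = Nat.card E ∧ (∀ (σ : E) u, f.1 (σ.1 u) = f.1 u) ∧
      ∑ u, (f.1 u - Nat.card E) = -(Nat.card E * Nat.card P : ℂ) := by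
    rintro ⟨_, ψ, hψ, rfl⟩
    exact ⟨th_one, th_aut, by simp [sum_th hψ, mul_comm]⟩
  have h7 : ∀ f f' : Θ, ∑ u, (f.1 u - Nat.card E) * conj (f'.1 u) =
      Nat.card E * Nat.card P * if f = f' then 1 else 0 := by
    rintro ⟨_, ψ, hψ, rfl⟩ ⟨_, ψ', hψ', rfl⟩
    simp only [sub_mul, Finset.sum_sub_distrib, ← Finset.mul_sum, ← map_sum, sum_th hψ', sum_th_mul h3 hψ hψ', Θ,
      Subtype.mk.injEq]
    simp
  have hEA : (Nat.card E * Nat.card P : ℂ) ≠ 0 := mul_ne_zero card_ne_zero card_ne_zero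
  have h8 : ∀ f, ∀ χ ∉ B, a f χ = 0 := fun f χ hχ => by
    have := h5 f χ
    rw [Finset.sum_eq_zero fun u _ => by
      by_cases hu : u = 1
      · simp [hu, (h6 f).1]
      · simp [not_not.1 (mt (h.gs_ne u.2 (by simpa using hu)).1 hχ)]] at this
    exact_mod_cast (mul_eq_zero.1 this.symm).resolve_left hEA
  have h9 : ∀ f f', ∑ χ with χ ∈ B, a f χ * a f' χ = (if f = f' then 1 else 0) + Nat.card E := fun f f' => by
    rw [Finset.sum_filter_of_ne fun χ _ h => by_contra fun hχ => h (by rw [h8 _ _ hχ, zero_mul])]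
    apply Int.cast_injective (α := ℂ)
    refine mul_left_cancel₀ hEA (mul_left_cancel₀ hEA ?_)
    have h9 : ∀ u : P, (f.1 u - Nat.card E) * ∑ v : P, conj (f'.1 v - Nat.card E) *
        ∑ χ : IrrCharacter G, conj (gs p P e u χ) * gs p P e v χ =
        Nat.card E * Nat.card P * ((f.1 u - Nat.card E) * conj (f'.1 u - Nat.card E)) := fun u => by
      by_cases hu : u = 1
      · simp [hu, (h6 f).1]
      rw [mul_left_comm, Finset.sum_congr rfl (g := fun v => if v ∈ Finset.univ.image fun σ : E => σ.1 u then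
        Nat.card P * conj (f'.1 u - Nat.card E) else 0) fun v _ => ?_, Finset.sum_ite_mem, Finset.univ_inter,
        Finset.sum_const, Finset.card_image_of_injective _ fun σ τ h9 => inv_mul_eq_one.1 (h3 _ u hu (by
          simpa [MulEquiv.symm_apply_eq] using h9.symm)), Finset.card_univ, ← Nat.card_eq_fintype_card, nsmul_eq_mul, mul_assoc]
      by_cases hv : v = 1
      · simp [hv, (h6 f').1, hu]
      rw [h.sum_gs u.2 (by simpa using hu) v.2 (by simpa using hv)]
      refine (mul_ite _ _ _ _).trans (if_ctx_congr ?_ (fun h => ?_) fun _ => mul_zero _)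
      · simp only [Finset.mem_image, Finset.mem_univ, true_and]
        refine ⟨fun ⟨t, ht, h9⟩ => ⟨⟨P.normalizerMonoidHom ⟨t, NS_le_normalizer ⊤ P e ht⟩, (hE _).2 ⟨t, ht, fun _ => rfl⟩⟩,
          Subtype.ext h9⟩, fun ⟨σ, h9⟩ => ?_⟩
        obtain ⟨t, ht, h10⟩ := (hE _).1 σ.2
        exact ⟨t, ht, by rw [← h10, h9]⟩
      · obtain ⟨σ, -, rfl⟩ := Finset.mem_image.1 h
        rw [(h6 f').2.1, mul_comm]
    have h10 : ∀ χ : IrrCharacter G, ∑ v : P, conj (f'.1 v - Nat.card E) * gs p P e v χ = Nat.card E * Nat.card P * a f' χ :=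
      fun χ => by simpa using congrArg conj (h5 f' χ)
    have h11 := Finset.sum_congr (s₁ := Finset.univ) rfl fun u _ => h9 u
    simp only [Finset.mul_sum] at h11
    rw [Finset.sum_congr rfl fun _ _ => Finset.sum_comm, Finset.sum_comm, ← Finset.mul_sum] at h11
    simp only [map_sub _ (f'.1 _), map_natCast, mul_sub (f.1 _ - _), Finset.sum_sub_distrib, h7, ← Finset.sum_mul, (h6 f).2.2] at h11
    push_cast
    rw [Finset.mul_sum, Finset.mul_sum]
    refine (Finset.sum_congr rfl fun χ _ => ?_).trans (h11.trans (by ring))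
    rw [show ∀ x y z : ℂ, x * (x * (y * z)) = x * y * (x * z) from fun _ _ _ => by ring, ← h5, ← h10, Finset.sum_mul_sum]
    simp only [map_sub, map_natCast]
    exact Finset.sum_congr rfl fun _ _ => Finset.sum_congr rfl fun _ _ => by ring
  have h10 : 1 < Nat.card P := (one_lt_card_iff_ne_bot P).2 h1
  have : Nontrivial P := Finite.one_lt_card_iff_nontrivial.1 h10
  have h11 : ∀ χ ∈ Finset.univ.filter (· ∈ B), ∃ f, a f χ ≠ 0 := fun χ hχ => by
    by_contra! h11
    obtain ⟨v, hv⟩ := exists_ne (1 : P)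
    exact (h.gs_ne v.2 (by simpa using hv)).2 (Finset.mem_filter.1 hχ).2 ((map_eq_zero conj).1 (four_unique (E := E)
      (h := fun u => conj (gs p P e u χ)) (fun σ u => by rw [h4]) (fun ψ hψ => by simpa [h11] using h5 ⟨_, ψ, hψ, rfl⟩ χ) hv))
  have : Nontrivial (Lin P) := Finite.one_lt_card_iff_nontrivial.1 (by rwa [card_lin])
  obtain ⟨ψ₀, hψ₀⟩ := exists_ne (1 : Lin P)
  have : Nonempty Θ := ⟨⟨_, ψ₀, hψ₀, rfl⟩⟩
  have h12 : Nat.card E * Nat.card Θ + 1 = Nat.card P := (card_th_le h3).antisymm card_th_ge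
  have h13 := (h.mp.card_of_free h.blk h.ab h.free hn).2
  have h14 : 0 < Nat.card E := Nat.card_pos
  have h15 : Nat.card B = blockRank p B + Nat.card Θ := Nat.eq_of_mul_eq_mul_left h14 (by rw [mul_add]; omega)
  have h16 := blockRank_pos (p := p) h.blk.nonempty
  have h17 : blockRank p B ≤ Nat.card E := by
    by_contra! h17
    obtain ⟨X, y, -, h18, h19, -, h20, -⟩ := exists_except _ a h9 h11 (by
      rw [card_filter_mem, ← Nat.card_eq_fintype_card]; omega)
    have h21 := (Finset.card_le_card (show Finset.univ.filter (· ∈ B) ⊆ X ∪ Finset.univ.image y from fun χ hχ => by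
      by_cases h21 : χ ∈ X
      · exact Finset.mem_union_left _ h21
      · simpa [h21] using (h20 χ).1 ⟨hχ, h21⟩)).trans ((Finset.card_union_le _ _).trans
        (Nat.add_le_add_left Finset.card_image_le _))
    rw [card_filter_mem, Finset.card_univ, ← Nat.card_eq_fintype_card] at h21
    omega
  refine ⟨h17, fun h18 => h17.antisymm ?_⟩
  have h19 := card_ge_of_small _ a h9 h11 (by rw [card_filter_mem, ← Nat.card_eq_fintype_card]; omega) h18
  rw [card_filter_mem, ← Nat.card_eq_fintype_card] at h19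
  by_contra h20
  obtain ⟨k, hk⟩ := h.mp.bp.pgrp.exists_card_eq
  have h21 : (Nat.card P).Prime ∨ Nat.card P = 10 := by
    rw [← h12]
    obtain ⟨h21, h22⟩ := h19.resolve_left (by omega)
    generalize Nat.card E = n at *
    generalize Nat.card Θ = m at *
    have : 2 ≤ n := by omega
    interval_cases n <;> interval_cases m <;> norm_num
  rcases h21 with h21 | h21
  · have := Fact.mk h21
    obtain ⟨z, g, h22⟩ := h.mp.exists_CS' h.blk (isCyclic_of_prime_card rfl) h1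
    exact h20 (hn ▸ h22.le_rank)
  · have h22 : ∀ q : ℕ, q.Prime → q ∣ 10 → q = p := fun q hq h22 =>
      (Nat.prime_dvd_prime_iff_eq hq hp.out).1 (hq.dvd_of_dvd_pow (by rwa [← hk, h21]))
    exact absurd ((h22 2 Nat.prime_two (by norm_num)).trans (h22 5 Nat.prime_five (by norm_num)).symm) (by norm_num)

end FA

end Cfsg.Agent.B
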