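import Cfsg.Agent.S0915
import Cfsg.Agent.H9.GT
import Cfsg.Agent.H9.PSolv

/-! The principal block of a `p`-solvable group. -/

set_option autoImplicit false
open Cfsg

namespace Cfsg.Agent.B

open Cfsg.Agent Cfsg.Agent.H3 Subgroup MonoidAlgebra

variable {p : ℕ} [hp : Fact p.Prime] {M : Ideal AlgInt} [hM : PMod p M]
variable {G : Type*} [Group G] [Finite G]

theorem mem_principal_iff_psolv (hG : IsPSolvable p G) {χ : IrrCharacter G} :
    χ ∈ principalBlock M G ↔ pPrimeCore p G ≤ charKer (χ : G → ℂ) := by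
  refine ⟨le_charKer_of_mem_principal (H1.not_dvd_card_pPrimeCore p G), fun h => ?_⟩
  have hq := QuotientGroup.mk'_surjective (pPrimeCore p G)
  obtain ⟨ξ, rfl⟩ := exists_infl_eq _ hq (by rwa [QuotientGroup.ker_mk'])
  exact (isPBlock_principal.mem_iff oneIrr_mem).2 (lam_infl_eq _ hq (χ := oneIrr _) ((sameBlock_iff_lam (oneIrr _).2 ξ.2).1
    (S0915.result p M hM.1 (H9.pSolv_map _ hq hG) (L.pPrimeCore_quotient_eq_bot p G) _ _)))

end Cfsg.Agent.B
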