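import Cfsg.Agent.B.Star2
import Cfsg.Agent.B.Cyc4
import Cfsg.Agent.H3.CTI0
import Cfsg.Prelude.Def_BlockLocal

/-!
# Perfect isometries for blocks with abelian defect group and freely acting inertial quotient.
-/

set_option autoImplicit false
set_option linter.unusedSectionVars false

namespace Cfsg.Agent.B

open MonoidAlgebra Subgroup Cfsg.Agent.H3 Cfsg.Agent.H2
open scoped ComplexConjugate

variable {p : ℕ} [hp : Fact p.Prime] {M : Ideal AlgInt} [hM : PMod p M]
variable {G : Type*} [Group G] [Finite G] {H : Type*} [Group H] [Finite H]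

theorem inner_sh_mem {φ : G → ℂ} (hφ : IsGeneralizedCharacter G φ) (x : G) [Fintype (centralizer ({x} : Set G))]
    (ξ : IrrCharacter (centralizer ({x} : Set G))) : classInner (sh x φ) ξ ∈ O M := by
  classical
  obtain ⟨ω, h1, h2⟩ := exists_sh_eq x
  obtain ⟨n, hn⟩ := (hφ.res (centralizer {x})).exists_int_inner ξ.2.isGen
  rw [h2 φ hφ.isClassFunction, classInner_sum_left, Finset.sum_eq_single ξ (fun ζ _ h => by
    rw [classInner_smul_left, irr_inner, if_neg h, mul_zero]) (by simp), classInner_smul_left, irr_inner, if_pos rfl, mul_one, hn]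
  exact mul_mem (intCast_mem _ n) (mem_O_of_pow_eq_one (orderOf_pos x).ne' (h1 ξ))

theorem avg_mem {φ : G → ℂ} (hφ : IsGeneralizedCharacter G φ) (x : G) (Q : Subgroup (centralizer ({x} : Set G)))
    [Fintype Q] : (∑ q : Q, φ (x * q)) / Nat.card Q ∈ O M := by
  have := Fintype.ofFinite (centralizer ({x} : Set G))
  have h1 : ∀ q : Q, φ (x * q) = ∑ ξ : IrrCharacter (centralizer ({x} : Set G)), classInner (sh x φ) ξ * ξ.1 q := fun q => by
    exact IsClassFunction.apply_eq_sum_irr (isClassFunction_sh x hφ.isClassFunction) q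
  simp only [h1]
  rw [Finset.sum_comm, Finset.sum_div]
  refine sum_mem fun ξ _ => ?_
  obtain ⟨m, hm⟩ := (ξ.2.isGen.res Q).exists_int_inner (oneIrr Q).2.isGen
  have h2 := card_mul_classInner (fun u : Q => ξ.1 u) (oneIrr Q)
  simp only [hm, show ∀ u, (oneIrr Q : Q → ℂ) u = 1 from fun _ => rfl, map_one, mul_one] at h2
  rw [← Finset.mul_sum, ← h2, mul_div_assoc, mul_div_cancel_left₀ _ card_ne_zero]
  exact mul_mem (inner_sh_mem hφ x ξ) (intCast_mem _ m)

theorem div_mem_of_sing {ι : Type*} (s : Finset ι) {c : ι → ℂ} {φ : ι → G → ℂ} (hc : ∀ i ∈ s, c i ∈ O M)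
    (hφ : ∀ i ∈ s, IsGeneralizedCharacter G (φ i)) (h : ∀ g, p ∣ orderOf g → ∑ i ∈ s, c i * φ i g = 0) (x : G) :
    (∑ i ∈ s, c i * φ i x) / Nat.card (centralizer ({x} : Set G)) ∈ O M := by
  by_cases hx : p ∣ orderOf x
  · rw [h x hx, zero_div]; exact zero_mem _
  obtain ⟨Q⟩ : Nonempty (Sylow p (centralizer ({x} : Set G))) := inferInstance
  have := Fintype.ofFinite (Q : Subgroup (centralizer ({x} : Set G)))
  have h1 : ∑ i ∈ s, c i * φ i x = ∑ q : (Q : Subgroup (centralizer ({x} : Set G))), ∑ i ∈ s, c i * φ i (x * q) := by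
    rw [Finset.sum_eq_single 1 (fun q _ hq => h _ ?_) (by simp)]
    · simp
    have h2 : PElt p ((q : centralizer ({x} : Set G)) : G) := pElt_of_mem (Q.2.map (centralizer {x}).subtype) ⟨q, q.2, rfl⟩
    rw [(commute_of_mem_centralizer (q : centralizer ({x} : Set G))).eq]
    by_contra h3
    exact hq (by simpa using (isPPart_mul h2 hx (commute_of_mem_centralizer _).symm).eq_one_iff.2 h3)
  have h2 : (Nat.card (Q : Subgroup (centralizer ({x} : Set G))) : ℂ) ≠ 0 := card_ne_zero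
  rw [h1, Finset.sum_comm, ← div_mul_div_cancel₀ h2, Finset.sum_div]
  refine mul_mem (sum_mem fun i hi => ?_) (natDiv_mem_O Nat.card_pos.ne' (by rw [Q.card_eq_multiplicity]; simp [hp.out]))
  rw [← Finset.mul_sum, mul_div_assoc]
  exact mul_mem (hc i hi) (avg_mem (hφ i hi) x _)

open Classical in
variable (p M) in
/-- the values of the characters of a block on singular elements -/
structure TY (B : Set (IrrCharacter G)) {ι : Type*} (s : Finset ι) (N n : ℂ) (S : ι → G → ℂ)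
    (D : ι → IrrCharacter G → ℂ) : Prop where
  exp : ∀ χ ∈ B, ∀ x, p ∣ orderOf x → χ.1 x = ∑ i ∈ s, n * D i χ * S i x
  sum : ∀ i ∈ s, ∀ x, ∑ χ with χ ∈ B, conj (D i χ) * χ.1 x = N * S i x
  reg : ∀ i ∈ s, ∀ x, ¬ p ∣ orderOf x → S i x = 0
  int : ∀ i ∈ s, ∀ x, S i x ∈ O M ∧ N * S i x / Nat.card (centralizer ({x} : Set G)) ∈ O M

variable {B : Set (IrrCharacter G)} {c : Set (IrrCharacter H)} {ι : Type*} {s : Finset ι} {N n : ℂ}
  {S : ι → G → ℂ} {D : ι → IrrCharacter G → ℂ} {S' : ι → H → ℂ} {D' : ι → IrrCharacter H → ℂ}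

theorem TY.reindex (h : TY p M B s N n S D) (σ : ι ≃ ι) (hσ : ∀ i, i ∈ s ↔ σ i ∈ s) :
    TY p M B s N n (fun i => S (σ i)) fun i => D (σ i) :=
  ⟨fun χ hχ x hx => (h.exp χ hχ x hx).trans (Finset.sum_equiv σ hσ fun _ _ => rfl).symm,
    fun i hi => h.sum _ ((hσ i).1 hi), fun i hi => h.reg _ ((hσ i).1 hi), fun i hi => h.int _ ((hσ i).1 hi)⟩

theorem TY.perfect (h : TY p M B s N n S D) (h' : TY p M c s N n S' D') (hn : n ∈ O M)
    {I : IrrCharacter H → IrrCharacter G} {ε : IrrCharacter H → ℤ} (hI : Set.BijOn I c B)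
    (hε : ∀ η ∈ c, ε η = 1 ∨ ε η = -1) (hD : ∀ η ∈ c, ∀ i ∈ s, conj (D i (I η)) = ε η * D' i η) :
    IsPerfectIsometry p M c B I ε := by
  classical
  have h0 : ∀ x y, signedBijectionKernel c I ε x y = ∑ η with η ∈ c, ε η * (I η).1 x * η.1 y := fun x y => by
    rw [signedBijectionKernel, finsum_mem_eq_ite, Finset.sum_filter]
  have h1 : ∀ x y, p ∣ orderOf x ∨ p ∣ orderOf y →
      ∑ η with η ∈ c, ε η * (I η).1 x * η.1 y = ∑ i ∈ s, n * (N * S i x * S' i y) := by
    rintro x y (hx | hy)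
    · rw [Finset.sum_congr rfl fun η hη => by rw [h.exp _ (hI.1 (Finset.mem_filter.1 hη).2) x hx, Finset.mul_sum,
        Finset.sum_mul], Finset.sum_comm]
      refine Finset.sum_congr rfl fun i hi => ?_
      rw [mul_right_comm N, ← h'.sum i hi, Finset.sum_mul, Finset.mul_sum]
      refine Finset.sum_congr rfl fun η hη => ?_
      replace hη := (Finset.mem_filter.1 hη).2
      have := congrArg conj (hD η hη i hi)
      rw [Complex.conj_conj, map_mul, map_intCast] at this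
      rw [this]
      rcases hε η hη with h | h <;> rw [h] <;> push_cast <;> ring
    · rw [Finset.sum_congr rfl fun η hη => by rw [h'.exp _ (Finset.mem_filter.1 hη).2 y hy, Finset.mul_sum],
        Finset.sum_comm]
      refine Finset.sum_congr rfl fun i hi => ?_
      rw [← h.sum i hi, Finset.sum_mul, Finset.mul_sum]
      refine Finset.sum_bij (fun η _ => I η) (fun η hη => by simpa using hI.1 (Finset.mem_filter.1 hη).2)
        (fun η hη η' hη' => hI.2.1 (Finset.mem_filter.1 hη).2 (Finset.mem_filter.1 hη').2) (fun χ hχ => ?_) fun η hη => ?_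
      · obtain ⟨η, h1, h2⟩ := hI.2.2 (Finset.mem_filter.1 hχ).2
        exact ⟨η, by simpa using h1, h2⟩
      · rw [hD η (Finset.mem_filter.1 hη).2 i hi]; ring
  have h2 : ∀ x y, p ∣ orderOf x → ¬ p ∣ orderOf y → ∑ η with η ∈ c, ε η * (I η).1 x * η.1 y = 0 := fun x y hx hy => by
    rw [h1 x y (.inl hx), Finset.sum_eq_zero fun i hi => by rw [h'.reg i hi y hy, mul_zero, mul_zero]]
  have h3 : ∀ x y, ¬ p ∣ orderOf x → p ∣ orderOf y → ∑ η with η ∈ c, ε η * (I η).1 x * η.1 y = 0 := fun x y hx hy => by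
    rw [h1 x y (.inr hy), Finset.sum_eq_zero fun i hi => by rw [h.reg i hi x hx, mul_zero, zero_mul, mul_zero]]
  refine ⟨hI, hε, fun x y => ?_⟩
  rw [h0, ← mem_O, ← mem_O]
  refine ⟨?_, ?_, ?_⟩
  · by_cases hy : p ∣ orderOf y
    · rw [h1 x y (.inr hy), Finset.sum_div]
      refine sum_mem fun i hi => ?_
      rw [mul_div_assoc, mul_div_right_comm]
      exact mul_mem hn (mul_mem (h.int i hi x).2 (h'.int i hi y).1)
    · rw [Finset.sum_congr rfl fun _ _ => mul_right_comm _ _ _]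
      exact div_mem_of_sing (M := M) _ (fun η _ => mul_mem (intCast_mem _ _) (irr_mem_O η y))
        (fun η _ => (I η).2.isGen) (fun g hg => (Finset.sum_congr rfl fun _ _ => mul_right_comm _ _ _).trans (h2 g y hg hy)) x
  · by_cases hx : p ∣ orderOf x
    · rw [h1 x y (.inl hx), Finset.sum_div]
      refine sum_mem fun i hi => ?_
      rw [mul_div_assoc, mul_right_comm, mul_div_right_comm]
      exact mul_mem hn (mul_mem (h'.int i hi y).2 (h.int i hi x).1)
    · exact div_mem_of_sing (M := M) _ (fun η _ => mul_mem (intCast_mem _ _) (irr_mem_O _ x)) (fun η _ => η.2.isGen)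
        (fun g hg => h3 x g hx hg) y
  · rw [IsPRegular, IsPRegular]
    by_cases hx : p ∣ orderOf x <;> by_cases hy : p ∣ orderOf y
    exacts [.inl (by simp [hx, hy]), .inr (h2 x y hx hy), .inr (h3 x y hx hy), .inl (by simp [hx, hy])]

section Four

variable {A : Type*} [Group A] [Fintype A] {E : Subgroup (MulAut A)} [Fintype E] {ψ ψ' : Lin A}

/-- action on linear characters -/
abbrev lE (ψ : Lin A) (σ : E) : Lin A := ψ.comp σ.1.toMonoidHom

variable (E) in
/-- orbit sums -/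
noncomputable def th (ψ : Lin A) : A → ℂ := ∑ σ : E, ⇑(lE ψ σ)

theorem th_apply (u : A) : th E ψ u = ∑ σ : E, ψ (σ.1 u) := by simp [th]

theorem th_aut (τ : E) (u : A) : th E ψ (τ.1 u) = th E ψ u := by
  rw [th_apply, th_apply]; exact Fintype.sum_equiv (Equiv.mulRight τ) _ _ fun _ => rfl

theorem th_lE (τ : E) : th E (lE ψ τ) = th E ψ := funext fun u => by
  rw [th_apply, th_apply]; exact Fintype.sum_equiv (Equiv.mulLeft τ) _ _ fun _ => rfl

theorem th_one : th E ψ 1 = Nat.card E := by simp [th_apply]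

theorem conj_th (u : A) : conj (th E ψ u⁻¹) = th E ψ u := by simp [th_apply, Lin.conj_apply]

theorem lE_ne (hψ : ψ ≠ 1) (σ : E) : lE ψ σ ≠ 1 := fun h1 =>
  hψ (Lin.ext fun y => by simpa using DFunLike.congr_fun h1 (σ⁻¹.1 y))

theorem sum_lin_mul (ψ ψ' : Lin A) : ∑ u, ψ u * conj (ψ' u) = if ψ = ψ' then (Nat.card A : ℂ) else 0 := by
  rw [← card_mul_classInner, Lin.inner_eq]; simp

theorem sum_th (hψ : ψ ≠ 1) : ∑ u, th E ψ u = 0 := by
  simp only [th, Finset.sum_apply]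
  rw [Finset.sum_comm]
  exact Finset.sum_eq_zero fun σ _ => by simpa [lE_ne hψ σ] using sum_lin_mul (lE ψ σ) 1

theorem four_unique [IsMulCommutative A] {h : A → ℂ} (h1 : ∀ (σ : E) u, h (σ.1 u) = h u)
    (h2 : ∀ ψ ≠ 1, ∑ u, (th E ψ u - Nat.card E) * h u = 0) {v : A} (hv : v ≠ 1) : h v = 0 := by
  classical
  have h3 : ∀ ψ : Lin A, ∑ u, ψ u * h u = ∑ u, h u := fun ψ => by
    by_cases hψ : ψ = 1
    · simp [hψ]
    have h3 : ∀ σ : E, ∑ u, ψ (σ.1 u) * h u = ∑ u, ψ u * h u := fun σ =>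
      Fintype.sum_equiv σ.1.toEquiv _ _ fun u => by rw [← h1 σ u]; rfl
    have h4 := h2 ψ hψ
    simp only [sub_mul, Finset.sum_sub_distrib, th_apply, Finset.sum_mul, ← Finset.mul_sum] at h4
    rw [Finset.sum_comm] at h4
    simp only [h3, Finset.sum_const, Finset.card_univ, nsmul_eq_mul, ← Nat.card_eq_fintype_card] at h4
    exact mul_left_cancel₀ card_ne_zero (sub_eq_zero.1 h4)
  have h4 := Finset.sum_congr (s₁ := Finset.univ) rfl fun (ψ : Lin A) _ => congrArg (· * conj (ψ v)) (h3 ψ)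
  simp only [Finset.sum_mul, mul_right_comm _ (h _)] at h4
  rw [Finset.sum_comm, Finset.sum_comm (s := Finset.univ (α := Lin A))] at h4
  simp only [← Finset.sum_mul, ← Finset.mul_sum, sum_lin_mul_conj, ← map_sum, sum_lin hv] at h4
  simpa using h4

theorem card_th_ge [IsMulCommutative A] : Nat.card A ≤ Nat.card E * Nat.card {f // ∃ ψ ≠ 1, th E ψ = f} + 1 := by
  classical
  have h1 := Finset.card_le_mul_card_image (f := th E) (Finset.univ.erase (1 : Lin A)) (Nat.card E) fun f hf' => by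
    obtain ⟨ψ, hψ, rfl⟩ := Finset.mem_image.1 hf'
    rw [Nat.card_eq_fintype_card, ← Finset.card_univ]
    refine (Finset.card_le_card fun x hx => ?_).trans (Finset.card_image_le (f := lE ψ))
    by_contra h
    have h1 : ∑ u, th E ψ u * conj (x u) = 0 := by
      simp only [th, Finset.sum_apply, Finset.sum_mul]
      rw [Finset.sum_comm]
      exact Finset.sum_eq_zero fun σ _ => by rw [sum_lin_mul, if_neg fun h1 => h (by simp [← h1])]
    rw [← (Finset.mem_filter.1 hx).2] at h1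
    simp only [th, Finset.sum_apply, Finset.sum_mul] at h1
    rw [Finset.sum_comm] at h1
    simp only [sum_lin_mul, ← Finset.sum_filter, Finset.sum_const, nsmul_eq_mul, mul_eq_zero, Nat.cast_eq_zero,
      Finset.card_eq_zero, Finset.filter_eq_empty_iff] at h1
    exact h1.elim (fun h1 => h1 (Finset.mem_univ 1) rfl) Nat.card_pos.ne'
  rw [← card_univ_lin (A := A), ← Finset.card_erase_add_one (Finset.mem_univ (1 : Lin A)),
    Nat.subtype_card ((Finset.univ.erase (1 : Lin A)).image (th E)) (by simp)]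
  omega

variable [IsMulCommutative A] (hf : ∀ σ : E, ∀ u ≠ 1, σ.1 u = u → σ = 1)
include hf

theorem inj_lE (hψ : ψ ≠ 1) : Function.Injective (lE (E := E) ψ) := fun σ τ h1 => by
  by_contra hne
  have h2 : ∀ y, ψ ((σ * τ⁻¹).1 y) = ψ y := fun y => by simpa using DFunLike.congr_fun h1 (τ⁻¹.1 y)
  have h3 : Function.Injective fun y : A => y⁻¹ * (σ * τ⁻¹).1 y := fun x y h4 => by
    by_contra h5
    refine hne (mul_inv_eq_one.1 (hf _ (x * y⁻¹) (mt mul_inv_eq_one.1 h5) ?_))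
    simp only at h4
    rw [map_mul, map_inv, mul_inv_eq_iff_eq_mul, mul_assoc, ← h4, mul_inv_cancel_left]
  refine hψ (Lin.ext fun y => ?_)
  obtain ⟨x, rfl⟩ := Finite.surjective_of_injective h3 y
  rw [map_mul, h2, ← map_mul, inv_mul_cancel, map_one, Lin.one_apply]

open Classical in
theorem sum_th_mul (hψ : ψ ≠ 1) (hψ' : ψ' ≠ 1) :
    ∑ u, th E ψ u * conj (th E ψ' u) = if th E ψ = th E ψ' then (Nat.card E * Nat.card A : ℂ) else 0 := by
  have h1 : ∀ ψ ψ' : Lin A, ∑ u, th E ψ u * conj (th E ψ' u) =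
      ∑ σ : E, ∑ τ : E, if lE ψ σ = lE ψ' τ then (Nat.card A : ℂ) else 0 := fun ψ ψ' => by
    simp only [th, Finset.sum_apply, map_sum, Finset.sum_mul_sum, ← sum_lin_mul]
    rw [Finset.sum_comm]
    exact Finset.sum_congr rfl fun _ _ => Finset.sum_comm
  split_ifs with h
  · simp [h, h1, (inj_lE hf hψ').eq_iff]
  · rw [h1]
    exact Finset.sum_eq_zero fun σ _ => Finset.sum_eq_zero fun τ _ => if_neg fun h2 =>
      h (by rw [← th_lE σ, h2, th_lE])

theorem card_th_le : Nat.card E * Nat.card {f // ∃ ψ ≠ 1, th E ψ = f} + 1 ≤ Nat.card A := by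
  classical
  have h1 := Finset.mul_card_image_le_card (f := th E) (Finset.univ.erase (1 : Lin A)) (Nat.card E) fun f hf' => by
    obtain ⟨ψ, hψ, rfl⟩ := Finset.mem_image.1 hf'
    have hψ := Finset.ne_of_mem_erase hψ
    rw [Nat.card_eq_fintype_card, ← Finset.card_univ, ← Finset.card_image_of_injective _ (inj_lE hf hψ)]
    refine Finset.card_le_card fun x hx => ?_
    obtain ⟨σ, -, rfl⟩ := Finset.mem_image.1 hx
    simp [lE_ne hψ, th_lE]
  rw [← card_univ_lin (A := A), ← Finset.card_erase_add_one (Finset.mem_univ (1 : Lin A)),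
    Nat.subtype_card ((Finset.univ.erase (1 : Lin A)).image (th E)) (by simp)]
  omega

end Four

theorem jn_of_reg {x : G} {θ θ' : centralizer ({x} : Set G) → ℂ} {a : ℂ} (h : reg p θ = a • reg p θ') :
    jn p x θ = a • jn p x θ' := by
  have := Fintype.ofFinite G
  have := Fintype.ofFinite (centralizer ({x} : Set G))
  refine isClassFunction_jn.ext_inner (isClassFunction_jn.smul _) fun χ hχ => ?_
  rw [classInner_smul_left, classInner_jn hχ.isClassFunction, classInner_jn hχ.isClassFunction, h, classInner_smul_left]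

theorem sec_div_mem {x : G} (hx : PElt p x) {b : Set (IrrCharacter (centralizer ({x} : Set G)))} (hb : IsPBlock M b)
    {φ : G → ℂ} (hφ : IsGeneralizedCharacter G φ) (g : G) : sec p x b φ g ∈ O M ∧
      (p : ℂ) ^ blockDefect p b * sec p x b φ g / Nat.card (centralizer ({g} : Set G)) ∈ O M := by
  classical
  have := Fintype.ofFinite (centralizer ({x} : Set G))
  by_cases h0 : sec p x b φ g = 0
  · simp [h0]
  obtain ⟨t, s, hs, rfl⟩ := exists_of_jn_ne_zero hx h0
  have h1 : ∀ s, blockPart b (sh x φ) s = ∑ ξ with ξ ∈ b, classInner (sh x φ) ξ * ξ.1 s := fun s => by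
    rw [blockPart_eq, Finset.sum_filter]
  rw [isClassFunction_sec, sec, jn_mul hx (isClassFunction_blockPart _ _) hs, h1, card_centralizer_conj,
    card_centralizer_mul hx hs]
  refine ⟨sum_mem fun ξ _ => mul_mem (inner_sh_mem hφ x ξ) (irr_mem_O ξ s), ?_⟩
  have h2 := div_mem_of_sing (M := M) (Finset.univ.filter (· ∈ b)) (fun ξ _ => inner_sh_mem hφ x ξ)
    (fun ξ hξ => IsPBlock.isGen_smul_reg hb ξ.2.isGen (blockPart_of_mem (Finset.mem_filter.1 hξ).2))
    (fun g hg => by simp [reg_of_dvd _ hg]) s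
  simp only [Pi.smul_apply, reg_of_not_dvd _ hs, smul_eq_mul, mul_left_comm _ ((p : ℂ) ^ _)] at h2
  rwa [Finset.mul_sum]

variable {A : Type*} [Group A] [Fintype A] {E : Subgroup (MulAut A)} [Fintype E]
  {P : Subgroup G} {e : MonoidAlgebra (F M) G} {α : A ≃* P} {χ₀ χ : IrrCharacter G}

theorem exists_autE (α : A ≃* P) {T : Subgroup G} (hT : T ≤ normalizer (P : Set G)) : ∃ E : Subgroup (MulAut A),
    (∀ σ, σ ∈ E ↔ ∃ t ∈ T, ∀ u, (α (σ u) : G) = t * α u * t⁻¹) ∧
      Nat.card E = (centralizer (P : Set G)).relIndex T := by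
  let f : T →* MulAut A := (MulAut.congr α.symm).toMonoidHom.comp (P.normalizerMonoidHom.comp (inclusion hT))
  have hf : ∀ t u, (α (f t u) : G) = t * α u * (t : G)⁻¹ := fun t u => by simp [f]
  refine ⟨f.range, fun σ => ⟨fun ⟨t, ht⟩ => ⟨t, t.2, fun u => ht ▸ hf t u⟩, fun ⟨t, ht, h⟩ =>
    ⟨⟨t, ht⟩, MulEquiv.ext fun u => α.injective (Subtype.ext ((hf _ u).trans (h u).symm))⟩⟩, ?_⟩
  rw [← index_ker, relIndex]
  congr 1
  ext t
  rw [MonoidHom.mem_ker, mem_subgroupOf, MulEquiv.ext_iff]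
  refine ⟨fun h u hu => ?_, fun h u => α.injective (Subtype.ext ?_)⟩
  · have := hf t (α.symm ⟨u, hu⟩)
    rw [h, MulAut.one_apply, α.apply_symm_apply] at this
    exact eq_mul_inv_iff_mul_eq.1 this
  · rw [hf, ← h _ (α u).2, mul_inv_cancel_right, MulAut.one_apply]

variable (p) in
/-- blocks with abelian defect group and freely acting inertial quotient -/
structure FI (B : Set (IrrCharacter G)) (P : Subgroup G) (e : MonoidAlgebra (F M) G) (α : A ≃* P)
    (E : Subgroup (MulAut A)) (χ₀ : IrrCharacter G) : Prop where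
  mp : MP p ⊤ (eB M B) P e
  blk : IsPBlock M B
  ab : P ≤ centralizer (P : Set G)
  ne : P ≠ ⊥
  aut : ∀ σ, σ ∈ E ↔ ∃ t ∈ NS ⊤ P e, ∀ u, (α (σ u) : G) = t * α u * t⁻¹
  free : ∀ g ∈ NS ⊤ P e, ∀ x ∈ P, x ≠ 1 → g * x * g⁻¹ = x → g ∈ centralizer (P : Set G)
  rank : (centralizer (P : Set G)).relIndex (NS ⊤ P e) ≤ blockRank p B
  mem : χ₀ ∈ B
  base : ∀ u ∈ P, u ≠ 1 → Nat.card P * ctr p u (sb p P e u) χ₀ χ₀ = 1

variable (p) in
/-- normalised generalised decomposition numbers -/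
noncomputable def gd (e : MonoidAlgebra (F M) G) (α : A ≃* P) (χ₀ : IrrCharacter G) (u : A) (χ : IrrCharacter G) : ℂ :=
  Nat.card A * ctr p (α u : G) (sb p P e (α u)) χ χ₀

namespace FI

variable (h : FI p B P e α E χ₀)
include h

theorem comm : IsMulCommutative A := ⟨⟨fun a b => α.injective (Subtype.ext (by
  simpa using h.ab (α b).2 _ (α a).2))⟩⟩

theorem card : Nat.card E = (centralizer (P : Set G)).relIndex (NS ⊤ P e) := by
  obtain ⟨E', h1, h2⟩ := exists_autE α (NS_le_normalizer ⊤ P e)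
  rwa [show E = E' from Subgroup.ext fun σ => (h.aut σ).trans (h1 σ).symm]

theorem ne_one {u : A} (hu : u ≠ 1) : (α u : G) ≠ 1 := by simpa using hu

theorem freeE (σ : E) (u : A) (hu : u ≠ 1) (h1 : σ.1 u = u) : σ = 1 := by
  obtain ⟨t, ht, h2⟩ := (h.aut _).1 σ.2
  have h3 := h.free t ht _ (α u).2 (h.ne_one hu) (by rw [← h2, h1])
  exact Subtype.ext (MulEquiv.ext fun v => α.injective (Subtype.ext (by
    rw [h2, ← h3 _ (α v).2, mul_inv_cancel_right]; rfl)))

theorem inv_mem : (Nat.card E : ℂ)⁻¹ ∈ O M := inv_natCast_mem_O (by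
  have := h.mp.not_dvd
  rwa [CH_top, sup_eq_right.2 h.ab, ← h.card] at this)

theorem pow {u : G} (hu : u ∈ P) : (p : ℂ) ^ blockDefect p (sb p P e u) = Nat.card A := by
  rw [h.mp.defect_sb h.blk hu (mem_centralizer_comm.1 (h.ab hu)), Nat.card_congr α.toEquiv, h.mp.card_eq_pow h.blk,
    Nat.cast_pow]

theorem conj_gd (u : A) : conj (gd p e α χ₀ u χ) = Nat.card A * ctr p (α u : G) (sb p P e (α u)) χ₀ χ := by
  rw [gd, map_mul, map_natCast, conj_ctr (h.mp.bp.isPBlock_sb (α u).2).closed χ.2.isClassFunction χ₀.2.isClassFunction]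

theorem ty [DecidableEq A] : TY p M B (Finset.univ.erase 1) (Nat.card A) (Nat.card E : ℂ)⁻¹
    (fun u => sec p (α u : G) (sb p P e (α u)) χ₀) (gd p e α χ₀) := by
  classical
  have := Fintype.ofFinite G
  have := Fintype.ofFinite P
  have hu := fun u : A => pElt_of_mem h.mp.bp.pgrp (α u).2
  have hb := fun u : A => h.mp.bp.isPBlock_sb (α u).2
  have h1 := (h.mp.card_of_free h.blk h.ab h.free h.card.symm).1
  refine ⟨fun χ hχ x hx => ?_, fun u _ x => ?_, fun u hu' x hx => ?_, fun u _ x => ?_⟩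
  · rw [congrFun (h.mp.eq_sum_sec h.blk (blockPart_of_mem hχ)) x, Finset.sum_apply, ← (α : A ≃ P).sum_comp,
      ← Finset.sum_erase_add _ _ (Finset.mem_univ 1)]
    obtain ⟨y, hy⟩ := exists_isPPart (p := p) x
    simp only [EquivLike.coe_coe]
    rw [Pi.smul_apply, sec, jn_eq_zero (hu 1) hy (by simpa [eq_comm (a := (1 : G)), hy.eq_one_iff] using hx), smul_zero,
      add_zero]
    refine Finset.sum_congr rfl fun u hu' => ?_
    replace hu' := h.ne_one (Finset.ne_of_mem_erase hu')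
    obtain ⟨φ, d, m, -, -, h2, h3, -⟩ := exists_gdec (hu u) (hb u) (h1 _ (α u).2 hu').1
    have h4 := h.base _ (α u).2 hu'
    rw [← Nat.card_congr α.toEquiv, ← h.pow (α u).2, h3] at h4
    rw [(h1 _ (α u).2 hu').2, gd, ← h.pow (α u).2, h3, sec, sec, jn_of_reg (h2 χ), jn_of_reg (h2 χ₀)]
    simp only [Pi.smul_apply, smul_eq_mul]
    linear_combination -(Nat.card E : ℂ)⁻¹ * d χ * jn p (α u : G) φ x * h4
  · simp only [h.conj_gd, mul_assoc, ← Finset.mul_sum, ← inner_sec (IsIrrCharacter.isClassFunction (Subtype.property _))]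
    rw [IsClassFunction.apply_eq_sum_irr isClassFunction_sec x, Finset.sum_filter_of_ne fun (χ : IrrCharacter G) _ h2 => by_contra fun hχ => h2 ?_]
    rw [inner_sec χ.2.isClassFunction, IsInducedBlock.ctr_eq_zero' (hu u) (h.mp.induced_sb h.blk (α u).2) hχ
      χ₀.2.isClassFunction, zero_mul]
  · exact jn_eq_zero (hu u) (isPPart_one_iff.2 hx) (by simpa using hu')
  · rw [← h.pow (α u).2]; exact sec_div_mem (hu u) (hb u) χ₀.2.isGen x

theorem gd_aut (σ : E) (u : A) : gd p e α χ₀ (σ.1 u) χ = gd p e α χ₀ u χ := by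
  obtain ⟨t, ht, h1⟩ := (h.aut _).1 σ.2
  obtain ⟨g, h2, h3⟩ := h.mp.bp.conj_mem_fcl (α u).2 ht
  rw [← h1] at h2 h3
  rw [gd, gd, ← ctr_conj h2 (h.mp.bp.isPBlock_sb (α u).2).closed (h.mp.bp.isPBlock_sb h3.mem).closed
    (h3.eq_sb h.mp.bp) χ.2.isClassFunction χ₀.2.isClassFunction]

theorem stab {θ : A → ℂ} (hθ : ∀ (σ : E) u, θ (σ.1 u) = θ u) : Stab p e fun u : P => θ (α.symm u) := by
  intro u v g h1 h2
  have h3 := (h.mp.bp.mem_fcl_iff u.2).2 ⟨g, h1, h2⟩
  rw [h.mp.fcl_of_abelian h.ab u.2] at h3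
  obtain ⟨t, ht, h3⟩ := h3
  obtain ⟨E', h4, -⟩ := exists_autE α (NS_le_normalizer ⊤ P e)
  let σ : MulAut A := MulAut.congr α.symm (P.normalizerMonoidHom ⟨t, NS_le_normalizer ⊤ P e ht⟩)
  have h5 : ∀ w, (α (σ w) : G) = t * α w * t⁻¹ := fun w => by simp [σ]
  have h6 := hθ ⟨σ, (h.aut σ).2 ⟨t, ht, h5⟩⟩ (α.symm u)
  rw [show σ (α.symm u) = α.symm v from α.injective (Subtype.ext (by simpa [h3] using h5 (α.symm u)))] at h6
  exact h6.symm

end FI

variable (E) in
/-- labels for the characters -/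
abbrev Lab : Type _ := Fin (Nat.card E) ⊕ {f // ∃ ψ ≠ 1, th E ψ = f}

/-- rows of the generalised decomposition matrix -/
def Rw : Lab E → A → ℂ := Sum.elim (fun _ _ => 1) fun f => f.1

theorem conj_Rw (a : Lab E) (u : A) : conj (Rw a u⁻¹) = Rw a u := by
  rcases a with a | ⟨_, ψ, -, rfl⟩
  exacts [map_one _, conj_th u]

theorem FI.exists_label (h : FI p B P e α E χ₀) : ∃ (l : Lab E ≃ B) (δ : Lab E → ℤ), (∀ a, δ a = 1 ∨ δ a = -1) ∧
    (∀ f f', δ (.inr f) = δ (.inr f')) ∧ blockRank p B = Nat.card E ∧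
    ∀ a, ∀ u ≠ 1, gd p e α χ₀ u (l a) = δ a * Rw a u := by
  classical
  have := Fintype.ofFinite G
  have := Fintype.ofFinite P
  have := h.comm
  obtain ⟨h1, h2⟩ := h.mp.card_of_free h.blk h.ab h.free h.card.symm
  have hA := Nat.card_congr α.toEquiv
  let Θ := {f // ∃ ψ ≠ 1, th E ψ = f}
  have : Finite Θ := Finite.of_surjective (fun ψ : {ψ : Lin A // ψ ≠ 1} => (⟨_, ψ.1, ψ.2, rfl⟩ : Θ))
    fun ⟨_, ψ, h, rfl⟩ => ⟨⟨ψ, h⟩, rfl⟩
  have := Fintype.ofFinite Θ
  let v : Θ → G → ℂ := fun f => star p e (fun u : P => f.1 (α.symm u) - Nat.card E) χ₀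
  have h3 : ∀ f : Θ, IsGeneralizedCharacter P (fun u : P => f.1 (α.symm u) - Nat.card E) ∧
      Stab p e (fun u : P => f.1 (α.symm u) - Nat.card E) ∧ f.1 1 = Nat.card E := by
    rintro ⟨_, ψ, -, rfl⟩
    refine ⟨?_, h.stab (θ := fun u => th E ψ u - Nat.card E) fun σ u => by rw [th_aut], th_one⟩
    convert isGen_sum Finset.univ (fun σ : E => ⇑((lE ψ σ).comp α.symm.toMonoidHom) - ⇑(1 : Lin P))
      fun σ _ => (Lin.isGen _).sub (Lin.isGen _) using 1
    ext u; simp [th_apply]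
  have h4 : ∀ f, IsGeneralizedCharacter G (v f) ∧ blockPart B (v f) = v f := fun f =>
    (h.mp.star_spec h.blk (h3 f).1 (h3 f).2.1 χ₀.2.isGen (blockPart_of_mem h.mem)).imp_right And.left
  have h5 : ∀ (f : Θ) (F : P → ℂ), (Nat.card E : ℂ) * ∑ u : P, (nF p P e u : ℂ)⁻¹ * ((f.1 (α.symm u) - Nat.card E) * F u) =
      ∑ u, (f.1 u - Nat.card E) * F (α u) := fun f F => by
    rw [← (α : A ≃ P).sum_comp, Finset.mul_sum]
    refine Finset.sum_congr rfl fun u _ => ?_
    rw [EquivLike.coe_coe, α.symm_apply_apply]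
    by_cases hu : u = 1
    · simp only [hu, (h3 f).2.2, sub_self, zero_mul, mul_zero]
    · rw [(h1 _ (α u).2 (h.ne_one hu)).2, mul_inv_cancel_left₀ card_ne_zero]
  have h6 : ∀ f (χ : IrrCharacter G), ∑ u, (f.1 u - Nat.card E) * conj (gd p e α χ₀ u χ) =
      Nat.card E * Nat.card A * classInner (v f) χ := fun f χ => by
    rw [inner_star χ.2.isClassFunction, mul_right_comm, h5, Finset.sum_mul]
    exact Finset.sum_congr rfl fun u _ => by rw [h.conj_gd]; ring
  have h7 : ∀ f f' : Θ, ∑ u, (f.1 u - Nat.card E) * conj (f'.1 u) =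
      Nat.card E * Nat.card A * if f = f' then 1 else 0 := by
    rintro ⟨_, ψ, hψ, rfl⟩ ⟨_, ψ', hψ', rfl⟩
    simp only [sub_mul, Finset.sum_sub_distrib, ← Finset.mul_sum, ← map_sum, sum_th hψ', sum_th_mul h.freeE hψ hψ', Θ,
      Subtype.mk.injEq]
    simp
  have h8 : ∀ f : Θ, ∑ u, (f.1 u - Nat.card E) = -(Nat.card E * Nat.card A : ℂ) := by
    rintro ⟨_, ψ, hψ, rfl⟩
    simp [sum_th hψ, mul_comm]
  have hEA : (Nat.card E * Nat.card A : ℂ) ≠ 0 := mul_ne_zero card_ne_zero card_ne_zero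
  have h9 : ∀ f f', classInner (v f) (v f') = (if f = f' then 1 else 0) + Nat.card E := fun f f' => by
    refine mul_left_cancel₀ hEA ?_
    rw [h.mp.inner_star_star h.blk (h3 f').1 (h3 f').2.1 χ₀.2.isClassFunction χ₀.2.isGen (blockPart_of_mem h.mem)]
    simp only [mul_assoc (f.1 _ - _)]
    rw [mul_add, ← h7, ← neg_neg (_ * _ * (Nat.card E : ℂ)), ← neg_mul, ← h8 f, mul_right_comm, h5,
      Finset.sum_mul, Finset.sum_mul, ← sub_eq_add_neg, ← Finset.sum_sub_distrib]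
    refine Finset.sum_congr rfl fun u _ => ?_
    by_cases hu : u = 1
    · simp [hu, (h3 f).2.2]
    · have := h.base _ (α u).2 (h.ne_one hu)
      rw [← hA] at this
      rw [α.symm_apply_apply, map_sub, map_natCast]
      linear_combination (f.1 u - Nat.card E) * (conj (f'.1 u) - Nat.card E) * this
  choose a h10 h11 using fun f => (h4 f).1.exists_int_coeffs
  have h12 : ∀ f, ∀ χ ∉ B, a f χ = 0 := fun f χ hχ => by
    have := h10 f χ
    rw [← (h4 f).2, classInner_blockPart, if_neg hχ] at this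
    exact_mod_cast this.symm
  have h13 : ∀ (χ : IrrCharacter G) (r : A → ℂ), (∀ (σ : E) u, r (σ.1 u) = r u) → (∀ f : Θ, ∑ u, (f.1 u - Nat.card E) * conj (r u) =
      Nat.card E * Nat.card A * a f χ) → ∀ u ≠ 1, gd p e α χ₀ u χ = r u := fun χ r h13 h14 u hu => by
    have := four_unique (E := E) (h := fun u => conj (gd p e α χ₀ u χ) - conj (r u)) (fun σ u => by rw [h.gd_aut, h13])
      (fun ψ hψ => by
        simp only [mul_sub _ (conj _), Finset.sum_sub_distrib]
        rw [h6 ⟨_, ψ, hψ, rfl⟩, h14 ⟨_, ψ, hψ, rfl⟩, h10, sub_self]) hu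
    exact (starRingEnd ℂ).injective (sub_eq_zero.1 this)
  have h14 : 1 < Nat.card P := (one_lt_card_iff_ne_bot P).2 h.ne
  have : Nontrivial (Lin A) := Finite.one_lt_card_iff_nontrivial.1 (by rw [card_lin]; omega)
  obtain ⟨ψ₀, hψ₀⟩ := exists_ne (1 : Lin A)
  have : Nonempty Θ := ⟨⟨_, ψ₀, hψ₀, rfl⟩⟩
  have h15 := card_th_le h.freeE
  have h16 := h.card ▸ h.rank
  have h17 : 0 < Nat.card E := Nat.card_pos
  obtain ⟨X, y, δ, h18, h19, h20, h21, h22, h23, h24, h25⟩ := Cfsg.Agent.B.exists_except (Finset.univ.filter (· ∈ B)) a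
    (ε := Nat.card E) (fun w w' => by
      have := (h4 w).1.isClassFunction.inner_eq_sum (v w')
      simp only [h10, fun χ : IrrCharacter G => χ.2.isGen.inner_comm (h4 w').1] at this
      rw [Finset.sum_filter_of_ne fun χ _ h => by_contra fun hχ => h (by rw [h12 _ _ hχ, zero_mul])]
      exact_mod_cast ((h9 w w').symm.trans this).symm)
    (fun χ hχ => by
      by_contra! h18
      have h19 : χ ∈ B := by simpa using hχ
      have h20 := h13 χ 0 (fun _ _ => rfl) fun f => by simp [h18]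
      rw [h.mp.card_eq_pow h.blk, IsPBlock.defect_eq_zero_of_vanish h.blk h19 fun g hg => by
        rw [h.ty.exp χ h19 g hg, Finset.sum_eq_zero fun u hu => by simp [h20 u (Finset.ne_of_mem_erase hu)]]] at h14
      simp at h14)
    (by
      rw [card_filter_mem, ← Nat.card_eq_fintype_card]
      exact Nat.le_of_mul_le_mul_left (by nlinarith) h17)
  have h26 : ∀ w, v w = (δ (y w) : ℂ) • (y w).1 + ∑ χ ∈ X, (δ χ : ℂ) • χ.1 := fun w => by
    refine (h11 w).trans ?_
    rw [← Finset.sum_insert (f := fun χ => (δ χ : ℂ) • χ.1) ((h21 _).2 ⟨w, rfl⟩).2]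
    refine (Finset.sum_subset_zero_on_sdiff (Finset.subset_univ _) (fun χ hχ => ?_) fun χ hχ => ?_).symm
    · simp only [Finset.mem_sdiff, Finset.mem_univ, Finset.mem_insert, not_or, true_and] at hχ
      by_cases h26 : χ ∈ B
      · obtain ⟨w', rfl⟩ := (h21 χ).1 ⟨by simpa using h26, hχ.2⟩
        rw [h25 _ _ fun h : w = w' => hχ.1 (congrArg y h.symm), Int.cast_zero, zero_smul]
      · rw [h12 _ _ h26, Int.cast_zero, zero_smul]
    · rcases Finset.mem_insert.1 hχ with rfl | hχ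
      · rw [h24]
      · rw [h23 _ _ hχ]
  have h27 : ∀ w w', δ (y w) = δ (y w') := fun w w₀ => by
    have h27 := fun w => (h.mp.star_apply_one h.blk (h3 w).1 (h3 w).2.1 χ₀.2.isGen (blockPart_of_mem h.mem)).symm.trans
      (congrFun (h26 w) 1)
    simp only [map_one, fun w => (h3 w).2.2] at h27
    have h28 := add_right_cancel ((h27 w).symm.trans (h27 w₀))
    simp only [Pi.smul_apply, smul_eq_mul, ← (y _).2.isCharacter.cast_charDegree] at h28
    norm_cast at h28
    have h29 := (y w).2.charDegree_pos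
    have h30 := (y w₀).2.charDegree_pos
    rcases h22 _ ((h21 _).2 ⟨w, rfl⟩).1 with h | h <;> rcases h22 _ ((h21 _).2 ⟨w₀, rfl⟩).1 with h' | h' <;>
      rw [h, h'] at h28 ⊢ <;> omega
  let β := X.equivFinOfCardEq h19
  let l : Lab E ≃ B := .ofBijective (Sum.elim (fun i => ⟨β.symm i, by simpa using h18 (β.symm i).2⟩)
    fun w => ⟨y w, by simpa using ((h21 _).2 ⟨w, rfl⟩).1⟩) ⟨by
      rintro (i | i) (j | j) hij <;> simp only [Sum.elim_inl, Sum.elim_inr, Subtype.mk.injEq] at hij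
      · rw [β.symm.injective (Subtype.ext hij)]
      · exact (((h21 _).2 ⟨j, rfl⟩).2 (hij ▸ (β.symm i).2)).elim
      · exact (((h21 _).2 ⟨i, rfl⟩).2 (hij ▸ (β.symm j).2)).elim
      · rw [h20 hij], fun χ => by
      by_cases hχ : χ.1 ∈ X
      · exact ⟨.inl (β ⟨_, hχ⟩), Subtype.ext (by simp)⟩
      · obtain ⟨w, hw⟩ := (h21 χ).1 ⟨by simpa using χ.2, hχ⟩
        exact ⟨.inr w, Subtype.ext hw⟩⟩
  refine ⟨l, Sum.elim (fun i => -δ (β.symm i)) fun w => δ (y w), ?_, h27, ?_, ?_⟩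
  · rintro (i | w)
    · rcases h22 _ (h18 (β.symm i).2) with h | h <;> simp [h]
    · exact h22 _ ((h21 _).2 ⟨w, rfl⟩).1
  · have h28 := Nat.card_congr l
    rw [Nat.card_sum, Nat.card_eq_fintype_card, Fintype.card_fin] at h28
    have h29 := card_th_ge (E := E)
    exact le_antisymm (Nat.le_of_mul_le_mul_left (by nlinarith) h17) h16
  · rintro (i | w)
    · exact h13 _ _ (fun _ _ => rfl) fun f => by
        simp only [Rw, Sum.elim_inl, mul_one, map_intCast]
        rw [← Finset.sum_mul, h8, show (l (.inl i)).1 = β.symm i from rfl, h23 _ _ (β.symm i).2]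
        push_cast; ring
    · refine h13 _ _ (fun σ u => ?_) fun f => ?_
      · obtain ⟨_, ψ, -, rfl⟩ := w
        exact congrArg _ (th_aut σ u)
      · simp only [Rw, Sum.elim_inr, map_mul, map_intCast, mul_left_comm _ (δ _ : ℂ)]
        rw [← Finset.mul_sum, h7, show (l (.inr w)).1 = y w from rfl]
        split_ifs with h
        · rw [h, h24]; ring
        · simp [h25 _ _ h]

theorem FI.exists_perfect {Q : Subgroup H} {e' : MonoidAlgebra (F M) H} {α' : A ≃* Q} {χ₁ : IrrCharacter H}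
    (h : FI p B P e α E χ₀) (h' : FI p c Q e' α' E χ₁) : Nat.card c = Nat.card B ∧ blockRank p c = blockRank p B ∧
      ∃ I ε, IsPerfectIsometry p M c B I ε ∧ ∃ s, ∀ η ∈ c, ε η = s ∨
        ∃ δ : ℤ, (δ = 1 ∨ δ = -1) ∧ ∀ u ≠ 1, gd p e' α' χ₁ u η = δ := by
  classical
  obtain ⟨l, δ, h1, h2, h3, h4⟩ := h.exists_label
  obtain ⟨l', δ', h1', h2', h3', h4'⟩ := h'.exists_label
  let I : IrrCharacter H → IrrCharacter G := fun η => if hη : η ∈ c then l (l'.symm ⟨η, hη⟩) else χ₀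
  let ε : IrrCharacter H → ℤ := fun η => if hη : η ∈ c then δ (l'.symm ⟨η, hη⟩) * δ' (l'.symm ⟨η, hη⟩) else 1
  have hI : ∀ a, I (l' a) = l a := fun a => by simp [I]
  have hε : ∀ a, ε (l' a) = δ a * δ' a := fun a => by simp [ε]
  have hc : ∀ η ∈ c, ∃ a, (l' a).1 = η := fun η hη => ⟨l'.symm ⟨η, hη⟩, by simp⟩
  refine ⟨Nat.card_congr (l'.symm.trans l), h3'.trans h3.symm, I, ε,
    (h.ty.reindex (Equiv.inv A) (by simp)).perfect h'.ty h.inv_mem ⟨fun η hη => ?_, fun η hη η' hη' h5 => ?_,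
      fun χ hχ => ⟨l' (l.symm ⟨χ, hχ⟩), (l' _).2, by simp [hI]⟩⟩ (fun η hη => ?_) fun η hη u hu => ?_, ?_⟩
  · obtain ⟨a, rfl⟩ := hc η hη
    rw [hI]; exact (l a).2
  · obtain ⟨a, rfl⟩ := hc η hη
    obtain ⟨b, rfl⟩ := hc η' hη'
    rw [hI, hI] at h5
    rw [l.injective (Subtype.ext h5)]
  · obtain ⟨a, rfl⟩ := hc η hη
    rcases h1 a with h5 | h5 <;> rcases h1' a with h6 | h6 <;> simp [hε, h5, h6]
  · obtain ⟨a, rfl⟩ := hc η hη
    replace hu := Finset.ne_of_mem_erase hu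
    rw [hI, hε, h4' a u hu, Equiv.inv_apply, h4 a _ (inv_ne_one.2 hu), map_mul, conj_Rw, map_intCast]
    rcases h1' a with h6 | h6 <;> simp [h6]
  by_cases h5 : ∃ f, f = f ∧ ∃ ψ ≠ 1, th E ψ = f
  · obtain ⟨f, -, hf⟩ := h5
    refine ⟨δ (.inr ⟨f, hf⟩) * δ' (.inr ⟨f, hf⟩), fun η hη => ?_⟩
    obtain ⟨a | a, rfl⟩ := hc η hη
    · exact .inr ⟨_, h1' (.inl a), fun u hu => by simp [h4' _ u hu, Rw]⟩
    · exact .inl (by rw [hε, h2 a, h2' a])
  · refine ⟨1, fun η hη => ?_⟩
    obtain ⟨a | a, rfl⟩ := hc η hη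
    · exact .inr ⟨_, h1' (.inl a), fun u hu => by simp [h4' _ u hu, Rw]⟩
    · exact (h5 ⟨_, rfl, a.2⟩).elim

theorem MP.fi_cyc (h : MP p ⊤ (eB M B) P e) (hB : IsPBlock M B) (hc : IsCyclic P) (h1 : P ≠ ⊥)
    (hE : ∀ σ, σ ∈ E ↔ ∃ t ∈ NS ⊤ P e, ∀ u, (α (σ u) : G) = t * α u * t⁻¹) :
    ∃ χ₀, FI p B P e α E χ₀ ∧ Nat.card E ∣ p - 1 := by
  classical
  have := Fintype.ofFinite G
  have := Fintype.ofFinite P
  obtain ⟨z, g, h2⟩ := h.exists_CS' hB hc h1
  have := Fintype.ofFinite (Subgroup.centralizer ({z} : Set G))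
  obtain ⟨χ₀, X, y, δ, δ₀, h3⟩ := h2.exists_EX'
  obtain ⟨χ, hχ⟩ := h3.exists_memX
  have hf := fun g hg x hx => h.free_of_cyclic hc (g := g) (x := x) hg hx
  suffices h4 : FI p B P e α E χ from ⟨χ, h4, h4.card ▸ h2.dvd⟩
  refine ⟨h, hB, h2.ab, h1, hE, hf, h2.le_rank, h3.memX hχ, fun u hu hu1 => ?_⟩
  set ε := (Subgroup.centralizer (P : Set G)).relIndex (NS ⊤ P e)
  have h4 : blockPart (sb p P e z) (χ₀.1 - reg p χ₀.1) = χ₀.1 - reg p χ₀.1 := by
    rw [blockPart_sub, h2.bf.closed.blockPart_reg_eq, blockPart_of_mem h3.h0]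
  have h5 : reg p (χ₀.1 - reg p χ₀.1) = 0 := by rw [reg_sub, reg_reg, sub_self]
  have h6 := h2.inner_ind' h4 h5 h4 h5 fun n hn => by
    rw [cjc_sub, h3.h1 n hn, sub_right_inj]
    conv_rhs => rw [← h3.h1 n hn]
    ext c
    simp only [cjc_eq (CS.TN hn), reg, MulEquiv.orderOf_eq]
  have h7 : indFun _ (χ₀.1 - reg p χ₀.1) = (-δ χ * ε : ℂ) • (χ.1 - reg p χ.1) := funext fun x => by
    by_cases hx : p ∣ orderOf x
    · have := h3.sq hχ
      rw [Pi.smul_apply, Pi.sub_apply, reg_of_dvd _ hx, sub_zero, smul_eq_mul, mul_assoc, h3.sing_X hχ hx, ← mul_assoc,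
        neg_mul_neg, ← Int.cast_mul, this, Int.cast_one, one_mul]
    · rw [Pi.smul_apply, Pi.sub_apply, reg_of_not_dvd _ hx, sub_self, smul_zero]
      exact indFun_eq_zero_of_forall _ fun t ht => sub_eq_zero.2 (reg_of_not_dvd _ (by rwa [← orderOf_coe, orderOf_conj])).symm
  have h8 : ∀ {K : Type _} [Group K] [Fintype K] (ξ : IrrCharacter K),
      classInner (ξ.1 - reg p ξ.1) (ξ.1 - reg p ξ.1) = 1 - classInner (reg p ξ.1) ξ.1 := fun ξ => by
    rw [classInner_sub_right, ← classInner_reg_comm, reg_sub, reg_reg, sub_self, classInner_zero_left, classInner_sub_left,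
      ξ.2.inner_self, sub_zero]
  have h9 := h.inner_eq_sum_ctr hB (blockPart_of_mem (h3.memX hχ)) χ.2.isClassFunction
  have h10 := (h.card_of_free hB h2.ab hf rfl).1
  rw [← Finset.add_sum_erase _ _ (Finset.mem_univ 1), OneMemClass.coe_one, h.bp.nF_one,
    h.ctr_one hB (blockPart_of_mem (h3.memX hχ)), Finset.sum_congr rfl fun u hu => by
      rw [(h10 _ u.2 (by simpa using hu)).2], ← Finset.mul_sum, χ.2.inner_self] at h9
  rw [h7, classInner_smul_left, classInner_smul_right, h8, h8] at h6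
  have h11 := (h2.reg_eq h3.h0 h3.h0).2
  have h12 : (δ χ * δ χ : ℂ) = 1 := by exact_mod_cast h3.sq hχ
  have h13 : (ε : ℂ) ≠ 0 := Nat.cast_ne_zero.2 h2.ne
  have h14 := fun u : P => h.defect_sb hB u.2 (mem_centralizer_comm.1 (h2.ab u.2))
  have h15 := fun u : P => pElt_of_mem h.bp.pgrp u.2
  refine eq_one_of_galois (Finset.univ.erase 1) (fun u : P => (Nat.card P : ℂ) * ctr p (u : G) (sb p P e u) χ χ)
    (fun u _ => by
      rw [h.card_eq_pow hB, Nat.cast_pow, ← h14 u]; exact isIntegral_ctr (h15 u) (h.bp.isPBlock_sb u.2) χ.2.isGen χ.2.isGen)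
    (fun u _ => mul_ne_zero card_ne_zero ((h.induced_sb hB u.2).ctr_self_ne_zero (h15 u) (h14 u) (h3.memX hχ)))
    (fun σ u _ => norm_galois_ctr (h15 u) (h.bp.isPBlock_sb u.2).closed σ χ _) ?_ ⟨u, hu⟩ (by simpa using hu1)
  rw [← Finset.mul_sum, Finset.card_erase_of_mem (Finset.mem_univ _), Finset.card_univ, ← Nat.card_eq_fintype_card,
    Nat.cast_pred Nat.card_pos]
  simp only [map_mul, map_neg, map_intCast, map_natCast, Nat.cast_one, inv_one, one_mul] at h6 h9
  have h16 := congrArg ((ε : ℂ) * ·) h9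
  simp only [mul_add, ε] at h16
  rw [mul_inv_cancel_left₀ h13] at h16
  refine mul_left_cancel₀ h13 ?_
  linear_combination (Nat.card P : ℂ) * h6 - ε * h11 - Nat.card P * ε * h16 -
    Nat.card P * ε ^ 2 * (1 - classInner (reg p χ.1) χ.1) * h12

theorem autE_unique {A : Type*} [Group A] [Finite A] [IsCyclic A] (hA : IsPGroup p A) {E E' : Subgroup (MulAut A)}
    (h : Nat.card E = Nat.card E') (h1 : Nat.card E ∣ p - 1) : E = E' := by
  classical
  by_cases hp2 : p = 2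
  · subst hp2
    exact (card_eq_one.1 (Nat.dvd_one.1 h1)).trans (card_eq_one.1 (Nat.dvd_one.1 (h ▸ h1))).symm
  obtain ⟨n, hn⟩ := hA.exists_card_eq
  have : IsCyclic (ZMod (Nat.card A))ˣ := hn ▸ ZMod.isCyclic_units_of_prime_pow p hp.out hp2 n
  have := isCyclic_of_surjective _ (IsCyclic.mulAutMulEquiv A).symm.surjective
  have := Fintype.ofFinite (MulAut A)
  have key : ∀ H : Subgroup (MulAut A), (H : Set (MulAut A)) = {x | x ^ Nat.card H = 1} := fun H => by
    refine Set.eq_of_subset_of_ncard_le (fun x hx => congrArg Subtype.val (pow_card_eq_one' (x := (⟨x, hx⟩ : H)))) ?_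
    have := IsCyclic.card_pow_eq_one_le (α := MulAut A) (Nat.card_pos (α := H))
    rwa [← Set.ncard_coe_finset, Finset.coe_filter_univ] at this
  exact SetLike.coe_injective (by rw [key E, key E', h])

theorem exists_lift {H : Subgroup G} {c : Set (IrrCharacter H)} (hc : IsInducedBlock M H c B) (hP : IsDefectGroup p M B P)
    (hP' : IsDefectGroup p M c (P.subgroupOf H)) (hN : normalizer (P : Set G) ≤ H) :
    ∃ (e : MonoidAlgebra (F M) G) (e' : MonoidAlgebra (F M) H) (E : Subgroup (MulAut (P.subgroupOf H))),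
      MP p ⊤ (eB M B) P e ∧ MP p ⊤ (eB M c) (P.subgroupOf H) e' ∧
      (∀ σ, σ ∈ E ↔ ∃ t ∈ NS ⊤ P e, ∀ u, (subgroupOfEquivOfLe (le_normalizer.trans hN) (σ u) : G) =
        t * subgroupOfEquivOfLe (le_normalizer.trans hN) u * t⁻¹) ∧
      ∀ σ, σ ∈ E ↔ ∃ t ∈ NS ⊤ (P.subgroupOf H) e', ∀ u, ((MulEquiv.refl (P.subgroupOf H) (σ u) : P.subgroupOf H) : H) =
        t * (MulEquiv.refl (P.subgroupOf H) u : P.subgroupOf H) * t⁻¹ := by
  have hPH := le_normalizer.trans hN
  have := Fintype.ofFinite (P.subgroupOf H)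
  obtain ⟨e', h⟩ := (hc.1.isDefectGroup_iff_top.1 hP').exists_mp hc.1.isBI_top
  obtain ⟨E, hE, -⟩ := exists_autE (MulEquiv.refl _) (NS_le_normalizer ⊤ (P.subgroupOf H) e')
  have h1 : (⊤ : Subgroup H).map H.subtype = H := by simp [← MonoidHom.range_eq_map]
  have h2 := map_subgroupOf_eq_of_le hPH
  have h3 := (bp_push_iff H.subtype_injective).2 h.bp
  have h4 := map_NS H.subtype_injective ⊤ (P.subgroupOf H) e'
  have h5 := congrArg (incA H) h.br
  rw [map_mul, ← br_push H.subtype_injective] at h5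
  rw [h1, h2] at h3 h4
  rw [h2] at h5
  have hC := (centralizer_le_normalizer (P : Set G)).trans hN
  refine ⟨incA H e', e', E, ⟨hc.2.1.isBI_top, h3.congr (by rw [CH_top]; exact inf_eq_right.2 hC) le_top,
    hc.2.1.isDefectGroup_iff_top.1 hP, by rw [← h5, ← mul_assoc, hc.br_mul hP.isPGroup hPH hC]⟩, h,
    fun σ => (hE σ).trans ⟨fun ⟨t, ht, h6⟩ => ⟨t, ?_, fun u => congrArg Subtype.val (h6 u)⟩, fun ⟨t, ht, h6⟩ => ?_⟩, hE⟩
  · have := h4.le ⟨t, ht, rfl⟩
    exact ⟨⟨trivial, this.1.2⟩, this.2⟩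
  · obtain ⟨s, hs, rfl⟩ := h4.ge ⟨⟨hN ht.1.2, ht.1.2⟩, ht.2⟩
    exact ⟨s, hs, fun u => Subtype.ext (h6 u)⟩

end Cfsg.Agent.B
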