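import Cfsg.Agent.B.Lift
import Cfsg.Agent.B.Nak
import Cfsg.Agent.B.Rank2

/-!
# Symmetric local algebras with a small centre; blocks with one simple module and few characters.
-/

set_option autoImplicit false
set_option linter.unusedSectionVars false

namespace Cfsg.Agent.B

open MonoidAlgebra Subgroup Cfsg.Agent.H3 Cfsg.Agent.H2 Module

section Alg

variable {k : Type*} [Field k] {A : Type*} [Ring A] [Algebra k A] [FiniteDimensional k A]

theorem exists_le_span_sup {V : Type*} [AddCommGroup V] [Module k V] [FiniteDimensional k V] {U W : Submodule k V}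
    (h : U ≤ W) (h2 : finrank k W ≤ finrank k U + 1) : ∃ x ∈ W, W ≤ (k ∙ x) ⊔ U := by
  by_cases h3 : W ≤ U
  · exact ⟨0, zero_mem _, h3.trans le_sup_right⟩
  obtain ⟨x, hx, h4⟩ := SetLike.not_le_iff_exists.1 h3
  refine ⟨x, hx, (Submodule.eq_of_le_of_finrank_le (sup_le ((Submodule.span_singleton_le_iff_mem _ _).2 hx) h)
    (h2.trans (Submodule.finrank_lt_finrank_of_lt (right_lt_sup.2 fun h5 => h4 ?_)))).ge⟩
  exact h5 (Submodule.mem_span_singleton_self x)

variable {J : Submodule k A}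

theorem pow_add_le_of_mul_le (hJ : J * J ≤ J) (m n : ℕ) : J ^ (m + 1 + n) ≤ J ^ (m + 1) := by
  induction n with
  | zero => exact le_rfl
  | succ n ih =>
    refine le_trans ?_ ih
    rw [show m + 1 + (n + 1) = m + n + 1 + 1 by ring, show m + 1 + n = m + n + 1 by ring, pow_succ, pow_succ, mul_assoc]
    exact mul_le_mul_right hJ _

theorem eq_bot_of_le_mul {U : Submodule k A} (hn : IsNilpotent J) (h : U ≤ U * J) : U = ⊥ := by
  obtain ⟨n, hn⟩ := hn
  have : ∀ m, U ≤ U * J ^ m := fun m => by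
    induction m with
    | zero => simp
    | succ m ih => rw [pow_succ', ← mul_assoc]; exact ih.trans (mul_le_mul_left h _)
  exact eq_bot_iff.2 ((this n).trans (by simp [hn]))

theorem comm_of_gen_one (h1 : ∀ a : A, ∃ c : k, a - c • (1 : A) ∈ J) (hJ : J * J ≤ J) (hn : IsNilpotent J) {x : A}
    (hx : x ∈ J) (h : J ≤ (k ∙ x) ⊔ J ^ 2) (a b : A) : a * b = b * a := by
  let T := Subalgebra.toSubmodule (Algebra.adjoin k {x})
  have hT : ∀ m, J ≤ T ⊓ J ⊔ J ^ (m + 1) := fun m => by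
    induction m with
    | zero => simp
    | succ m ih =>
      refine h.trans (sup_le (le_sup_of_le_left ((Submodule.span_singleton_le_iff_mem _ _).2
        ⟨Algebra.subset_adjoin rfl, hx⟩)) ?_)
      rw [sq]
      refine (mul_le_mul' ih ih).trans ?_
      rw [Submodule.sup_mul, Submodule.mul_sup, Submodule.mul_sup]
      refine sup_le (sup_le (le_sup_of_le_left ?_) (le_sup_of_le_right ?_)) (sup_le (le_sup_of_le_right ?_) (le_sup_of_le_right ?_))
      · exact Submodule.mul_le.2 fun u hu v hv => ⟨(Algebra.adjoin k {x}).mul_mem hu.1 hv.1, hJ (Submodule.mul_mem_mul hu.2 hv.2)⟩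
      · rw [pow_succ' J (m + 1)]; exact mul_le_mul_left inf_le_right _
      · rw [pow_succ J (m + 1)]; exact mul_le_mul_right inf_le_right _
      · rw [← pow_add, show m + 1 + (m + 1) = m + 1 + 1 + m by ring]; exact pow_add_le_of_mul_le hJ _ _
  obtain ⟨n, hn⟩ := hn
  have h2 : ∀ a : A, a ∈ Algebra.adjoin k {x} := fun a => by
    obtain ⟨c, hc⟩ := h1 a
    have := hT n hc
    rw [pow_succ, hn, zero_mul, Submodule.zero_eq_bot, sup_bot_eq] at this
    have h3 := add_mem this.1 (T.smul_mem c (one_mem (Algebra.adjoin k {x})))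
    rwa [sub_add_cancel] at h3
  exact commute_of_adjoin (h2 b) (commute_of_adjoin (h2 a) (Commute.refl x)).symm

theorem comm_of_center_le (h1 : ∀ a : A, ∃ c : k, a - c • (1 : A) ∈ J) (hJ : J * J ≤ J) (hn : IsNilpotent J)
    (s : A →ₗ[k] k) (hs : ∀ a b, s (a * b) = s (b * a)) (hs' : ∀ a, (∀ b, s (a * b) = 0) → a = 0)
    (hZ : finrank k (Subalgebra.toSubmodule (Subalgebra.center k A)) ≤ 4) (a b : A) : a * b = b * a := by
  let K : Submodule k A := Submodule.span k {c | ∃ a b, a * b - b * a = c}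
  have hK : ∀ U : Submodule k A, (∀ a ∈ J, ∀ b ∈ J, a * b - b * a ∈ U) → K ≤ U := fun U hU => Submodule.span_le.2 (by
    rintro _ ⟨a, b, rfl⟩
    obtain ⟨c, hc⟩ := h1 a
    obtain ⟨d, hd⟩ := h1 b
    refine (congrArg (· ∈ U) ?_).mp (hU _ hc _ hd)
    simp only [mul_sub, sub_mul, mul_smul_comm, smul_mul_assoc, mul_one, one_mul, smul_sub, smul_comm c d]
    abel)
  have hK2 : K ≤ J ^ 2 := hK _ fun a ha b hb => by
    rw [sq]; exact sub_mem (Submodule.mul_mem_mul ha hb) (Submodule.mul_mem_mul hb ha)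
  have hKs : K ≤ LinearMap.ker s := hK _ fun a _ b _ => by rw [LinearMap.mem_ker, map_sub, hs, sub_self]
  have hker : ∀ U : Submodule k A, U * J ≤ LinearMap.ker s → U ≤ LinearMap.ker s → U = ⊥ := fun U h2 h3 =>
    eq_bot_iff.2 fun u hu => hs' u fun b => by
      obtain ⟨c, hc⟩ := h1 b
      have := h2 (Submodule.mul_mem_mul hu hc)
      rwa [LinearMap.mem_ker, mul_sub, map_sub, mul_smul_comm, mul_one, map_smul, h3 hu, smul_zero, sub_zero] at this
  by_contra h0
  have h2 : K ≠ ⊥ := fun h => h0 (sub_eq_zero.1 ((Submodule.eq_bot_iff _).1 h _ (Submodule.subset_span ⟨a, b, rfl⟩)))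
  have h3 : J ^ 3 ≠ ⊥ := fun h => h2 (hker K ((mul_le_mul_left hK2 _).trans (by rw [← pow_succ, h]; exact bot_le)) hKs)
  have h34 : J ^ 3 * J ≤ J ^ 3 := by rw [← pow_succ]; exact pow_add_le_of_mul_le hJ 2 1
  have h4 : ¬ J ^ 3 ≤ K := fun h => h3 (hker _ (h34.trans (h.trans hKs)) (h.trans hKs))
  have h23 : J ^ 3 ≤ J ^ 2 := pow_add_le_of_mul_le hJ 1 1
  have h12 : J ^ 2 ≤ J := by rwa [sq]
  have h5 : J < ⊤ := lt_top_iff_ne_top.2 fun h => h3 (eq_bot_of_le_mul hn (by
    rw [h]; exact fun u hu => by simpa using Submodule.mul_mem_mul hu (Submodule.mem_top (x := (1 : A)))))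
  let Bf : LinearMap.BilinForm k A := (LinearMap.mul k A).compr₂ s
  have h6 := LinearMap.BilinForm.finrank_add_finrank_orthogonal' (B := Bf) K
  have h7 : Bf.orthogonal K ≤ Subalgebra.toSubmodule (Subalgebra.center k A) := fun z hz =>
    (Subalgebra.mem_center_iff (R := k)).2 fun u => sub_eq_zero.1 (hs' _ fun v => by
      have := hz _ (Submodule.subset_span ⟨v, u, rfl⟩)
      change s ((v * u - u * v) * z) = 0 at this
      rw [sub_mul, map_sub, hs, mul_assoc z, hs z, ← mul_assoc, ← map_sub, ← sub_mul, this])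
  have h8 := Submodule.finrank_mono h7
  have h9 := Submodule.finrank_lt_finrank_of_lt h5
  have h10 := Submodule.finrank_lt_finrank_of_lt (left_lt_sup.2 h4)
  have h11 := Submodule.finrank_mono (sup_le hK2 h23)
  rw [finrank_top] at h9
  by_cases h12' : finrank k J ≤ finrank k (J ^ 2 : Submodule k A) + 1
  · obtain ⟨x, hx, h⟩ := exists_le_span_sup h12 h12'
    exact h0 (comm_of_gen_one h1 hJ hn hx h a b)
  have h13 : K ⊔ J ^ 3 = J ^ 2 := Submodule.eq_of_le_of_finrank_le (sup_le hK2 h23) (by omega)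
  obtain ⟨x, hx, h14⟩ := SetLike.not_le_iff_exists.1 (fun h : J ≤ J ^ 2 => by have := Submodule.finrank_mono h; omega)
  have h15 := Submodule.finrank_lt_finrank_of_lt (right_lt_sup.2 fun h : (k ∙ x) ≤ J ^ 2 =>
    h14 (h (Submodule.mem_span_singleton_self x)))
  obtain ⟨y, hy, h16⟩ := exists_le_span_sup (sup_le ((Submodule.span_singleton_le_iff_mem _ _).2 hx) h12) (by omega)
  have hm : ∀ {u v : A} {m : ℕ}, u ∈ J ^ m → v ∈ J → u * v ∈ J ^ (m + 1) := fun hu hv => by
    rw [pow_succ]; exact Submodule.mul_mem_mul hu hv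
  have hm' : ∀ {u v : A} {m : ℕ}, u ∈ J → v ∈ J ^ m → u * v ∈ J ^ (m + 1) := fun hu hv => by
    rw [pow_succ']; exact Submodule.mul_mem_mul hu hv
  set w := x * y - y * x with hw
  have h17 : J ^ 2 ≤ (k ∙ w) ⊔ J ^ 3 := by
    rw [← h13]
    refine sup_le (hK _ fun u hu v hv => ?_) le_sup_right
    obtain ⟨_, hu1, _, hu2, rfl⟩ := Submodule.mem_sup.1 (h16 hu)
    obtain ⟨_, hu3, u, hu', rfl⟩ := Submodule.mem_sup.1 hu2
    obtain ⟨_, hv1, _, hv2, rfl⟩ := Submodule.mem_sup.1 (h16 hv)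
    obtain ⟨_, hv3, v, hv', rfl⟩ := Submodule.mem_sup.1 hv2
    obtain ⟨c1, rfl⟩ := Submodule.mem_span_singleton.1 hu1
    obtain ⟨c2, rfl⟩ := Submodule.mem_span_singleton.1 hu3
    obtain ⟨d1, rfl⟩ := Submodule.mem_span_singleton.1 hv1
    obtain ⟨d2, rfl⟩ := Submodule.mem_span_singleton.1 hv3
    have h18 : c1 • y + c2 • x ∈ J := add_mem (J.smul_mem _ hy) (J.smul_mem _ hx)
    refine Submodule.mem_sup.2 ⟨(c2 * d1 - c1 * d2) • w, Submodule.smul_mem _ _ (Submodule.mem_span_singleton_self w), _,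
      add_mem (sub_mem (hm' h18 hv') (hm hv' h18)) (sub_mem (hm hu' hv) (hm' hv hu')), ?_⟩
    simp only [hw, mul_add, add_mul, mul_smul_comm, smul_mul_assoc]
    module
  have h18 : ∀ u ∈ J, ∀ v ∈ J, ∃ c : k, u * v - c • w ∈ J ^ 3 := fun u hu v hv => by
    obtain ⟨_, h, z, hz, h'⟩ := Submodule.mem_sup.1 (h17 (hm (m := 1) (u := u) (by rwa [pow_one]) hv))
    obtain ⟨c, rfl⟩ := Submodule.mem_span_singleton.1 h
    exact ⟨c, by rwa [← h', add_sub_cancel_left]⟩
  obtain ⟨t, ht, h19⟩ : ∃ t ∈ J, w * t ∉ J ^ 4 := by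
    by_contra! h
    refine h3 (eq_bot_of_le_mul hn ?_)
    rw [← pow_succ]
    refine le_trans (le_of_eq (pow_succ J 2)) ((mul_le_mul_left h17 _).trans ?_)
    rw [Submodule.sup_mul, ← pow_succ]
    refine sup_le (Submodule.mul_le.2 fun u hu v hv => ?_) le_rfl
    obtain ⟨c, rfl⟩ := Submodule.mem_span_singleton.1 hu
    rw [smul_mul_assoc]
    exact Submodule.smul_mem _ _ (h v hv)
  obtain ⟨l, h20, h21⟩ := (J ^ 4).exists_dual_map_eq_bot_of_notMem h19 inferInstance
  replace h21 : ∀ u ∈ J ^ 4, l u = 0 := fun u hu => (Submodule.eq_bot_iff _).1 h21 _ ⟨u, hu, rfl⟩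
  have h22 : ∀ u ∈ J, ∃ c : k, l (u * t * t) = c * l (w * t) ∧ ∀ v ∈ J, l (v * u * t) = c * l (v * w) := fun u hu => by
    obtain ⟨c, hc⟩ := h18 u hu t ht
    refine ⟨c, ?_, fun v hv => ?_⟩
    · have := h21 _ (hm hc ht)
      rwa [sub_mul, smul_mul_assoc, map_sub, map_smul, sub_eq_zero] at this
    · have := h21 _ (hm' hv hc)
      rwa [mul_sub, mul_smul_comm, map_sub, map_smul, sub_eq_zero, ← mul_assoc] at this
  obtain ⟨c1, h23, h24⟩ := h22 x hx
  obtain ⟨c2, h25, h26⟩ := h22 y hy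
  obtain ⟨c3, -, h27⟩ := h22 t ht
  have h28 : l (w * t) = c2 * l (x * w) - c1 * l (y * w) := by rw [← h24 y hy, ← h26 x hx, ← map_sub, ← sub_mul]
  rw [h27 x hx] at h23
  rw [h27 y hy] at h25
  exact mul_ne_zero h20 h20 (by linear_combination l (w * t) * h28 - l (x * w) * h25 + l (y * w) * h23)

section Corner

theorem corner_comm_aux {i : A} (hi : i * i = i) {C : Type*} [Ring C] [Algebra k C] (L : C →ₗ[k] A)
    (hL : Function.Injective L) (hmul : ∀ a b, L (a * b) = L a * L b) (hone : L 1 = i) (hsurj : ∀ y, ∃ a, L a = i * y * i)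
    (h1 : ∀ y, ∃ c : k, i * y * i - c • i ∈ Ring.jacobson A)
    (s : A →ₗ[k] k) (hs : ∀ a b, s (a * b) = s (b * a)) (hs' : ∀ a, (∀ b, s (a * b) = 0) → a = 0)
    (hZ : ∀ z : Fin 5 → A, (∀ j, i * z j = z j ∧ ∀ y, z j * y * i = i * y * z j) → ¬ LinearIndependent k z) (y z : A) :
    i * y * i * z * i = i * z * i * y * i := by
  have := IsArtinianRing.of_finite k A
  have : FiniteDimensional k C := FiniteDimensional.of_injective _ hL
  have hl : ∀ a, i * L a = L a := fun a => by rw [← hone, ← hmul, one_mul]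
  have hr : ∀ a, L a * i = L a := fun a => by rw [← hone, ← hmul, mul_one]
  let J := ((Ring.jacobson A).restrictScalars k).comap L
  have h2 : ∀ m, J ^ (m + 1) ≤ ((Ring.jacobson A ^ (m + 1)).restrictScalars k).comap L := fun m => by
    induction m with
    | zero => rw [zero_add, pow_one, Submodule.pow_one]
    | succ m ih =>
      rw [pow_succ]
      exact Submodule.mul_le.2 fun u hu v hv => by
        have := Ideal.mul_mem_mul (I := Ring.jacobson A ^ (m + 1)) (J := Ring.jacobson A) (ih hu) hv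
        rwa [← hmul] at this
  obtain ⟨a, ha⟩ := hsurj y
  obtain ⟨b, hb⟩ := hsurj z
  have key := comm_of_center_le (J := J) (fun a => by
      obtain ⟨c, hc⟩ := h1 (L a)
      rw [hl, hr, ← hone, ← map_smul, ← map_sub] at hc
      exact ⟨c, hc⟩)
    (Submodule.mul_le.2 fun u _ v hv => by
      have := (Ring.jacobson A).mul_mem_left (L u) hv
      rwa [← hmul] at this) (by
      obtain ⟨m, hm⟩ := IsSemiprimaryRing.isNilpotent (R := A)
      refine ⟨m + 1, eq_bot_iff.2 fun u hu => hL ?_⟩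
      have := h2 m hu
      rw [Submodule.pow_succ, hm, Submodule.zero_eq_bot, Submodule.bot_mul] at this
      rw [map_zero]; exact this)
    (s ∘ₗ L) (fun a b => by rw [LinearMap.comp_apply, LinearMap.comp_apply, hmul, hmul, hs]) (fun a ha => hL (by
      rw [map_zero]
      refine hs' _ fun b => ?_
      obtain ⟨c, hc⟩ := hsurj b
      have := ha c
      rwa [LinearMap.comp_apply, hmul, hc, ← mul_assoc, hs, ← mul_assoc, ← mul_assoc, hl, hr] at this)) (by
      by_contra! h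
      obtain ⟨z, hz⟩ := exists_linearIndependent_of_le_finrank (n := 5) h
      refine hZ _ (fun j => ⟨hl _, fun y => ?_⟩)
        (hz.map' (L ∘ₗ Submodule.subtype _) (LinearMap.ker_eq_bot.2 (hL.comp Subtype.val_injective)))
      obtain ⟨c, hc⟩ := hsurj y
      have := congrArg L ((Subalgebra.mem_center_iff (R := k)).1 (z j).2 c)
      rw [hmul, hmul, hc, mul_assoc _ i, hl, ← mul_assoc, ← mul_assoc, hr] at this
      exact this.symm) a b
  have := congrArg L key
  rw [hmul, hmul, ha, hb] at this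
  simpa only [← mul_assoc, mul_assoc _ i i, hi] using this

theorem corner_comm {i : A} (hi : i * i = i) (h1 : ∀ y, ∃ c : k, i * y * i - c • i ∈ Ring.jacobson A)
    (s : A →ₗ[k] k) (hs : ∀ a b, s (a * b) = s (b * a)) (hs' : ∀ a, (∀ b, s (a * b) = 0) → a = 0)
    (hZ : ∀ z : Fin 5 → A, (∀ j, i * z j = z j ∧ ∀ y, z j * y * i = i * y * z j) → ¬ LinearIndependent k z) (y z : A) :
    i * y * i * z * i = i * z * i * y * i := by
  have hi' : IsIdempotentElem i := hi
  let f : hi'.Corner →+ A := ⟨⟨fun a => a.1, rfl⟩, fun _ _ => rfl⟩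
  have hf : Function.Injective f := fun _ _ h => Subtype.ext h
  letI : SMul k hi'.Corner := ⟨fun c a => ⟨c • a.1, by
    obtain ⟨r, hr⟩ := a.2
    exact ⟨c • r, by simp only [← hr, mul_smul_comm, smul_mul_assoc]⟩⟩⟩
  letI : Algebra k hi'.Corner :=
    letI : Module k hi'.Corner := hf.module k f fun _ _ => rfl
    Algebra.ofModule (fun c a b => Subtype.ext (smul_mul_assoc c a.1 b.1)) fun c a b => Subtype.ext (mul_smul_comm c a.1 b.1)
  exact corner_comm_aux hi (C := hi'.Corner) ⟨f.toAddHom, fun _ _ => rfl⟩ hf (fun _ _ => rfl) rfl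
    (fun y => ⟨⟨_, y, rfl⟩, rfl⟩) h1 s hs hs' hZ y z

end Corner

end Alg

variable {G : Type*} [Group G] [Finite G]

section Sym

variable {k : Type*} [Field k] {f i : MonoidAlgebra k G} {n : ℕ} {a b : Fin n → MonoidAlgebra k G}

theorem hat_spec (hf : f ∈ cent k G) (hi : i * i = i) (hfi : f * i = i) (hab : ∑ r, a r * i * b r = f)
    {v : MonoidAlgebra k G} (h3 : i * v = v) (h5 : ∀ y, v * y * i = i * y * v) :
    ∑ r, a r * v * b r ∈ cent k G ∧ f * ∑ r, a r * v * b r = ∑ r, a r * v * b r ∧ i * ∑ r, a r * v * b r = v := by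
  have h6 : f * ∑ r, a r * v * b r = ∑ r, a r * v * b r := by
    rw [Finset.mul_sum]
    refine Finset.sum_congr rfl fun r _ => ?_
    rw [← mul_assoc, ← mul_assoc, (commute_of_cent hf _).eq, mul_assoc _ f, ← h3, ← mul_assoc f, hfi]
  have h7 : ∀ y, y * ∑ r, a r * v * b r = (∑ r, a r * v * b r) * y := fun y => Eq.symm <|
    calc _ = (∑ r, a r * v * b r) * y * f := by rw [← (commute_of_cent hf _).eq, ← mul_assoc, h6]
      _ = ∑ s, ∑ r, a s * (v * (b s * y * a r) * i) * b r := by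
        rw [← hab, Finset.sum_mul, Finset.sum_mul]; simp only [Finset.mul_sum, mul_assoc]
      _ = f * y * ∑ r, a r * v * b r := by
        rw [← hab, Finset.sum_mul, Finset.sum_mul]; simp only [h5, Finset.mul_sum]; simp only [mul_assoc]
      _ = _ := by rw [(commute_of_cent hf _).eq, mul_assoc, h6]
  refine ⟨mem_fix_iff.2 fun u _ => h7 _, h6, ?_⟩
  rw [Finset.mul_sum]
  simp only [← mul_assoc, ← h5]
  simp only [mul_assoc v, ← Finset.mul_sum]
  rw [hab, ← (commute_of_cent hf _).eq, ← h3, ← mul_assoc, hfi]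

theorem exists_cent_corner (hf : f ∈ cent k G) (hi : i * i = i) (hfi : f * i = i) (hab : ∑ r, a r * i * b r = f)
    (hJ : ∀ y, ∃ c : k, i * y * i - c • i ∈ Ring.jacobson (MonoidAlgebra k G))
    (hZ : ∀ z : Fin 5 → MonoidAlgebra k G, (∀ j, z j ∈ cent k G) → (∀ j, f * z j = z j) → ¬ LinearIndependent k z)
    (y : MonoidAlgebra k G) : ∃ z ∈ cent k G, i * y * i = i * z := by
  have key := corner_comm hi hJ (⟨⟨fun a => a.coeff 1, fun _ _ => rfl⟩, fun c a => coeff_smul' c a 1⟩ : _ →ₗ[k] k)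
    coeff_one_comm (fun a ha => eq_of_coeff_mul fun c => (ha c).trans (by rw [zero_mul]; rfl)) fun z hz h =>
      hZ (fun j => ∑ r, a r * z j * b r) (fun j => (hat_spec hf hi hfi hab (hz j).1 (hz j).2).1)
        (fun j => (hat_spec hf hi hfi hab (hz j).1 (hz j).2).2.1) (.of_comp (LinearMap.mulLeft k i) (by
          rwa [← funext fun j => (hat_spec hf hi hfi hab (hz j).1 (hz j).2).2.2] at h))
  obtain ⟨h1, -, h2⟩ := hat_spec hf hi hfi hab (v := i * y * i) (by rw [← mul_assoc, ← mul_assoc, hi])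
    fun z => by rw [key, ← mul_assoc, ← mul_assoc]
  exact ⟨_, h1, h2.symm⟩

end Sym

theorem ev_mul_of_corner {E y z : MonoidAlgebra ℂ G} (hE : E * E = E) (hz : z ∈ cent ℂ G) (h : E * y * E = E * z)
    {χ : G → ℂ} (hχ : IsIrrCharacter G χ) (w : MonoidAlgebra ℂ G) :
    ev χ (E * y * E * w) = om χ z * ev χ (E * w) ∧ ev χ (E * y) = om χ z * ev χ E := by
  have h1 : ∀ w, ev χ (E * y * E * w) = om χ z * ev χ (E * w) := fun w => by
    rw [h, ← (commute_of_cent hz E).eq, mul_assoc, ev_cent_mul hχ hz]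
  refine ⟨h1 w, ?_⟩
  have := h1 1
  rwa [mul_one, mul_one, ev_comm hχ.isClassFunction, ← mul_assoc, hE] at this

theorem ev_cube {E : MonoidAlgebra ℂ G} (hE : E * E = E) (h : ∀ g, ∃ z ∈ cent ℂ G, E * of ℂ G g * E = E * z)
    (χ : IrrCharacter G) : ev (χ : G → ℂ) E ^ 3 = ev (χ : G → ℂ) E := by
  have := Fintype.ofFinite G
  have h0 : (χ : G → ℂ) 1 ≠ 0 := χ.2.apply_one_ne_zero
  have hc := χ.2.isClassFunction
  have h1 : ∀ g, ev (χ : G → ℂ) E * ev (χ : G → ℂ) (cA g E * E) =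
      ev (χ : G → ℂ) (E * of ℂ G g) * ev (χ : G → ℂ) (E * of ℂ G g⁻¹) := fun g => by
    obtain ⟨z, hz, h⟩ := h g
    obtain ⟨h1, h2⟩ := ev_mul_of_corner hE hz h χ.2 (of ℂ G g⁻¹)
    rw [ev_comm hc, cA_eq, ← mul_assoc, ← mul_assoc, h1, h2]
    ring
  have h2 : ∑ g, cA g E ∈ cent ℂ G := mem_fix_cA.2 fun u _ => by
    rw [map_sum]
    exact Fintype.sum_equiv (Equiv.mulLeft u) _ _ fun t => by rw [← cA_mul]; rfl
  have h3 := Finset.sum_congr (s₁ := Finset.univ) rfl fun g _ => h1 g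
  rw [← Finset.mul_sum, ← map_sum, ← Finset.sum_mul, ev_cent_mul χ.2 h2, om_apply, map_sum] at h3
  simp only [ev_cA hc] at h3
  have h4 : (mkA fun g => (χ : G → ℂ) g⁻¹) ∈ cent ℂ G := mkA_mem_cent fun g u => by
    rw [← hc g⁻¹ u]; congr 1; group
  have h5 := ev_cent_mul χ.2 h4 E
  rw [om_mkA_inv' χ.2, irr_inner, if_pos rfl, (commute_of_cent h4 E).eq, ← hE, mul_assoc,
    eq_sum_of (E * mkA _), Finset.mul_sum, map_sum] at h5
  have h6 : ∀ g, (E * mkA fun g => (χ : G → ℂ) g⁻¹).coeff g = ev (χ : G → ℂ) (E * of ℂ G g⁻¹) := fun g => by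
    rw [coeff_mul_sum, ev_mul_of, Finset.sum_congr rfl]
    intro x _
    rw [coeff_mkA, ← hc.mul_comm]
    simp
  simp only [h6, mul_smul_comm, map_smul, smul_eq_mul, hE, mul_comm (ev _ (E * of ℂ G _⁻¹))] at h5
  rw [h5, Finset.sum_const, Finset.card_univ, ← Nat.card_eq_fintype_card, nsmul_eq_mul] at h3
  have h7 : (Nat.card G : ℂ) ≠ 0 := card_ne_zero
  field_simp at h3
  linear_combination h3

variable {p : ℕ} [hp : Fact p.Prime] {M : Ideal AlgInt} [hM : PMod p M]

theorem exists_cent_lift {E : MonoidAlgebra (O M) G} (hE : E * E = E)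
    (h : ∀ y, ∃ z ∈ cent (F M) G, dn M E * y * dn M E = dn M E * z) (y : MonoidAlgebra (O M) G) :
    ∃ z ∈ cent (O M) G, E * y * E = E * z := by
  let L := LinearMap.mulRight (O M) E ∘ₗ LinearMap.mulLeft (O M) E
  have hL : ∀ y, L y = E * y * E := fun _ => rfl
  let W := (Subalgebra.toSubmodule (cent (O M) G)).map (LinearMap.mulLeft (O M) E)
  have hVW : LinearMap.range L ≤ W := by
    refine Submodule.le_of_le_smul_of_le_jacobson_bot (I := IsLocalRing.maximalIdeal (O M))
      (Module.Finite.iff_fg.1 inferInstance) (IsLocalRing.jacobson_eq_maximalIdeal ⊥ bot_ne_top).ge ?_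
    rintro _ ⟨y, rfl⟩
    obtain ⟨a, ha, h⟩ := h (dn M y)
    obtain ⟨b, hb, rfl⟩ := exists_dn_eq ha
    have h1 : E * y * E - E * b ∈ _ := mem_smul_top_of_dn (by
      rw [map_sub, map_mul, map_mul, map_mul, h, sub_self])
    have h2 := Submodule.mem_map_of_mem (f := L) h1
    rw [Submodule.map_smul'', Submodule.map_top, hL, mul_sub, sub_mul, ← mul_assoc, ← mul_assoc, hE, mul_assoc _ E, hE,
      ← mul_assoc, hE, mul_assoc E b, (commute_of_cent hb E).eq, ← mul_assoc, hE] at h2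
    rw [hL, ← add_sub_cancel (E * b) (E * y * E)]
    exact add_mem (Submodule.mem_sup_left ⟨b, hb, rfl⟩) (Submodule.mem_sup_right h2)
  obtain ⟨a, ha, h⟩ := hVW ⟨y, rfl⟩
  exact ⟨a, ha, h.symm⟩

theorem sum_coeff_conj_eq_zero [Fintype G] {E : MonoidAlgebra (O M) G} (hE : E * E = E) {y : G} (hy : p ∣ orderOf y) :
    ∑ g, E.coeff (g * y * g⁻¹) = 0 := by
  classical
  let σ : Equiv.Perm G := Equiv.mulRight y
  have hσ : ∀ g, σ g = g * y := fun _ => rfl
  have hσ' : ∀ g, σ.symm g = g * y⁻¹ := fun _ => rfl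
  obtain ⟨ε, d, hε, hd, hdσ⟩ := exists_twist (M := M) σ Set.univ fun g _ n hn => by
    rw [show σ ^ n = Equiv.mulRight (y ^ n) from Equiv.zpow_mulRight y n, Equiv.coe_mulRight, mul_eq_left] at hn
    exact (Int.natCast_dvd_natCast.2 hy).trans (orderOf_dvd_iff_zpow_eq_one.2 hn)
  let Fm : Matrix G G (O M) := Matrix.of fun g h => E.coeff (g * h⁻¹)
  have hf : Fm * Fm = Fm := by
    ext g h
    simp only [Fm, Matrix.mul_apply, Matrix.of_apply]
    conv_rhs => rw [← hE, coeff_mul_sum']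
    congr 1
    exact Fintype.sum_equiv (Equiv.mulRight h⁻¹) _ _ fun k => by simp [mul_assoc]
  have key := trace_eq_zero (R := O M) (Matrix.traceLinearMap G (O M) (O M))
    (fun a b => Matrix.trace_mul_comm a b) (f := Fm) (T := σ.toPEquiv.toMatrix)
    (D := Matrix.diagonal d) hε hf (by
      rw [PEquiv.toMatrix_toPEquiv_mul, PEquiv.mul_toMatrix_toPEquiv]
      ext g h
      simp only [Fm, Matrix.submatrix_apply, Matrix.of_apply, id, hσ, hσ']
      congr 2; group) (by
      rw [PEquiv.toMatrix_toPEquiv_mul, PEquiv.mul_toMatrix_toPEquiv]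
      ext g h
      simp only [Matrix.submatrix_apply, id, Matrix.smul_apply, Matrix.diagonal_apply,
        Equiv.eq_symm_apply, hdσ g trivial, smul_eq_mul, mul_ite, mul_zero]) (by
      have h1 : Matrix.diagonal d - 1 ∈ IsLocalRing.maximalIdeal (O M) •
          (⊤ : Submodule (O M) (Matrix G G (O M))) := by
        rw [Matrix.matrix_eq_sum_single (Matrix.diagonal d - 1)]
        refine sum_mem fun g _ => sum_mem fun h _ => ?_
        rw [← mul_one ((Matrix.diagonal d - 1 : Matrix G G (O M)) g h), ← smul_eq_mul,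
          ← Matrix.smul_single]
        refine Submodule.smul_mem_smul ?_ trivial
        rw [← IsLocalRing.residue_eq_zero_iff, Matrix.sub_apply, map_sub, Matrix.diagonal_apply,
          Matrix.one_apply]
        split_ifs <;> simp [hd]
      have := mul_mem_smul_top h1 Fm Fm
      rwa [mul_sub, sub_mul, mul_one, hf] at this)
  rw [PEquiv.toMatrix_toPEquiv_mul] at key
  simpa only [Matrix.traceLinearMap_apply, Matrix.trace, Matrix.diag, Matrix.submatrix_apply, id,
    Fm, Matrix.of_apply, hσ] using key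

theorem ev_reg_up {E : MonoidAlgebra (O M) G} (hE : E * E = E) {φ : G → ℂ} (hφ : IsClassFunction G φ) :
    ev (reg p φ) (up M E) = ev φ (up M E) := by
  have := Fintype.ofFinite G
  have h1 : ∀ ψ : G → ℂ, IsClassFunction G ψ →
      Nat.card G * ev ψ (up M E) = ∑ y, ((∑ g, E.coeff (g * y * g⁻¹) : O M) : ℂ) * ψ y := fun ψ hψ => by
    simp only [AddSubmonoidClass.coe_finset_sum, Finset.sum_mul]
    rw [Finset.sum_comm, Nat.card_eq_fintype_card, ← nsmul_eq_mul, ← Finset.card_univ, ← Finset.sum_const]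
    refine Finset.sum_congr rfl fun g _ => ?_
    rw [ev_apply]
    exact (Fintype.sum_equiv (MulAut.conj g).toEquiv _ _ fun y => by rw [coeff_up, ← hψ y g]; rfl).symm
  refine mul_left_cancel₀ (card_ne_zero (G := G)) ?_
  rw [h1 _ hφ, h1 _ (isClassFunction_reg hφ)]
  refine Finset.sum_congr rfl fun y _ => ?_
  by_cases hy : p ∣ orderOf y
  · simp [sum_coeff_conj_eq_zero hE hy]
  · rw [reg_of_not_dvd _ hy]

theorem IsPBlock.card_eq_of_le_four {B : Set (IrrCharacter G)} (hB : IsPBlock M B) (h : blockRank p B = 1)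
    (hk : Nat.card B ≤ 4) : Nat.card B = p ^ blockDefect p B := by
  classical
  obtain ⟨i, hi, hfi, ⟨n, a, b, hab⟩, hJ⟩ := IsPBlock.exists_prim hB h
  have h1 := exists_cent_corner (eB_mem B) hi hfi hab hJ fun z h1 h2 h3 => by
    have := card_le_of_indep_cent hB.closed h1 h2 h3
    rw [Fintype.card_fin] at this
    omega
  have hb : ∀ {k : Type} [CommRing k] (a : MonoidAlgebra k G), a ∈ fix k ⊥ := fun a =>
    mem_fix_iff.2 fun u hu => by simp [mem_bot.1 hu, ← one_def]
  obtain ⟨E, -, hE, rfl, h2, -⟩ := exists_idem_lift_corner (hb _) hB.closed.fO_mul_self (hb i) hi hfi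
    ((commute_of_cent (eB_mem B) i).eq.symm.trans hfi)
  have hE' : up M E * up M E = up M E := by rw [← map_mul, hE]
  have h3 : ∀ g, ∃ z ∈ cent ℂ G, up M E * of ℂ G g * up M E = up M E * z := fun g => by
    obtain ⟨z, hz, h⟩ := exists_cent_lift hE h1 (of _ G g)
    exact ⟨up M z, mapA_mem_fix _ hz, by rw [← map_mul, ← h, map_mul, map_mul, mapA_of]⟩
  have h4 : ∀ χ ∉ B, ev (χ : G → ℂ) (up M E) = 0 := fun χ hχ => by
    rw [← h2, map_mul, hB.closed.up_fO, ev_fC_mul, if_neg hχ]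
  obtain ⟨φ, d, hφ, -, hd, h5, -⟩ := IsPBlock.exists_brauer hB h
  have h6 : ∀ χ ∈ B, ev (χ : G → ℂ) (up M E) = d χ * ev φ (up M E) := fun χ hχ => by
    rw [← ev_reg_up hE χ.2.isClassFunction, (hd χ hχ).2, ev_smul_fun, ev_reg_up hE hφ.isClassFunction]
  obtain ⟨κ, hκ⟩ := (isGen_tv (M := M) hφ (hb E) hE).exists_int_degree
  rw [tv, OneMemClass.coe_one, map_one, one_mul] at hκ
  have h7 : κ ≠ 0 := by
    rintro rfl
    have h7 : ∀ χ : IrrCharacter G, ev (χ : G → ℂ) (up M E) = 0 := fun χ => by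
      by_cases hχ : χ ∈ B
      · simp [h6 χ hχ, hκ]
      · exact h4 χ hχ
    have h8 : E = 0 := up_injective (extA fun g => by
      obtain ⟨z, hz, h⟩ := h3 g⁻¹
      rw [map_zero, coeff_eq_sum_ev]
      simp only [fun χ : IrrCharacter G => (ev_mul_of_corner hE' hz h χ.2 1).2, h7, mul_zero, Finset.sum_const_zero]
      rfl)
    exact hB.closed.eB_ne_zero hB.nonempty (by simp [← hab, h8])
  rw [← h5, ← card_filter_mem, Finset.card_eq_sum_ones]
  refine Finset.sum_congr rfl fun χ hχ => ?_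
  replace hχ := (Finset.mem_filter.1 hχ).2
  have h8 := ev_cube hE' h3 χ
  rw [h6 χ hχ, hκ] at h8
  have h9 : ((d χ : ℤ) * κ) ^ 3 = d χ * κ := by exact_mod_cast h8
  have h10 : (d χ : ℤ) * κ ≠ 0 := mul_ne_zero (by exact_mod_cast (hd χ hχ).1.ne') h7
  have h11 : (d χ : ℤ) * (d χ * κ * κ) = 1 := mul_right_cancel₀ h10 (by linear_combination h9)
  have h12 : d χ = 1 := by exact_mod_cast Int.eq_one_of_mul_eq_one_right (by positivity) h11
  rw [h12, one_pow]

end Cfsg.Agent.B
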